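/-
Parabolic subgroups of classical groups in the uniform setting: unipotent radicals of stabilisers
of totally singular subspaces, Levi factors and the big cell.
-/
import Cfsg.Agent.Geom.Polar
import Cfsg.Agent.Geom.Levi
import Cfsg.Agent.Geom.Mon
import Cfsg.Agent.Cls.Recip

set_option autoImplicit false

namespace CF.Ore

open Module Polynomial CF.Geom CF.Cls

section Grp

variable {Γ : Type*} [Group Γ]

/-- `g` is a commutator of two elements of `G` -/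
def Com (G : Subgroup Γ) (g : Γ) : Prop := ∃ a ∈ G, ∃ b ∈ G, g = a * b * a⁻¹ * b⁻¹

theorem Com.of_conj {G : Subgroup Γ} {g r : Γ} (hr : r ∈ G) (h : Com G (r * g * r⁻¹)) :
    Com G g := by
  obtain ⟨a, ha, b, hb, h⟩ := h
  refine ⟨r⁻¹ * a * r, G.mul_mem (G.mul_mem (G.inv_mem hr) ha) hr, r⁻¹ * b * r,
    G.mul_mem (G.mul_mem (G.inv_mem hr) hb) hr, ?_⟩
  calc g = r⁻¹ * (r * g * r⁻¹) * r := by group
    _ = _ := by rw [h]; group

theorem com_of_conj {G : Subgroup Γ} {a b k : Γ} (hb : b ∈ G) (hk : k ∈ G)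
    (h : a = k * b * k⁻¹) : Com G (a * b⁻¹) := ⟨k, hk, b, hb, by rw [h]⟩

theorem com_one (G : Subgroup Γ) : Com G 1 := ⟨1, G.one_mem, 1, G.one_mem, by simp⟩

theorem fpf_mod [Finite Γ] {U T : Subgroup Γ} {l : Γ} (hTU : T ≤ U)
    (hU : ∀ u ∈ U, l * u * l⁻¹ ∈ U) (hT : ∀ t ∈ T, l * t * l⁻¹ ∈ T)
    (hc : ∀ t ∈ T, ∀ u ∈ U, t * u = u * t) (hf : ∀ v ∈ U, v * l * v⁻¹ * l⁻¹ ∈ T → v ∈ T) :
    ∀ u ∈ U, ∃ v ∈ U, ∃ t ∈ T, u * l = v * (t * l) * v⁻¹ := by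
  intro u hu
  have hm : ∀ v : U, v * l * (v : Γ)⁻¹ * l⁻¹ ∈ U := fun v => by
    have := U.mul_mem v.2 (hU _ (U.inv_mem v.2))
    simpa [mul_assoc] using this
  let f : U → U ⧸ T.subgroupOf U := fun v => ((⟨_, hm v⟩ : U) : U ⧸ T.subgroupOf U)
  have h1 := card_eq_mul_of_coset (T.subgroupOf U) f fun g h => by
    simp only [f, QuotientGroup.eq, Subgroup.mem_subgroupOf, Subgroup.coe_mul, Subgroup.coe_inv]
    refine ⟨fun k => hf _ (U.mul_mem (U.inv_mem g.2) h.2) ?_, fun k => ?_⟩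
    · have e := hc _ k _ (hU _ g.2)
      convert k using 1
      calc _ = (l * g * l⁻¹)⁻¹ * (((g : Γ) * l * (g : Γ)⁻¹ * l⁻¹)⁻¹ * (h * l * (h : Γ)⁻¹ * l⁻¹) *
          (l * g * l⁻¹)) := by group
        _ = _ := by rw [e]; group
    · have k2 := T.mul_mem k (hT _ (T.inv_mem k))
      have e := hc _ k2 _ (hU _ (U.inv_mem g.2))
      convert k2 using 1
      calc _ = (l * (g : Γ)⁻¹ * l⁻¹)⁻¹ * (((g : Γ)⁻¹ * h * (l * ((g : Γ)⁻¹ * h)⁻¹ * l⁻¹)) *
          (l * (g : Γ)⁻¹ * l⁻¹)) := by group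
        _ = _ := by rw [e]; group
  rw [Subgroup.card_eq_card_quotient_mul_card_subgroup (T.subgroupOf U)] at h1
  have h2 := Nat.eq_of_mul_eq_mul_right Nat.card_pos h1
  have h3 : Set.range f = Set.univ := by
    refine Set.eq_of_subset_of_ncard_le (Set.subset_univ _) ?_
    rw [Set.ncard_univ, h2]; rfl
  obtain ⟨v, hv⟩ : (((⟨u, hu⟩ : U)) : U ⧸ T.subgroupOf U) ∈ Set.range f := h3 ▸ trivial
  have h4 : ((v : Γ) * l * (v : Γ)⁻¹ * l⁻¹)⁻¹ * u ∈ T :=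
    Subgroup.mem_subgroupOf.1 (QuotientGroup.eq (s := T.subgroupOf U) (a := ⟨_, hm v⟩)
      (b := ⟨u, hu⟩) |>.1 hv)
  refine ⟨v, v.2, _, h4, ?_⟩
  have e1 := hc _ h4 _ (hm v)
  have e2 := hc _ h4 _ v.2
  generalize ht : ((v : Γ) * l * (v : Γ)⁻¹ * l⁻¹)⁻¹ * u = t at *
  have : u = (v : Γ) * l * (v : Γ)⁻¹ * l⁻¹ * t := by rw [← ht]; group
  rw [this, ← e1, ← mul_assoc (v : Γ) t, ← e2]; group

end Grp

variable {F V : Type*} [Field F] [AddCommGroup V] [Module F V] {σ : F →+* F}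

/-- the unipotent radical of the stabiliser of `W` -/
def UR (B : V →ₛₗ[σ] V →ₗ[F] F) (Q : V → F) (W : Submodule F V) : Subgroup (V ≃ₗ[F] V) where
  carrier := {g | g ∈ Isom B Q ∧ (∀ w ∈ W, g w = w) ∧ ∀ x ∈ perp B W, g x - x ∈ W}
  mul_mem' := by
    rintro a b ⟨a1, a2, a3⟩ ⟨b1, b2, b3⟩
    refine ⟨mul_mem a1 b1, fun w hw => by rw [LinearEquiv.mul_apply, b2 w hw, a2 w hw],
      fun x hx => ?_⟩
    have : b x ∈ perp B W := mem_perp.2 fun w hw => by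
      rw [← b2 w hw, (mem_isom.1 b1).1, mem_perp.1 hx w hw]
    simpa using W.add_mem (a3 _ this) (b3 x hx)
  one_mem' := ⟨one_mem _, fun _ _ => rfl, fun x _ => by simp⟩
  inv_mem' := by
    rintro a ⟨a1, a2, a3⟩
    refine ⟨inv_mem a1, fun w hw => by conv_lhs => rw [← a2 w hw, inv_apply_apply], fun x hx => ?_⟩
    have : a⁻¹ x ∈ perp B W := mem_perp.2 fun w hw => by
      rw [← (mem_isom.1 a1).1, a2 w hw, apply_inv_apply, mem_perp.1 hx w hw]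
    simpa [apply_inv_apply] using W.neg_mem (a3 _ this)

/-- the isometries moving every vector by an element of `Y` -/
def Dp (B : V →ₛₗ[σ] V →ₗ[F] F) (Q : V → F) (Y : Submodule F V) : Subgroup (V ≃ₗ[F] V) where
  carrier := {g | g ∈ Isom B Q ∧ ∀ x, g x - x ∈ Y}
  mul_mem' := by
    rintro a b ⟨a1, a2⟩ ⟨b1, b2⟩
    exact ⟨mul_mem a1 b1, fun x => by simpa using Y.add_mem (a2 (b x)) (b2 x)⟩
  one_mem' := ⟨one_mem _, fun x => by simp⟩
  inv_mem' := by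
    rintro a ⟨a1, a2⟩
    exact ⟨inv_mem a1, fun x => by simpa [apply_inv_apply] using Y.neg_mem (a2 (a⁻¹ x))⟩

/-- totally singular subspaces -/
structure TS (B : V →ₛₗ[σ] V →ₗ[F] F) (Q : V → F) (W : Submodule F V) : Prop where
  q : ∀ w ∈ W, Q w = Q 0
  b : ∀ w ∈ W, ∀ w' ∈ W, B w w' = 0

/-- opposite totally singular subspaces -/
structure Op (B : V →ₛₗ[σ] V →ₗ[F] F) (Q : V → F) (W W' : Submodule F V) : Prop where
  witt : IsWittPair σ B Q
  ts : TS B Q W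
  ts' : TS B Q W'
  compl : IsCompl W (perp B W')

variable {B : V →ₛₗ[σ] V →ₗ[F] F} {Q : V → F} {W W' W'' Y : Submodule F V} {g l u : V ≃ₗ[F] V}

theorem isom_b (hg : g ∈ Isom B Q) (x y : V) : B (g x) (g y) = B x y := (mem_isom.1 hg).1 x y

theorem isom_q (hg : g ∈ Isom B Q) (x : V) : Q (g x) = Q x := (mem_isom.1 hg).2 x

theorem TS.le_perp (h : TS B Q W) : W ≤ perp B W := fun x hx =>
  mem_perp.2 fun w hw => h.b w hw x hx

theorem TS.mono (h : TS B Q W) (h' : Y ≤ W) : TS B Q Y :=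
  ⟨fun w hw => h.q w (h' hw), fun w hw w' hw' => h.b w (h' hw) w' (h' hw')⟩

theorem TS.map (h : TS B Q W) (hg : g ∈ Isom B Q) : TS B Q (W.map (g : V →ₗ[F] V)) := by
  constructor
  · rintro _ ⟨w, hw, rfl⟩; exact (isom_q hg w).trans (h.q w hw)
  · rintro _ ⟨w, hw, rfl⟩ _ ⟨w', hw', rfl⟩; exact (isom_b hg w w').trans (h.b w hw w' hw')

theorem UR_disp (hu : u ∈ UR B Q W) (x : V) : u x - x ∈ perp B W := mem_perp.2 fun w hw => by
  rw [map_sub, ← hu.2.1 w hw, isom_b hu.1, hu.2.1 w hw, sub_self]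

theorem UR_perp (hu : u ∈ UR B Q W) {x : V} (hx : x ∈ perp B W) : u x ∈ perp B W := by
  simpa using add_mem (UR_disp hu x) hx

theorem Rad_mem_UR (h : IsWittPair σ B Q) {w : V} (hw : w ∈ W) {A : Submodule F V}
    (hA : A ≤ perp B W) (hg : g ∈ Rad B Q w A) : g ∈ UR B Q W :=
  ⟨hg.1, fun _ hx => h.Rad_fix hg (perp_anti hA (h.le_perp_perp W hx)), fun x hx =>
    (Submodule.span_singleton_le_iff_mem _ _).2 hw (hg.2.2.1 x (mem_perp.1 hx w hw))⟩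

theorem Dp_fix (h : IsWittPair σ B Q) (hg : g ∈ Dp B Q Y) {x : V} (hx : x ∈ perp B Y) :
    g x = x := by
  refine sub_eq_zero.1 (h.nondeg' _ fun y => ?_)
  obtain ⟨z, rfl⟩ := g.surjective y
  have := mem_perp.1 hx _ (hg.2 z)
  rw [map_sub, LinearMap.sub_apply] at this
  rw [map_sub, isom_b hg.1, ← neg_sub, this, neg_zero]

theorem Dp_le_UR (h : IsWittPair σ B Q) (hW : TS B Q W) (hY : Y ≤ W) : Dp B Q Y ≤ UR B Q W :=
  fun _ hg => ⟨hg.1, fun _ hw => Dp_fix h hg (perp_anti hY (hW.le_perp hw)),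
    fun x _ => hY (hg.2 x)⟩

theorem Dp_comm (h : IsWittPair σ B Q) (hY : Y ≤ W) (hg : g ∈ Dp B Q Y) (hu : u ∈ UR B Q W) :
    g * u = u * g := by
  ext x
  have h1 := Dp_fix h hg (perp_anti hY (UR_disp hu x))
  have h2 := hu.2.1 _ (hY (hg.2 x))
  rw [map_sub] at h1 h2
  rw [LinearEquiv.mul_apply, LinearEquiv.mul_apply]
  linear_combination (norm := module) h1 - h2

theorem Dp_conj (hl : l ∈ Isom B Q) {Y' : Submodule F V} (hY : ∀ y ∈ Y, l y ∈ Y')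
    (hg : g ∈ Dp B Q Y) : l * g * l⁻¹ ∈ Dp B Q Y' :=
  ⟨mul_mem (mul_mem hl hg.1) (inv_mem hl), fun x => by
    simpa [apply_inv_apply] using hY _ (hg.2 (l⁻¹ x))⟩

theorem mem_Dp_of_fix [FiniteDimensional F V] (h : IsWittPair σ B Q) (hg : g ∈ Isom B Q)
    (hx : ∀ x ∈ perp B Y, g x = x) : g ∈ Dp B Q Y := by
  refine ⟨hg, fun x => ?_⟩
  rw [← h.perp_perp Y]
  exact mem_perp.2 fun z hz => by rw [map_sub, ← hx z hz, isom_b hg, hx z hz, sub_self]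

variable [FiniteDimensional F V]

theorem inv_mem_of (hl : ∀ w ∈ W, l w ∈ W) {w : V} (hw : w ∈ W) : l⁻¹ w ∈ W :=
  subStab_apply (inv_mem (mem_subStab_iff_le.2 hl)) hw

theorem perp_mem_of (hl : l ∈ Isom B Q) (hW : ∀ w ∈ W, l w ∈ W) {x : V} (hx : x ∈ perp B W) :
    l x ∈ perp B W := subStab_apply (subStab_perp hl (mem_subStab_iff_le.2 hW)) hx

theorem UR_conj (hl : l ∈ Isom B Q) (hW : ∀ w ∈ W, l w ∈ W) (hu : u ∈ UR B Q W) :
    l * u * l⁻¹ ∈ UR B Q W :=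
  ⟨mul_mem (mul_mem hl hu.1) (inv_mem hl), fun w hw => by
    rw [LinearEquiv.mul_apply, LinearEquiv.mul_apply, hu.2.1 _ (inv_mem_of hW hw),
      apply_inv_apply], fun x hx => by
    simpa [apply_inv_apply] using
      hW _ (hu.2.2 _ (perp_mem_of (inv_mem hl) (fun _ => inv_mem_of hW) hx))⟩

theorem UR_le {G : Subgroup (V ≃ₗ[F] V)} (hG : PolarG B Q G) (hW : TS B Q W) : UR B Q W ≤ G := by
  have h := hG.witt
  refine (le_of_fix_step _ (G ⊓ UR B Q W) inf_le_right fun g hg h1 => ?_).trans inf_le_left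
  have hA : ∀ z, ∀ x ∈ fixSp g, B x (g z - z) = 0 := fun z x hx => by
    rw [map_sub, ← mem_fixSp.1 hx, isom_b hg.1, mem_fixSp.1 hx, sub_self]
  obtain ⟨e, he, he0, heA⟩ : ∃ e ∈ W, e ≠ 0 ∧ e ∈ perp B (fixSp g) := by
    by_cases hc : ∀ x ∈ perp B W, g x = x
    · obtain ⟨z, hz⟩ : ∃ z, g z ≠ z := by
        by_contra! hc; exact h1 (LinearEquiv.ext hc)
      exact ⟨_, (mem_Dp_of_fix h hg.1 hc).2 z, sub_ne_zero.2 hz, mem_perp.2 (hA z)⟩
    · push Not at hc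
      obtain ⟨z, hz, hz'⟩ := hc
      exact ⟨_, hg.2.2 z hz, sub_ne_zero.2 hz', mem_perp.2 (hA z)⟩
  obtain ⟨y, -, hy⟩ := h.exists_hyperbolic he0 (hW.q e he)
  obtain ⟨r, hr, hry⟩ := h.exists_Rad (hW.q e he) heA (y := y) (y' := g y) (by simp [hy])
    (by rw [← hg.2.1 e he, isom_b hg.1, hg.2.1 e he]) (isom_q hg.1 y) (mem_perp.2 (hA y))
  refine ⟨r, ⟨hG.rad_le' he0 (hW.q e he) _ hr, Rad_mem_UR h he
    (perp_anti fun w hw => mem_fixSp.2 (hg.2.1 w hw)) hr⟩, y, fun e1 => ?_, hry,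
    fun x hx => h.Rad_fix hr (h.le_perp_perp _ (mem_fixSp.2 hx))⟩
  simpa [hy] using h.refl (mem_perp.1 heA y (mem_fixSp.2 e1))

namespace Op

theorem symm (h : Op B Q W W') : Op B Q W' W := by
  refine ⟨h.witt, h.ts', h.ts, disjoint_iff.2 ?_, codisjoint_iff.2 ?_⟩
  · rw [← h.witt.perp_perp W', inf_comm, ← perp_sup, h.compl.sup_eq_top, h.witt.perp_top]
  · rw [← h.witt.perp_perp W', sup_comm, ← h.witt.perp_inf, h.compl.inf_eq_bot, perp_bot]

omit [FiniteDimensional F V] in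
theorem eq_zero (h : Op B Q W W') {x : V} (h1 : x ∈ W) (h2 : x ∈ perp B W') : x = 0 :=
  Submodule.disjoint_def.1 h.compl.disjoint x h1 h2

omit [FiniteDimensional F V] in
theorem dec (h : Op B Q W W') (x : V) : ∃ w ∈ W, x - w ∈ perp B W' := by
  obtain ⟨w, hw, z, hz, rfl⟩ := Submodule.mem_sup.1 (h.compl.sup_eq_top ▸ Submodule.mem_top (x := x))
  exact ⟨w, hw, by simpa using hz⟩

theorem dec3 (h : Op B Q W W') (v : V) :
    ∃ w ∈ W, ∃ x ∈ W', ∃ π ∈ perp B W ⊓ perp B W', v = w + π + x := by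
  obtain ⟨w, hw, h1⟩ := h.dec v
  obtain ⟨x, hx, h2⟩ := h.symm.dec (v - w)
  exact ⟨w, hw, x, hx, _, ⟨h2, sub_mem h1 (h.ts'.le_perp hx)⟩, by abel⟩

theorem finrank_eq (h : Op B Q W W') : finrank F W = finrank F W' := by
  have h1 := Submodule.finrank_add_eq_of_isCompl h.compl
  have h2 := h.witt.finrank_perp W'
  omega

theorem of_disjoint (h : IsWittPair σ B Q) (h1 : TS B Q W) (h2 : TS B Q W')
    (hd : finrank F W' ≤ finrank F W) (h3 : ∀ x ∈ W, x ∈ perp B W' → x = 0) : Op B Q W W' := by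
  have h4 := h.finrank_perp W'
  have h5 := Submodule.disjoint_def.2 h3
  refine ⟨h, h1, h2, h5, codisjoint_iff.2 (Submodule.eq_top_of_finrank_eq (le_antisymm
    (Submodule.finrank_le _) ?_))⟩
  have := Submodule.finrank_sup_add_finrank_inf_eq W (perp B W')
  rw [h5.eq_bot, finrank_bot] at this
  omega

theorem map (h : Op B Q W W') (hg : g ∈ Isom B Q) :
    Op B Q (W.map (g : V →ₗ[F] V)) (W'.map (g : V →ₗ[F] V)) := by
  refine of_disjoint h.witt (h.ts.map hg) (h.ts'.map hg)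
    (by rw [finrank_map_equiv, finrank_map_equiv, h.finrank_eq]) ?_
  rintro _ ⟨x, hx, rfl⟩ h1
  rw [← map_perp (mem_isom.1 hg).1, mem_map_equiv'] at h1
  simp [h.eq_zero hx (by simpa [inv_apply_apply] using h1)]

theorem map_right (h : Op B Q W W') (hg : g ∈ Isom B Q) (hW : ∀ w ∈ W, g w ∈ W) :
    Op B Q W (W'.map (g : V →ₗ[F] V)) := by
  have := h.map hg
  rwa [mem_subStab.1 (mem_subStab_iff_le.2 hW)] at this

theorem exists_UR (h : Op B Q W W') (h' : Op B Q W W'') :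
    ∃ u ∈ UR B Q W, W'.map (u : V →ₗ[F] V) = W'' := by
  obtain ⟨n, hn⟩ : ∃ n, finrank F W'' ≤ finrank F ↥(W' ⊓ W'') + n := ⟨_, Nat.le_add_left _ _⟩
  have hw := h.witt
  induction n generalizing W' with
  | zero =>
    have h1 := Submodule.eq_of_le_of_finrank_le inf_le_right hn
    refine ⟨1, one_mem _, (Submodule.map_id _).trans (Submodule.eq_of_le_of_finrank_le
      (h1 ▸ inf_le_left) ?_).symm⟩
    rw [← h.finrank_eq, h'.finrank_eq]
  | succ n ih =>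
    by_cases hc : W' ≤ W''
    · exact ⟨1, one_mem _, (Submodule.map_id _).trans (Submodule.eq_of_le_of_finrank_le hc
        (by rw [← h.finrank_eq, h'.finrank_eq]))⟩
    obtain ⟨x, hx, hx'⟩ := SetLike.not_le_iff_exists.1 hc
    obtain ⟨x'', h1, h2⟩ := h'.symm.dec x
    obtain ⟨e, he, he'⟩ := hw.exists_dual_vec (x := x) (Z := (W' ⊓ W'') ⊔ perp B W) fun hm => by
      obtain ⟨k, hk, z, hz, rfl⟩ := Submodule.mem_sup.1 hm
      obtain rfl := h.symm.eq_zero (by simpa using W'.sub_mem hx hk.1) hz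
      exact hx' (by simpa using hk.2)
    have heW : e ∈ W := hw.perp_perp W ▸ mem_perp.2 fun z hz => he' z (Submodule.mem_sup_right hz)
    obtain ⟨r, hr, hrx⟩ := hw.exists_Rad (h.ts.q e heW) (A := perp B W ⊓ perp B (W' ⊓ W''))
      ⟨h.ts.le_perp heW, mem_perp.2 fun z hz => he' z (Submodule.mem_sup_left hz)⟩ (y := x)
      (y' := x'') (fun e0 => by simpa [he] using hw.refl e0)
      (by have := mem_perp.1 h2 e heW; rwa [map_sub, sub_eq_zero, eq_comm] at this)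
      (by rw [h'.ts'.q _ h1, h.ts'.q _ hx]) ⟨by simpa using neg_mem h2, mem_perp.2 fun z hz => by
        rw [map_sub, h'.ts'.b _ hz.2 _ h1, h.ts'.b _ hz.1 _ hx, sub_self]⟩
    have hrU := Rad_mem_UR hw heW inf_le_left hr
    have h3 : x'' ∉ W' ⊓ W'' := fun hm => hx' <| by
      rwa [sub_eq_zero.1 (h.symm.eq_zero (W'.sub_mem hx hm.1) h2)]
    have h4 : (W' ⊓ W'') ⊔ F ∙ x'' ≤ W'.map (r : V →ₗ[F] V) ⊓ W'' := by
      refine sup_le (fun k hk => ⟨⟨k, hk.1, ?_⟩, hk.2⟩) ?_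
      · exact hw.Rad_fix hr (perp_anti inf_le_right (hw.le_perp_perp _ hk))
      · exact (Submodule.span_singleton_le_iff_mem _ _).2 ⟨⟨x, hx, hrx⟩, h1⟩
    have h5 := Submodule.finrank_mono h4
    rw [Submodule.finrank_sup_span_singleton h3] at h5
    obtain ⟨u, hu, h6⟩ := ih (h.map_right hrU.1 fun w hw => by rwa [hrU.2.1 w hw]) (by omega)
    exact ⟨u * r, mul_mem hu hrU, by rw [map_mul_equiv, h6]⟩

theorem ext (h : Op B Q W W') {l l' : V ≃ₗ[F] V} (hl : l ∈ Isom B Q) (hl' : l' ∈ Isom B Q)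
    (h1 : ∀ w ∈ W, l w = l' w) (h0 : ∀ w ∈ W, l w ∈ W)
    (h2 : ∀ π ∈ perp B W ⊓ perp B W', l π = l' π) (h3 : ∀ x ∈ W', l x ∈ W')
    (h3' : ∀ x ∈ W', l' x ∈ W') : l = l' := by
  ext v
  obtain ⟨w, hw, x, hx, π, hπ, rfl⟩ := h.dec3 v
  rw [map_add, map_add, map_add, map_add, h1 w hw, h2 π hπ]
  congr 1
  refine sub_eq_zero.1 (h.symm.eq_zero (sub_mem (h3 x hx) (h3' x hx)) (mem_perp.2 fun z hz => ?_))
  have h4 := inv_mem_of h0 hz
  rw [map_sub, ← apply_inv_apply l z, isom_b hl, h1 _ h4, isom_b hl', sub_self]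

theorem exists_levi (h : Op B Q W W') (Z : W ≃ₗ[F] W) : ∃ l ∈ Isom B Q, (∀ w : W, l w = Z w) ∧
    (∀ π ∈ perp B W ⊓ perp B W', l π = π) ∧ ∀ x ∈ W', l x ∈ W' := by
  have hw := h.witt
  let p := W.projectionOnto _ h.compl
  let φ : perp B W →ₗ[F] V := (perp B W).subtype +
    W.subtype ∘ₗ ((Z : W →ₗ[F] W) - LinearMap.id) ∘ₗ p ∘ₗ (perp B W).subtype
  have hφ : ∀ x : perp B W, φ x = x + ((Z (p x) - p x : W) : V) := fun x => rfl
  obtain ⟨k, k1, k2, k3⟩ := hw.extend_map (perp B W) φ ((injective_iff_map_eq_zero _).2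
    fun x hx => by
      rw [hφ] at hx
      have h1 : (x : V) ∈ W := by
        rw [eq_neg_of_add_eq_zero_left hx]; exact neg_mem (Submodule.coe_mem _)
      have h2 : p x = ⟨x, h1⟩ := Submodule.projectionOnto_apply_left h.compl ⟨x, h1⟩
      rw [h2] at hx
      have : Z ⟨x, h1⟩ = 0 := Subtype.ext (by simpa using hx)
      exact Subtype.ext (congrArg Subtype.val (Z.map_eq_zero_iff.1 this) :))
    (fun x x' => by
      rw [hφ, hφ]
      simp only [map_add, LinearMap.add_apply, mem_perp.1 x'.2 _ (Submodule.coe_mem _),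
        hw.refl (mem_perp.1 x.2 _ (Submodule.coe_mem _)),
        h.ts.b _ (Submodule.coe_mem _) _ (Submodule.coe_mem _), add_zero])
    fun x => by
      rw [hφ]
      exact hw.norm_add_singular (h.ts.q _ (Submodule.coe_mem _))
        (hw.refl (mem_perp.1 x.2 _ (Submodule.coe_mem _)))
  have hk : k ∈ Isom B Q := mem_isom.2 ⟨k1, k2⟩
  have k4 : ∀ w : W, k w = Z w := fun w => by
    have h2 : p w = w := Submodule.projectionOnto_apply_left h.compl w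
    rw [k3 ⟨w, h.ts.le_perp w.2⟩, hφ]
    simp [h2]
  have k5 : ∀ π ∈ perp B W ⊓ perp B W', k π = π := fun π hπ => by
    have h2 : p π = 0 := Submodule.projectionOnto_apply_of_mem_right h.compl hπ.2
    rw [k3 ⟨π, hπ.1⟩, hφ]
    simp [h2]
  obtain ⟨u, hu, h6⟩ := (h.map_right hk fun w hw => by
    rw [k4 ⟨w, hw⟩]; exact Submodule.coe_mem _).exists_UR h
  refine ⟨u * k, mul_mem hu.1 hk, fun w => ?_, fun π hπ => ?_, fun x hx => ?_⟩
  · rw [LinearEquiv.mul_apply, k4, hu.2.1 _ (Submodule.coe_mem _)]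
  · rw [LinearEquiv.mul_apply, k5 π hπ]
    refine sub_eq_zero.1 (h.eq_zero (hu.2.2 π hπ.1) (sub_mem ?_ hπ.2))
    rw [← h6, ← map_perp (mem_isom.1 hu.1).1, ← map_perp k1]
    exact ⟨π, ⟨π, hπ.2, k5 π hπ⟩, rfl⟩
  · rw [← h6]; exact ⟨_, ⟨x, hx, rfl⟩, rfl⟩

/-- the Levi homomorphism `GL(W) → Isom` -/
noncomputable def lv (h : Op B Q W W') : (W ≃ₗ[F] W) →* (V ≃ₗ[F] V) :=
  MonoidHom.mk' (fun Z => (h.exists_levi Z).choose) fun Z Z' => by
    obtain ⟨a1, a2, a3, a4⟩ := (h.exists_levi (Z * Z')).choose_spec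
    obtain ⟨b1, b2, b3, b4⟩ := (h.exists_levi Z).choose_spec
    obtain ⟨c1, c2, c3, c4⟩ := (h.exists_levi Z').choose_spec
    refine h.ext a1 (mul_mem b1 c1) (fun w hw => ?_) (fun w hw => ?_) (fun π hπ => ?_) a4
      fun x hx => b4 _ (c4 x hx)
    · rw [a2 ⟨w, hw⟩, LinearEquiv.mul_apply, LinearEquiv.mul_apply, c2 ⟨w, hw⟩, b2]
    · rw [a2 ⟨w, hw⟩]; exact Submodule.coe_mem _
    · rw [a3 π hπ, LinearEquiv.mul_apply, c3 π hπ, b3 π hπ]

theorem lv_isom (h : Op B Q W W') (Z : W ≃ₗ[F] W) : h.lv Z ∈ Isom B Q :=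
  (h.exists_levi Z).choose_spec.1

theorem lv_left (h : Op B Q W W') (Z : W ≃ₗ[F] W) (w : W) : h.lv Z w = Z w :=
  (h.exists_levi Z).choose_spec.2.1 w

theorem lv_mid (h : Op B Q W W') (Z : W ≃ₗ[F] W) {π : V} (hπ : π ∈ perp B W ⊓ perp B W') :
    h.lv Z π = π := (h.exists_levi Z).choose_spec.2.2.1 π hπ

theorem lv_right (h : Op B Q W W') (Z : W ≃ₗ[F] W) {x : V} (hx : x ∈ W') : h.lv Z x ∈ W' :=
  (h.exists_levi Z).choose_spec.2.2.2 x hx

theorem lv_mem (h : Op B Q W W') (Z : W ≃ₗ[F] W) {w : V} (hw : w ∈ W) : h.lv Z w ∈ W := by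
  rw [h.lv_left Z ⟨w, hw⟩]; exact Submodule.coe_mem _

theorem lv_mem_of_det {G : Subgroup (V ≃ₗ[F] V)} (hG : PolarG B Q G) (h : Op B Q W W')
    {Z : W ≃ₗ[F] W} (hZ : LinearMap.det (Z : W →ₗ[F] W) = 1) : h.lv Z ∈ G := by
  refine SLG_le_of_tvE (M := G.comap h.lv) (fun φ v hv => ?_) (mem_SLG.2 hZ)
  by_cases h0 : v = 0
  · rw [show tvE hv = 1 from LinearEquiv.ext fun x => by simp [tvE_apply, h0]]; exact one_mem _
  refine hG.rad_le v (by simpa using h0) (h.ts.q _ v.2) ⟨h.lv_isom _, ?_, fun x hx => ?_,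
    fun _ => trivial⟩
  · rw [h.lv_left, tvE_apply, hv, zero_smul, add_zero]
  obtain ⟨w, hw, y, hy, π, hπ, rfl⟩ := h.dec3 x
  have h1 : h.lv (tvE hv) y = y := by
    refine sub_eq_zero.1 (h.symm.eq_zero (sub_mem (h.lv_right _ hy) hy) (mem_perp.2 fun z hz => ?_))
    obtain ⟨z, rfl⟩ : ∃ z' : W, z = tvE hv z' :=
      ⟨(tvE hv).symm ⟨z, hz⟩, by rw [LinearEquiv.apply_symm_apply]⟩
    have h2 : B v y = 0 := by
      simpa [h.ts.b _ v.2 w hw, mem_perp.1 hπ.1 _ v.2] using hx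
    rw [map_sub, ← h.lv_left, isom_b (h.lv_isom _), h.lv_left, tvE_apply]
    simp [h2]
  rw [map_add, map_add, h1, h.lv_mid _ hπ, h.lv_left _ ⟨w, hw⟩, tvE_apply]
  exact Submodule.mem_span_singleton.2 ⟨φ ⟨w, hw⟩, by simp⟩

end Op

end CF.Ore
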