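/-
Factorisations `A = Y Z⁻¹` in `GL(W)` with `Y` conjugate to `Z`.
-/
import Cfsg.Agent.Classical.Lev3
import Cfsg.Agent.Ore.A

set_option autoImplicit false

namespace CF.Ore

open Module Polynomial CF.Geom CF.Cls CF.Classical

variable {F V : Type*} [Field F] [AddCommGroup V] [Module F V]

/-- `Z` is `μ` on the line through `y` and is killed by `b` on the invariant hyperplane `ker φ` -/
structure Sp1 (Z : End F V) (μ : F) (b : F[X]) (y : V) (φ : Dual F V) : Prop where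
  one : φ y = 1
  eig : Z y = μ • y
  dual : ∀ w, φ (Z w) = μ * φ w
  ker : ∀ w, φ w = 0 → aeval Z b w = 0

theorem aeval_eig {Z : End F V} {μ : F} {y : V} (h : Z y = μ • y) (p : F[X]) :
    aeval Z p y = p.eval μ • y := by
  have := aeval_intertwine (f := μ • (1 : End F F)) (g := Z) (LinearMap.toSpanSingleton F V y)
    (fun v => by simp [h, smul_smul, mul_comm]) p 1
  rw [← Algebra.algebraMap_eq_smul_one, aeval_algebraMap_apply] at this
  simpa using this.symm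

theorem Sp1.mem {Z : End F V} {μ : F} {b : F[X]} {y : V} {φ : Dual F V} (h : Sp1 Z μ b y φ)
    (w : V) : aeval Z b w ∈ F ∙ y := by
  have := h.ker (w - φ w • y) (by simp [h.one])
  rw [map_sub, map_smul, aeval_eig h.eig, sub_eq_zero] at this
  exact this ▸ Submodule.smul_mem _ _ (Submodule.smul_mem _ _ (Submodule.mem_span_singleton_self y))

theorem Sp1.aeval_eq {Z : End F V} {μ : F} {b : F[X]} {y : V} {φ : Dual F V} (h : Sp1 Z μ b y φ)
    (w : V) : aeval Z ((X - C μ) * b) w = 0 := by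
  obtain ⟨c, hc⟩ := Submodule.mem_span_singleton.1 (h.mem w)
  rw [map_mul, End.mul_apply, ← hc, map_smul, aeval_eig h.eig]
  simp

theorem Sp1.conj {W : Type*} [AddCommGroup W] [Module F W] {Z : End F V} {Y : End F W} {μ : F}
    {b : F[X]} {y : V} {φ : Dual F V} (h : Sp1 Z μ b y φ) (e : V ≃ₗ[F] W)
    (he : ∀ v, e (Z v) = Y (e v)) : Sp1 Y μ b (e y) (φ ∘ₗ e.symm.toLinearMap) := by
  refine ⟨by simp [h.one], by rw [← he, h.eig, map_smul], fun w => ?_, fun w hw => ?_⟩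
  · obtain ⟨v, rfl⟩ := e.surjective w
    simp [← he, h.dual]
  · obtain ⟨v, rfl⟩ := e.surjective w
    rw [← LinearEquiv.coe_coe, ← aeval_intertwine e.toLinearMap he, h.ker v (by simpa using hw),
      map_zero]

variable [FiniteDimensional F V]

/-- the factorisation theorem with a prescribed hyperplane -/
theorem lev_phi {g : End F V} (hg : IsUnit g) {φ : Dual F V} {v₀ : V} (hv₀ : φ v₀ = 0)
    (hφ : φ (g v₀) = 1) {a b : F[X]} (ha : a.Monic) (hb : b.Monic)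
    (hda : a.natDegree = finrank F V) (hdb : b.natDegree + 1 = finrank F V) (hb0 : b.coeff 0 ≠ 0)
    {μ : F} (hμ : b.eval μ ≠ 0) (hdet : LinearMap.det g * (μ * b.coeff 0) = -a.coeff 0) :
    ∃ (Z : End F V) (y : V), Sim ((μ • (1 : End F F)).prodMap (cyc b) : End F (F × _)) Z ∧
      Sim (cyc a) (g * Z) ∧ Sp1 Z μ b y φ := by
  have hgi : Function.Injective g := (End.isUnit_iff g).1 hg |>.1
  let W := LinearMap.ker φ
  let U := W ⊓ LinearMap.ker (φ ∘ₗ g)
  have hW : finrank F W + 1 = finrank F V := by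
    have := lv_finrank_inf_ker (U := ⊤) (ψ := φ) (a := g v₀) trivial (by simp [hφ])
    rwa [top_inf_eq, finrank_top] at this
  have hU : finrank F W = finrank F U + 1 :=
    (lv_finrank_inf_ker (U := W) (ψ := φ ∘ₗ g) hv₀ (by simp [hφ])).symm
  have hU1 : U.map LinearMap.id ≤ W := by simp [U]
  obtain ⟨T, k1, k2, k3⟩ := lv_exists_gen (ι := LinearMap.id) (γ := g) Function.injective_id _ U W
    rfl hU hU1 (by rintro _ ⟨v, hv, rfl⟩; exact hv.2)
  obtain ⟨e₀, l1, l2, l3⟩ := (k2.symm fun _ _ h => h).ext hU k1 hU1 k2.inj hb (by omega)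
  have := fd_adjoinRoot hb.ne_zero
  have := fd_adjoinRoot ha.ne_zero
  have hcb : Function.Injective (cyc b) := ((End.isUnit_iff _).1 ((LinearMap.isUnit_iff_isUnit_det
    _).2 (by rw [det_cyc hb]; simp [hb0]))).1
  have hgen : LvGen ⊤ e₀ (g ∘ₗ e₀ ∘ₗ cyc b) := fun S _ h => by
    have m1 : S.map (e₀ ∘ₗ cyc b) ≤ U := by
      rintro _ ⟨y, hy, rfl⟩
      refine ⟨l2 ▸ LinearMap.mem_range_self e₀ _, ?_⟩
      obtain ⟨y', -, h'⟩ := h (Submodule.mem_map_of_mem hy)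
      have : e₀ y' ∈ W := l2 ▸ LinearMap.mem_range_self e₀ _
      rwa [h'] at this
    have m2 : ∀ y ∈ S, T (e₀ (cyc b y)) = e₀ y := fun y hy => by
      obtain ⟨y', h1, h2⟩ := l3 _ (m1 (Submodule.mem_map_of_mem hy))
      rw [← hcb (l1 h2), h1, hcb (l1 h2)]; rfl
    have := k3.symm (fun v _ h => hgi (by simpa using h)) _ m1 (by
      rintro _ ⟨_, ⟨y, hy, rfl⟩, rfl⟩
      obtain ⟨y', h1, h2⟩ := h (Submodule.mem_map_of_mem hy)
      exact ⟨_, Submodule.mem_map_of_mem h1, (m2 y' h1).trans h2⟩)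
    refine eq_bot_iff.2 fun y hy => hcb (l1 ?_)
    simpa using (this ▸ Submodule.mem_map_of_mem hy : (e₀ ∘ₗ cyc b) y ∈ (⊥ : Submodule F V))
  obtain ⟨e, m1, m2, m3⟩ := hgen.ext (W := ⊤) (by simp [finrank_adjoinRoot, hdb]) le_top le_top
    (fun v _ h => l1 (by simpa using h)) ha (by simpa using hda)
  let E := LinearEquiv.ofBijective e ⟨m1, LinearMap.range_eq_top.1 m2⟩
  obtain ⟨G, rfl⟩ := hg
  set Z : End F V := ↑G⁻¹ * E.conj (cyc a) with hZ
  have n1 : ↑G * Z = E.conj (cyc a) := by rw [hZ, Units.mul_inv_cancel_left]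
  have n2 : ∀ y, e₀ (cyc b y) = Z (e₀ y) := fun y => hgi <| by
    obtain ⟨x, h1, h2⟩ := m3 y trivial
    rw [← End.mul_apply, n1, ← h1]
    have : E.symm (e x) = x := E.symm_apply_apply x
    simp only [LinearEquiv.conj_apply_apply, this]
    exact h2.symm
  have n3 : ∀ v, φ (Z v) = (φ (Z ((G : End F V) v₀)) • (1 : End F F)) (φ v) := fun v => by
    obtain ⟨y, hy⟩ : v - φ v • (G : End F V) v₀ ∈ LinearMap.range e₀ := by
      rw [l2]; simp [W, hφ]
    have : Z (e₀ y) ∈ W := n2 y ▸ l2 ▸ LinearMap.mem_range_self e₀ _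
    rw [hy, LinearMap.mem_ker, map_sub, map_sub, map_smul, map_smul, sub_eq_zero] at this
    simp [this, mul_comm]
  have hφs : Function.Surjective φ := fun x => ⟨x • (G : End F V) v₀, by simp [hφ]⟩
  have n4 := det_of_exact e₀ φ l1 hφs l2.symm n2 n3
  have n5 := congrArg LinearMap.det n1
  rw [map_mul, n4, ← (Sim.of_conj E _).det_eq, det_cyc ha, det_cyc hb, LinearMap.det_smul,
    map_one, finrank_self, pow_one, mul_one, hda, ← hdb, pow_succ] at n5
  have n6 : φ (Z ((G : End F V) v₀)) = μ := by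
    have h0 : LinearMap.det (G : End F V) ≠ 0 := (G.isUnit.map LinearMap.det).ne_zero
    have h1 : ((-1 : F) ^ b.natDegree) ≠ 0 := by simp
    refine mul_left_cancel₀ (mul_ne_zero (mul_ne_zero h0 h1) hb0) ?_
    linear_combination n5 - (-1) ^ b.natDegree * hdet
  rw [n6] at n3
  have n7 : ∀ w, φ w = 0 → aeval Z b w = 0 := fun w hw => by
    obtain ⟨y, rfl⟩ : w ∈ LinearMap.range e₀ := l2 ▸ hw
    rw [← aeval_intertwine e₀ n2, (aeval_cyc_eq_zero_iff b b).2 dvd_rfl]; simp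
  refine ⟨Z, (b.eval μ)⁻¹ • aeval Z b ((G : End F V) v₀), sim_prodMap_of_exact e₀ φ l1 hφs l2.symm
    n2 n3 (p := b) (q := X - C μ) ((aeval_cyc_eq_zero_iff b b).2 dvd_rfl)
    (by simp [Algebra.algebraMap_eq_smul_one]) ?_, n1 ▸ Sim.of_conj E _, ?_, ?_,
    fun w => by simp [n3], n7⟩
  · exact ((irreducible_X_sub_C μ).coprime_iff_not_dvd.2 (by rwa [dvd_iff_isRoot])).symm
  · rw [map_smul, aeval_intertwine φ n3, hφ, aeval_eig (μ := μ) (by simp)]
    simp [hμ]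
  · have := n7 (Z ((G : End F V) v₀) - μ • (G : End F V) v₀) (by simp [n3])
    rw [map_sub, sub_eq_zero, ← aeval_intertwine Z (f := Z) (fun _ => rfl), map_smul] at this
    rw [map_smul, this, smul_comm]

theorem exists_conj_det_one {f g : End F V} (h : Sim f g) (hf : detC f = ⊤) :
    ∃ k : V ≃ₗ[F] V, LinearMap.det (k : V →ₗ[F] V) = 1 ∧ ∀ v, k (f v) = g (k v) := by
  obtain ⟨e, he⟩ := h
  obtain ⟨z, hz, h1⟩ := hf.ge (Subgroup.mem_top (LinearEquiv.det e)⁻¹)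
  refine ⟨e * z, ?_, fun v => by rw [LinearEquiv.mul_apply, hz v, he]; rfl⟩
  rw [← LinearEquiv.coe_det, map_mul, h1, mul_inv_cancel, Units.val_one]

theorem detC_model (μ : F) (b : F[X]) [FiniteDimensional F (AdjoinRoot b)] :
    detC ((μ • (1 : End F F)).prodMap (cyc b) : End F (F × _)) = ⊤ :=
  eq_top_iff.2 ((detC_smul_one μ).ge.trans (detC_prodMap_left _ _))

theorem det_model (μ : F) {b : F[X]} (hb : b.Monic) :
    LinearMap.det ((μ • (1 : End F F)).prodMap (cyc b) : End F (F × _)) =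
      μ * ((-1) ^ b.natDegree * b.coeff 0) := by
  have := fd_adjoinRoot hb.ne_zero
  rw [LinearMap.det_prodMap, det_cyc hb]; simp

theorem exists_equiv_of_det {Z : End F V} (h : LinearMap.det Z ≠ 0) :
    ∃ Z' : V ≃ₗ[F] V, (Z' : V →ₗ[F] V) = Z :=
  ⟨LinearMap.equivOfDetNeZero Z h, rfl⟩

theorem fact_phi {A : V ≃ₗ[F] V} (hA : LinearMap.det (A : V →ₗ[F] V) = 1) {φ : Dual F V} {v₀ : V}
    (hv₀ : φ v₀ = 0) (hφ : φ (A v₀) = 1) {b : F[X]} (hb : b.Monic)
    (hd : b.natDegree + 1 = finrank F V) (hb0 : b.coeff 0 ≠ 0) {μ : F} (hμ0 : μ ≠ 0)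
    (hμ : b.eval μ ≠ 0) : ∃ (Z k : V ≃ₗ[F] V) (y : V), LinearMap.det (k : V →ₗ[F] V) = 1 ∧
      A * Z = k * Z * k⁻¹ ∧ Sp1 (Z : V →ₗ[F] V) μ b y φ ∧
      LinearMap.det (Z : V →ₗ[F] V) = μ * ((-1) ^ b.natDegree * b.coeff 0) := by
  have := fd_adjoinRoot hb.ne_zero
  obtain ⟨Z, y, h1, h2, h3⟩ := lev_phi (g := (A : V →ₗ[F] V)) (a := (X - C μ) * b)
    ((LinearMap.isUnit_iff_isUnit_det _).2 (by simp [hA])) hv₀ hφ ((monic_X_sub_C μ).mul hb) hb
    (by rw [(monic_X_sub_C μ).natDegree_mul hb, natDegree_X_sub_C, ← hd, add_comm]) hd hb0 hμ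
    (by simp [hA])
  have h4 := h1.det_eq.symm.trans (det_model μ hb)
  obtain ⟨Z, rfl⟩ := exists_equiv_of_det (Z := Z) (by rw [h4]; simp [hμ0, hb0])
  obtain ⟨k, h5, h6⟩ := exists_conj_det_one (h1.symm.trans ((sim_cyc_X_sub_C_mul hμ).trans h2))
    (h1.detC_eq ▸ detC_model μ b)
  refine ⟨Z, k, y, h5, ?_, h3, h4⟩
  rw [eq_mul_inv_iff_mul_eq]
  exact LinearEquiv.ext fun v => (h6 v).symm

theorem exists_sp1 {b : F[X]} (hb : b.Monic) (hd : b.natDegree + 1 = finrank F V)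
    (hb0 : b.coeff 0 ≠ 0) {μ : F} (hμ0 : μ ≠ 0) : ∃ (Z : V ≃ₗ[F] V) (y : V) (φ : Dual F V),
      Sp1 (Z : V →ₗ[F] V) μ b y φ ∧
      LinearMap.det (Z : V →ₗ[F] V) = μ * ((-1) ^ b.natDegree * b.coeff 0) := by
  have := fd_adjoinRoot hb.ne_zero
  let e : (F × AdjoinRoot b) ≃ₗ[F] V := .ofFinrankEq _ _ (by
    rw [finrank_prod, finrank_self, finrank_adjoinRoot, ← hd, add_comm])
  have h1 : Sp1 ((μ • (1 : End F F)).prodMap (cyc b) : End F (F × _)) μ b (1, 0)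
      (LinearMap.fst F _ _) := by
    refine ⟨rfl, by simp, fun w => by simp, fun ⟨x, w⟩ hw => ?_⟩
    obtain rfl : x = 0 := hw
    have := aeval_intertwine (f := cyc b) (LinearMap.inr F F (AdjoinRoot b))
      (g := ((μ • (1 : End F F)).prodMap (cyc b) : End F (F × _))) (fun v => by simp) b w
    rw [(aeval_cyc_eq_zero_iff b b).2 dvd_rfl] at this
    exact this.symm.trans (map_zero _)
  have h4 := (Sim.of_conj e _).det_eq.symm.trans (det_model μ hb)
  obtain ⟨Z, hZ⟩ := exists_equiv_of_det (Z := e.conj _) (by rw [h4]; simp [hμ0, hb0])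
  exact ⟨Z, _, _, h1.conj e fun v => by rw [hZ]; simp, hZ ▸ h4⟩

theorem fact_any {A : V ≃ₗ[F] V} (hA : LinearMap.det (A : V →ₗ[F] V) = 1)
    (hs : ∀ c : F, (∀ v, A v = c • v) → A = 1) {b : F[X]} (hb : b.Monic)
    (hd : b.natDegree + 1 = finrank F V) (hb0 : b.coeff 0 ≠ 0) {μ : F} (hμ0 : μ ≠ 0)
    (hμ : b.eval μ ≠ 0) : ∃ (Z k : V ≃ₗ[F] V) (y : V) (φ : Dual F V),
      LinearMap.det (k : V →ₗ[F] V) = 1 ∧ A * Z = k * Z * k⁻¹ ∧ Sp1 (Z : V →ₗ[F] V) μ b y φ ∧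
      LinearMap.det (Z : V →ₗ[F] V) = μ * ((-1) ^ b.natDegree * b.coeff 0) := by
  by_cases h1 : A = 1
  · obtain ⟨Z, y, φ, h2, h3⟩ := exists_sp1 hb hd hb0 hμ0
    exact ⟨Z, 1, y, φ, by simp, by simp [h1], h2, h3⟩
  obtain ⟨φ, v, h2, h3⟩ := exists_hyperplane_not_inv (g := (A : V →ₗ[F] V)) fun c hc =>
    h1 (hs c fun v => by simpa using LinearMap.congr_fun hc v)
  obtain ⟨Z, k, y, h4⟩ := fact_phi hA h2 h3 hb hd hb0 hμ0 hμ
  exact ⟨Z, k, y, φ, h4⟩

theorem sim_of_irreducible {W : Type*} [AddCommGroup W] [Module F W] [FiniteDimensional F W]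
    {f : End F V} {g : End F W} {a : F[X]} (h1 : a.Monic) (ha : Irreducible a)
    (hd : finrank F V = finrank F W) (hf : aeval f a = 0) (hg : aeval g a = 0) : Sim f g := by
  have k : ∀ s : Multiset F[X], (∀ b ∈ s, IsPP b) → (∀ b ∈ s, b ∣ a) →
      s = Multiset.replicate s.card a := fun s h2 h3 => Multiset.eq_replicate.2 ⟨rfl, fun b hb =>
    eq_of_monic_of_associated (h2 b hb).monic h1 ((ha.dvd_iff.1 (h3 b hb)).resolve_left
      (not_isUnit_of_natDegree_pos _ (h2 b hb).natDegree_pos)).symm⟩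
  have k1 := k _ (ed_isPP f) ((aeval_eq_zero_iff_ed f a).1 hf)
  have k2 := k _ (ed_isPP g) ((aeval_eq_zero_iff_ed g a).1 hg)
  rw [finrank_eq_ed f, finrank_eq_ed g, k1, k2] at hd
  simp only [Multiset.map_replicate, Multiset.sum_replicate, smul_eq_mul] at hd
  rw [sim_iff_ed, k1, k2, Nat.eq_of_mul_eq_mul_right ha.natDegree_pos hd]

end CF.Ore
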