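/-
The big cell and conjugation of parabolic elements into the Levi factor.
-/
import Cfsg.Agent.Ore.L

set_option autoImplicit false

namespace CF.Ore

open Module Polynomial CF.Geom CF.Cls CF.Classical

variable {F V : Type*} [Field F] [AddCommGroup V] [Module F V] {σ : F →+* F}

theorem aeval_mem {f : End F V} {S : Submodule F V} (hS : ∀ x ∈ S, f x ∈ S) (p : F[X]) {x : V}
    (hx : x ∈ S) : aeval f p x ∈ S := by
  exact (aeval_intertwine (f := f.restrict hS) (g := f) S.subtype (fun _ => rfl) p ⟨x, hx⟩ ▸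
    Submodule.coe_mem _ : aeval f p (S.subtype ⟨x, hx⟩) ∈ S)

theorem intertw_mod {N f g : End F V} {S Y : Submodule F V} (hS : ∀ x ∈ S, f x ∈ S)
    (hY : ∀ y ∈ Y, g y ∈ Y) (h : ∀ x ∈ S, N (f x) - g (N x) ∈ Y) (p : F[X]) {x : V} (hx : x ∈ S) :
    N (aeval f p x) - aeval g p (N x) ∈ Y := by
  have h1 := aeval_intertwine (f := f.restrict hS) (g := Y.mapQ Y g hY) (Y.mkQ ∘ₗ N ∘ₗ S.subtype)
    (fun v => (Submodule.Quotient.eq Y).2 (h v v.2)) p ⟨x, hx⟩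
  have h2 := aeval_intertwine (f := f.restrict hS) S.subtype (fun _ => rfl) p ⟨x, hx⟩
  have h3 := aeval_intertwine (f := g) (g := Y.mapQ Y g hY) Y.mkQ (fun _ => rfl) p (N x)
  rw [LinearMap.comp_apply, LinearMap.comp_apply, h2] at h1
  exact (Submodule.Quotient.eq Y).1 (h1.trans h3.symm)

variable {B : V →ₛₗ[σ] V →ₗ[F] F} {Q : V → F} {W W' Y : Submodule F V} {g l u t : V ≃ₗ[F] V}

theorem b_aeval (hl : l ∈ Isom B Q) (p : F[X]) (x y : V) :
    B (aeval (l : End F V) p x) y = B x (aeval ((l⁻¹ : V ≃ₗ[F] V) : End F V) (p.map σ) y) := by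
  induction p using Polynomial.induction_on' with
  | add p q hp hq => simp [hp, hq]
  | monomial n a =>
    have : ∀ x y, B (((l : End F V) ^ n) x) y = B x ((((l⁻¹ : V ≃ₗ[F] V) : End F V) ^ n) y) := by
      induction n with
      | zero => simp
      | succ n ih =>
        intro x y
        rw [pow_succ', pow_succ, End.mul_apply, End.mul_apply, ← ih, ← isom_b (inv_mem hl)]
        simp
    simp [aeval_monomial, this]

theorem aeval_cr_mem (hl : l ∈ Isom B Q) {p : F[X]}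
    (hp : ∀ w ∈ W, aeval (l : End F V) p w = 0) (x : V) :
    aeval (l : End F V) (cr σ p) x ∈ perp B W := mem_perp.2 fun w hw => by
  have e1 : (l : End F V) * ((l⁻¹ : V ≃ₗ[F] V) : End F V) = 1 := by ext; simp
  have e2 : ((l⁻¹ : V ≃ₗ[F] V) : End F V) * (l : End F V) = 1 := by ext; simp
  have h1 := aeval_reverse_mul e1 e2 (p.map σ)
  have h2 : aeval (l : End F V) (p.map σ).reverse = aeval ((l⁻¹ : V ≃ₗ[F] V) : End F V) (p.map σ) *
      (l : End F V) ^ (p.map σ).natDegree := by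
    rw [← h1, mul_assoc, ← aeval_X_pow (R := F) (x := (l : End F V)), ← map_mul, mul_comm, map_mul,
      aeval_X_pow, ← mul_assoc, ← Commute.mul_pow (e2.trans e1.symm), e2, one_pow, one_mul]
  rw [cr_apply, map_mul, h2, aeval_C, End.mul_apply, End.mul_apply, Module.algebraMap_end_apply,
    map_smul, ← b_aeval hl, hp w hw]
  simp

/-- polynomials killing the three pieces of a Levi element -/
structure Lev (B : V →ₛₗ[σ] V →ₗ[F] F) (Q : V → F) (W W' : Submodule F V) (l : V ≃ₗ[F] V)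
    (c c' c₀ : F[X]) : Prop where
  isom : l ∈ Isom B Q
  left : ∀ w ∈ W, l w ∈ W
  right : ∀ x ∈ W', l x ∈ W'
  k : ∀ w ∈ W, aeval (l : End F V) c w = 0
  k' : ∀ x ∈ W', aeval (l : End F V) c' x = 0
  k₀ : ∀ π ∈ perp B W ⊓ perp B W', aeval (l : End F V) c₀ π = 0

theorem Lev.symm {c c' c₀ : F[X]} (h : Lev B Q W W' l c c' c₀) : Lev B Q W' W l c' c c₀ :=
  ⟨h.isom, h.right, h.left, h.k', h.k, fun π hπ => h.k₀ π ⟨hπ.2, hπ.1⟩⟩

theorem Dp_ext (h : IsWittPair σ B Q) {y x : V} (hg : g ∈ Dp B Q (F ∙ y)) (hu : u ∈ Dp B Q (F ∙ y))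
    (hx : B y x ≠ 0) (e : g x = u x) : g = u := by
  ext z
  have h1 : z - (B y z / B y x) • x ∈ perp B (F ∙ y) := mem_perp_singleton.2 (by simp [hx])
  have h2 := (Dp_fix h hg h1).trans (Dp_fix h hu h1).symm
  rwa [map_sub, map_sub, map_smul, map_smul, e, sub_left_inj] at h2

variable [FiniteDimensional F V]

theorem Lev.crit {c c' c₀ b : F[X]} (h : Op B Q W W') (hl : Lev B Q W W' l c c' c₀) (hY : Y ≤ W)
    (hY' : ∀ y ∈ Y, l y ∈ Y) (hb : ∀ w ∈ W, aeval (l : End F V) b w ∈ Y) (h1 : IsCoprime c c₀)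
    (h2 : IsCoprime b c') {v : V ≃ₗ[F] V} (hv : v ∈ UR B Q W) (ht : v * l * v⁻¹ * l⁻¹ ∈ Dp B Q Y) :
    v ∈ Dp B Q Y := by
  have hw := h.witt
  have hp : ∀ x ∈ perp B W, l x ∈ perp B W := fun x => perp_mem_of hl.isom hl.left
  let N : End F V := (v : End F V) - 1
  have hN : ∀ x, N x = v x - x := fun x => rfl
  have e : ∀ x, N (l x) - l (N x) = (v * l * v⁻¹ * l⁻¹) (l (v x)) - l (v x) := fun x => by
    simp [hN]
  have k1 : ∀ x ∈ perp B W, v x = x := fun x hx => by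
    obtain ⟨a, a', ha⟩ := h1
    have n1 := intertw_mod (N := N) (f := (l : End F V)) (g := (l : End F V)) (Y := ⊥) hp
      (fun y hy => by simp [(Submodule.mem_bot F).1 hy]) (fun x hx => by
        rw [LinearEquiv.coe_coe, e, Dp_fix hw ht (perp_anti hY (hp _ (UR_perp hv hx))), sub_self]
        trivial) (a * c) hx
    have n2 : aeval (l : End F V) (a' * c₀) x ∈ W := by
      obtain ⟨w, hw, h3⟩ := h.dec x
      rw [show x = w + (x - w) by abel, map_add, map_mul, End.mul_apply _ _ (x - w),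
        hl.k₀ _ ⟨sub_mem hx (h.ts.le_perp hw), h3⟩, map_zero, add_zero, ← map_mul]
      exact aeval_mem hl.left _ hw
    have n3 : x = aeval (l : End F V) (a * c) x + aeval (l : End F V) (a' * c₀) x := by
      rw [← LinearMap.add_apply, ← map_add, ha]; simp
    rw [Submodule.mem_bot, map_mul _ a c, End.mul_apply _ _ (N x), hl.k (N x) (hv.2.2 x hx), map_zero,
      sub_zero, ← map_mul] at n1
    rw [← sub_eq_zero, ← hN, n3, map_add, n1, hN, hv.2.1 _ n2, sub_self, add_zero]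
  refine ⟨hv.1, fun x => ?_⟩
  obtain ⟨a, a', ha⟩ := h2
  have n0 : N x ∈ W := (mem_Dp_of_fix hw hv.1 k1).2 x
  have n1 := intertw_mod (N := N) (f := (l : End F V)) (g := (l : End F V)) (S := ⊤)
    (fun _ _ => trivial) hY' (fun x _ => by rw [LinearEquiv.coe_coe, e]; exact ht.2 _) (c' * a')
    (x := x) trivial
  have n2 : ∀ z, aeval (l : End F V) c' z ∈ perp B W := fun z => by
    obtain ⟨y, hy, h3⟩ := h.symm.dec z
    rw [show z = y + (z - y) by abel, map_add, hl.k' y hy, zero_add]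
    exact aeval_mem hp _ h3
  rw [map_mul _ c' a', End.mul_apply _ _ x, hN, k1 _ (n2 _), sub_self, zero_sub, neg_mem_iff,
    ← map_mul] at n1
  have n3 : N x = aeval (l : End F V) a (aeval (l : End F V) b (N x)) +
      aeval (l : End F V) (c' * a') (N x) := by
    rw [← End.mul_apply, ← map_mul, ← LinearMap.add_apply, ← map_add, mul_comm c', ha]; simp
  rw [← hN, n3]
  exact add_mem (aeval_mem hY' _ (hb _ n0)) n1

variable [Finite F]

theorem finite_equiv : Finite (V ≃ₗ[F] V) :=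
  have : Finite V := Module.finite_of_finite F
  Finite.of_injective (fun g : V ≃ₗ[F] V => (g : V → V)) DFunLike.coe_injective

theorem Lev.conj {c c' c₀ b : F[X]} (h : Op B Q W W') (hl : Lev B Q W W' l c c' c₀) (hY : Y ≤ W)
    (hY' : ∀ y ∈ Y, l y ∈ Y) (hb : ∀ w ∈ W, aeval (l : End F V) b w ∈ Y) (h1 : IsCoprime c c₀)
    (h2 : IsCoprime b c') (hu : u ∈ UR B Q W) :
    ∃ v ∈ UR B Q W, ∃ t ∈ Dp B Q Y, u * l = v * (t * l) * v⁻¹ :=
  have := finite_equiv (F := F) (V := V)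
  fpf_mod (Dp_le_UR h.witt h.ts hY) (fun _ => UR_conj hl.isom hl.left)
    (fun _ => Dp_conj hl.isom hY') (fun _ ht _ => Dp_comm h.witt hY ht)
    (fun _ => hl.crit h hY hY' hb h1 h2) u hu

theorem Lev.conj_Dp {c c' c₀ b : F[X]} (h : Op B Q W W') (hl : Lev B Q W W' l c c' c₀) (hY : Y ≤ W)
    (hY' : ∀ y ∈ Y, l y ∈ Y) (hb : ∀ w ∈ W, aeval (l : End F V) b w ∈ Y) (h1 : IsCoprime c c₀)
    (h2 : IsCoprime b c') (hu : u ∈ Dp B Q W) :
    ∃ v ∈ Dp B Q W, ∃ t ∈ Dp B Q Y, u * l = v * (t * l) * v⁻¹ :=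
  have := finite_equiv (F := F) (V := V)
  fpf_mod (U := Dp B Q W) (T := Dp B Q Y) (fun _ ht => ⟨ht.1, fun x => hY (ht.2 x)⟩) (fun _ => Dp_conj hl.isom hl.left)
    (fun _ => Dp_conj hl.isom hY')
    (fun _ ht _ hu => Dp_comm h.witt hY ht (Dp_le_UR h.witt h.ts le_rfl hu))
    (fun _ hv => hl.crit h hY hY' hb h1 h2 (Dp_le_UR h.witt h.ts le_rfl hv)) u hu

theorem Lev.conj_bot {c c' c₀ : F[X]} (h : Op B Q W W') (hl : Lev B Q W W' l c c' c₀)
    (h1 : IsCoprime c c₀) (h2 : IsCoprime c c') (hu : u ∈ UR B Q W) :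
    ∃ v ∈ UR B Q W, u * l = v * l * v⁻¹ := by
  obtain ⟨v, hv, t, ht, e⟩ := hl.conj h bot_le (fun y hy => by simp [(Submodule.mem_bot F).1 hy])
    (fun w hw => hl.k w hw) h1 h2 hu
  obtain rfl : t = 1 := LinearEquiv.ext fun x => sub_eq_zero.1 (ht.2 x)
  exact ⟨v, hv, by simpa using e⟩

omit [Finite F]

/-- the isometries fixing `W` and `W'` pointwise -/
abbrev Fx (B : V →ₛₗ[σ] V →ₗ[F] F) (Q : V → F) (W W' : Submodule F V) : Subgroup (V ≃ₗ[F] V) :=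
  Dp B Q (perp B W ⊓ perp B W')

omit [FiniteDimensional F V] in
theorem Fx_left (h : IsWittPair σ B Q) (ht : t ∈ Fx B Q W W') {w : V} (hw : w ∈ W) : t w = w :=
  Dp_fix h ht (perp_anti inf_le_left (h.le_perp_perp W hw))

omit [FiniteDimensional F V] in
theorem Fx_right (h : IsWittPair σ B Q) (ht : t ∈ Fx B Q W W') {w : V} (hw : w ∈ W') : t w = w :=
  Dp_fix h ht (perp_anti inf_le_right (h.le_perp_perp W' hw))

omit [FiniteDimensional F V] in
theorem Fx_mid (ht : t ∈ Fx B Q W W') {π : V} (hπ : π ∈ perp B W ⊓ perp B W') :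
    t π ∈ perp B W ⊓ perp B W' := by simpa using add_mem (ht.2 π) hπ

theorem mem_Fx (h : Op B Q W W') (ht : t ∈ Isom B Q) (h1 : ∀ w ∈ W, t w = w)
    (h2 : ∀ x ∈ W', t x ∈ W') : t ∈ Fx B Q W W' := by
  have h3 : ∀ x ∈ W', t x = x := fun x hx => sub_eq_zero.1 <| h.symm.eq_zero (sub_mem (h2 x hx) hx)
    (mem_perp.2 fun w hw => by rw [map_sub, ← h1 w hw, isom_b ht, h1 w hw, sub_self])
  refine mem_Dp_of_fix h.witt ht fun x hx => ?_
  rw [← perp_sup, h.witt.perp_perp] at hx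
  obtain ⟨w, hw, y, hy, rfl⟩ := Submodule.mem_sup.1 hx
  rw [map_add, h1 w hw, h3 y hy]

theorem lv_comm (h : Op B Q W W') (Z : W ≃ₗ[F] W) (ht : t ∈ Fx B Q W W') :
    h.lv Z * t = t * h.lv Z := by
  have hw := h.witt
  refine h.ext (mul_mem (h.lv_isom Z) ht.1) (mul_mem ht.1 (h.lv_isom Z)) (fun w hw' => ?_)
    (fun w hw' => ?_) (fun π hπ => ?_) (fun x hx => ?_) fun x hx => ?_ <;>
    simp only [LinearEquiv.mul_apply]
  · rw [Fx_left hw ht hw', Fx_left hw ht (h.lv_mem Z hw')]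
  · rw [Fx_left hw ht hw']; exact h.lv_mem Z hw'
  · rw [h.lv_mid Z (Fx_mid ht hπ), h.lv_mid Z hπ]
  · rw [Fx_right hw ht hx]; exact h.lv_right Z hx
  · rw [Fx_right hw ht (h.lv_right Z hx)]; exact h.lv_right Z hx

theorem lev_lv (h : Op B Q W W') {Z : W ≃ₗ[F] W} (ht : t ∈ Fx B Q W W') {c c₀ : F[X]}
    (hc : ∀ w, aeval (Z : End F W) c w = 0)
    (h0 : ∀ π ∈ perp B W ⊓ perp B W', aeval (t : End F V) c₀ π = 0) :
    (∀ (p : F[X]) (w : W), aeval ((h.lv Z * t : V ≃ₗ[F] V) : End F V) p w = (aeval (Z : End F W) p w : W)) ∧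
      Lev B Q W W' (h.lv Z * t) c (cr σ c) c₀ := by
  have hw := h.witt
  have k1 : ∀ w : W, (h.lv Z * t) w = Z w := fun w => by
    rw [LinearEquiv.mul_apply, Fx_left hw ht w.2, h.lv_left]
  have k2 := fun p w => (aeval_intertwine (f := (Z : End F W))
    (g := ((h.lv Z * t : V ≃ₗ[F] V) : End F V)) W.subtype (fun w => (k1 w).symm) p w).symm
  have k3 : ∀ w ∈ W, aeval ((h.lv Z * t : V ≃ₗ[F] V) : End F V) c w = 0 := fun w hw' =>
    (k2 c ⟨w, hw'⟩).trans (by rw [hc]; rfl)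
  have k4 : ∀ x ∈ W', (h.lv Z * t) x ∈ W' := fun x hx => by
    rw [LinearEquiv.mul_apply, Fx_right hw ht hx]; exact h.lv_right Z hx
  have k5 := mul_mem (h.lv_isom Z) ht.1
  refine ⟨k2, k5, fun w hw' => k1 ⟨w, hw'⟩ ▸ Submodule.coe_mem _, k4, k3,
    fun x hx => h.symm.eq_zero (aeval_mem k4 _ hx) (aeval_cr_mem k5 k3 x), fun π hπ => ?_⟩
  have := intertw_mod (N := 1) (f := (t : End F V)) (g := ((h.lv Z * t : V ≃ₗ[F] V) : End F V))
    (Y := ⊥) (fun _ => Fx_mid ht) (fun y hy => by simp [(Submodule.mem_bot F).1 hy])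
    (fun x hx => by simp [h.lv_mid Z (Fx_mid ht hx)]) c₀ hπ
  simpa [h0 π hπ] using this

/-- `g` lies in the big cell, with `GL(W)`-component `A` -/
structure Cell (B : V →ₛₗ[σ] V →ₗ[F] F) (Q : V → F) (W W' : Submodule F V) (g : V ≃ₗ[F] V)
    (A : W ≃ₗ[F] W) : Prop where
  op : Op B Q W W'
  isom : g ∈ Isom B Q
  eq : ∀ w : W, g w - A w ∈ perp B W'

theorem Cell.op_map {A : W ≃ₗ[F] W} (h : Cell B Q W W' g A) :
    Op B Q (W.map (g : V →ₗ[F] V)) W' := by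
  refine Op.of_disjoint h.op.witt (h.op.ts.map h.isom) h.op.ts'
    (by rw [finrank_map_equiv, h.op.finrank_eq]) ?_
  rintro _ ⟨w, hw, rfl⟩ h1
  have h2 := h.op.eq_zero (A ⟨w, hw⟩).2 (by simpa using sub_mem h1 (h.eq ⟨w, hw⟩))
  obtain rfl : w = 0 := congrArg Subtype.val (A.map_eq_zero_iff.1 (Subtype.ext h2))
  simp

theorem exists_cell (h : Op B Q W W') (hg : g ∈ Isom B Q)
    (h' : ∀ w ∈ W, g w ∈ perp B W' → w = 0) : ∃ A, Cell B Q W W' g A := by
  let f : W →ₗ[F] W := W.projectionOnto _ h.compl ∘ₗ (g : V →ₗ[F] V) ∘ₗ W.subtype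
  refine ⟨LinearEquiv.ofInjectiveEndo f ((injective_iff_map_eq_zero _).2 fun w hw =>
    Subtype.ext (h' w w.2 ((Submodule.projectionOnto_apply_eq_zero_iff h.compl).1 hw))), h, hg,
    fun w => (Submodule.projectionOnto_apply_eq_zero_iff h.compl).1 ?_⟩
  rw [map_sub, Submodule.projectionOnto_apply_left]
  exact sub_self _

theorem Cell.dec {A : W ≃ₗ[F] W} (h : Cell B Q W W' g A) :
    ∃ u' ∈ UR B Q W', ∃ u ∈ UR B Q W, ∃ t ∈ Fx B Q W W', g = u' * (h.op.lv A * t) * u⁻¹ ∧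
      ∀ π ∈ perp B W ⊓ perp B W', ∀ π₁ ∈ perp B W ⊓ perp B W', ∀ w ∈ W,
        g (π + w) - π₁ ∈ W' → t π = π₁ := by
  have ho := h.op
  obtain ⟨u', hu', e'⟩ := ho.symm.exists_UR h.op_map.symm
  have h1 := h.op_map.map (inv_mem h.isom)
  rw [map_inv_map] at h1
  obtain ⟨u, hu, e⟩ := ho.exists_UR h1
  have k1 : ∀ w : W, (u'⁻¹ * g * u) w = A w := fun w => by
    rw [LinearEquiv.mul_apply, LinearEquiv.mul_apply, hu.2.1 _ w.2]
    refine sub_eq_zero.1 (ho.eq_zero (sub_mem ?_ (A w).2) ?_)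
    · rw [← mem_map_equiv', e']; exact ⟨w, w.2, rfl⟩
    · simpa using add_mem (UR_disp (inv_mem hu') (g w)) (h.eq w)
  have k2 : (ho.lv A)⁻¹ * (u'⁻¹ * g * u) ∈ Fx B Q W W' := by
    refine mem_Fx ho (mul_mem (inv_mem (ho.lv_isom A)) (mul_mem (mul_mem (inv_mem hu'.1) h.isom)
      hu.1)) (fun w hw => ?_) fun x hx => ?_
    · rw [LinearEquiv.mul_apply, k1 ⟨w, hw⟩, ← ho.lv_left, inv_apply_apply]
    · have : u x ∈ W'.map ((g⁻¹ : V ≃ₗ[F] V) : V →ₗ[F] V) := e ▸ ⟨x, hx, rfl⟩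
      rw [mem_map_equiv', inv_inv] at this
      rw [LinearEquiv.mul_apply, LinearEquiv.mul_apply, LinearEquiv.mul_apply,
        (inv_mem hu' :).2.1 _ this, ← map_inv]
      exact ho.lv_right _ this
  refine ⟨u', hu', u, hu, _, k2, by group, fun π hπ π₁ hπ₁ w hw h2 => ?_⟩
  generalize ht : (ho.lv A)⁻¹ * (u'⁻¹ * g * u) = t at k2
  have e1 : g = u' * (ho.lv A * t) * u⁻¹ := by rw [← ht]; group
  have h3 := (inv_mem hu :).2.2 π hπ.1
  have e2 : g (π + w) = u' (t π) + u' (A ⟨_, add_mem h3 hw⟩) := by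
    rw [e1, LinearEquiv.mul_apply, LinearEquiv.mul_apply, ← map_add, map_add u⁻¹,
      (inv_mem hu :).2.1 w hw, ← ho.lv_left, ← ho.lv_mid A (Fx_mid k2 hπ), ← map_add,
      LinearEquiv.mul_apply, show u⁻¹ π + w = π + (u⁻¹ π - π + w) by abel, map_add t,
      Fx_left ho.witt k2 (add_mem h3 hw)]
  generalize A ⟨_, add_mem h3 hw⟩ = w₁ at e2
  have h4 := Fx_mid k2 hπ
  have h5 : (w₁ : V) = 0 := ho.eq_zero w₁.2 (by
    have := sub_mem (sub_mem (add_mem (ho.ts'.le_perp h2) hπ₁.2) (UR_perp hu' h4.2))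
      (UR_disp hu' w₁)
    rw [e2] at this
    simpa using this)
  rw [e2, h5, map_zero, add_zero] at h2
  refine sub_eq_zero.1 (ho.symm.eq_zero ?_ (sub_mem h4.1 hπ₁.1))
  simpa using sub_mem h2 (hu'.2.2 _ h4.2)

theorem com_of {G : Subgroup (V ≃ₗ[F] V)} {u' a b v₁ v₂ l₁ l₂ k : V ≃ₗ[F] V} (h1 : v₁ ∈ G)
    (h2 : v₂ ∈ G) (hb : b ∈ G) (hk : k ∈ G) (e1 : u' * l₁ = v₁ * a * v₁⁻¹)
    (e2 : u * l₂ = v₂ * b * v₂⁻¹) (e : a = k * b * k⁻¹) : Com G (u' * (l₁ * l₂⁻¹) * u⁻¹) := by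
  have : u' * (l₁ * l₂⁻¹) * u⁻¹ = (u' * l₁) * (u * l₂)⁻¹ := by group
  rw [this, e1, e2]
  exact com_of_conj (k := v₁ * k * v₂⁻¹) (mul_mem (mul_mem h2 hb) (inv_mem h2))
    (mul_mem (mul_mem h1 hk) (inv_mem h2)) (by rw [e]; group)

end CF.Ore
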