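/-
Elements of the big cell whose Levi component factorises suitably are commutators.
-/
import Cfsg.Agent.Ore.B

set_option autoImplicit false

namespace CF.Ore

open Module Polynomial CF.Geom CF.Cls CF.Classical

variable {F V : Type*} [Field F] [AddCommGroup V] [Module F V] {σ : F →+* F}
  {B : V →ₛₗ[σ] V →ₗ[F] F} {Q : V → F} {W W' : Submodule F V} {g l u u' t : V ≃ₗ[F] V}
  {G : Subgroup (V ≃ₗ[F] V)}

/-- coprimality conditions making a Levi element act without fixed points -/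
structure Gd (σ : F →+* F) (c c₀ : F[X]) : Prop where
  h1 : IsCoprime c c₀
  h2 : IsCoprime c (cr σ c)
  h3 : IsCoprime (cr σ c) c₀

/-- the same, up to one eigenvalue `μ` -/
structure Gd1 (σ : F →+* F) (μ : F) (b c₀ : F[X]) : Prop where
  h1 : IsCoprime ((X - C μ) * b) c₀
  h2 : IsCoprime b (cr σ ((X - C μ) * b))
  h3 : IsCoprime (cr σ ((X - C μ) * b)) c₀
  h4 : IsCoprime (cr σ b) ((X - C μ) * b)

theorem conj_aux {Γ : Type*} [Group Γ] {k u l v a : Γ} (e : k⁻¹ * u * k⁻¹⁻¹ * l = v * a * v⁻¹) :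
    u * (k * l * k⁻¹) = k * v * a * (k * v)⁻¹ :=
  calc _ = k * (k⁻¹ * u * k⁻¹⁻¹ * l) * k⁻¹ := by group
    _ = _ := by rw [e]; group

theorem Dp_comm_eig (h : IsWittPair σ B Q) {x y : V} {μ : F} (hμ : μ ≠ 0) (hxy : B y x ≠ 0)
    (hl : l ∈ Isom B Q) (h1 : l y = μ • y) (h2 : l x = μ • x) (ht : t ∈ Dp B Q (F ∙ y)) :
    l * t = t * l := by
  rw [← mul_inv_eq_iff_eq_mul]
  refine Dp_ext h (Dp_conj hl (fun z hz => ?_) ht) ht hxy ?_
  · obtain ⟨a, rfl⟩ := Submodule.mem_span_singleton.1 hz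
    rw [map_smul, h1]
    exact Submodule.smul_mem _ _ (Submodule.smul_mem _ _ (Submodule.mem_span_singleton_self y))
  obtain ⟨a, ha⟩ := Submodule.mem_span_singleton.1 (ht.2 x)
  have e1 : l⁻¹ x = μ⁻¹ • x := l.injective (by
    rw [apply_inv_apply, map_smul, h2, smul_smul, inv_mul_cancel₀ hμ, one_smul])
  rw [LinearEquiv.mul_apply, LinearEquiv.mul_apply, e1, map_smul, map_smul,
    eq_add_of_sub_eq ha.symm, map_add, map_smul, h1, h2]
  match_scalars <;> field_simp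

variable [FiniteDimensional F V]

theorem Dp_le (hG : PolarG B Q G) {y : V} (hy : Q y = Q 0) : Dp B Q (F ∙ y) ≤ G := by
  have hT : TS B Q (F ∙ y) := by
    refine ⟨fun w hw => ?_, fun w hw w' hw' => ?_⟩
    · obtain ⟨a, rfl⟩ := Submodule.mem_span_singleton.1 hw
      exact hG.witt.norm_smul_singular hy a
    · obtain ⟨a, rfl⟩ := Submodule.mem_span_singleton.1 hw
      obtain ⟨b, rfl⟩ := Submodule.mem_span_singleton.1 hw'
      simp [hG.witt.self_eq_zero hy]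
  exact (Dp_le_UR hG.witt hT le_rfl).trans (UR_le hG hT)

theorem exists_Dp (h : IsWittPair σ B Q) {y x : V} (hy : Q y = Q 0) (hxy : B y x ≠ 0) {c : F}
    (hc : Q (x + c • y) = Q x) : ∃ r ∈ Dp B Q (F ∙ y), r x = x + c • y := by
  obtain ⟨r, hr, e⟩ := h.exists_Rad hy (Submodule.mem_span_singleton_self y) (y' := x + c • y) hxy
    (by simp [h.self_eq_zero hy]) hc (by simp [Submodule.smul_mem])
  exact ⟨r, ⟨hr.1, hr.2.2.2⟩, e⟩

theorem exists_swap (hG : PolarG B Q G) {x y : V} (hx : Q x = Q 0) (hy : Q y = Q 0)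
    (hxy : B y x ≠ 0) {μ : F} (hμ : μ ≠ 0) (hl : l ∈ Isom B Q) (h1 : l y = μ • y)
    (h2 : l x = μ • x) (ht : t ∈ Dp B Q (F ∙ x)) :
    ∃ s ∈ G, ∃ t' ∈ Dp B Q (F ∙ y), t * l = s * (t' * l) * s⁻¹ := by
  have h := hG.witt
  have hyx : B x y ≠ 0 := fun e => hxy (h.refl e)
  obtain ⟨a, ha⟩ := Submodule.mem_span_singleton.1 (ht.2 y)
  by_cases h0 : a = 0
  · exact ⟨1, one_mem _, 1, one_mem _, by
      rw [Dp_ext h ht (one_mem _) hyx (by simpa [h0, sub_eq_zero] using ha.symm)]; simp⟩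
  have e1 : t y = y + a • x := by rw [ha]; abel
  obtain ⟨r, hr, e2⟩ := exists_Dp h hy (x := y + a • x) (c := -1)
    (by simpa [h.self_eq_zero hy, h0] using hxy)
    (by rw [← e1, isom_q ht.1, hy, e1]; simpa using h.norm_smul_singular hx a)
  have e3 : (r * t) y = a • x := by rw [LinearEquiv.mul_apply, e1, e2]; module
  have e4 : l * (r * t) = r * t * l := by
    rw [← mul_assoc, Dp_comm_eig h hμ hxy hl h1 h2 hr, mul_assoc, Dp_comm_eig h hμ hyx hl h2 h1 ht,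
      mul_assoc]
  refine ⟨r * t, mul_mem (Dp_le hG hy hr) (Dp_le hG hx ht), (r * t)⁻¹ * t * (r * t)⁻¹⁻¹,
    Dp_conj (inv_mem (mul_mem hr.1 ht.1)) (fun z hz => ?_) ht, ?_⟩
  · obtain ⟨b, rfl⟩ := Submodule.mem_span_singleton.1 hz
    refine Submodule.mem_span_singleton.2 ⟨b / a, (r * t).injective ?_⟩
    rw [apply_inv_apply, map_smul, e3, smul_smul, div_mul_cancel₀ _ h0]
  · generalize r * t = s at e4
    rw [inv_inv, mul_assoc _ s l, ← e4]; group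

theorem exists_dual_line (h : Op B Q W W') {y : W} {φ : Dual F W} (hy : φ y = 1) :
    ∃ x ∈ W', B y x = 1 ∧ (∀ w : W, φ w = 0 → B w x = 0) ∧
      ∀ x' ∈ W', (∀ w : W, φ w = 0 → B w x' = 0) → x' ∈ F ∙ x := by
  obtain ⟨x, h1, h2⟩ := h.witt.exists_dual_vec (x := (y : V))
    (Z := (LinearMap.ker φ).map W.subtype ⊔ perp B W') fun hm => by
      obtain ⟨_, ⟨w, hw, rfl⟩, z, hz, e⟩ := Submodule.mem_sup.1 hm
      have : y - w = 0 := Subtype.ext (h.eq_zero (y - w).2 (by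
        rwa [Submodule.coe_sub, ← e, Submodule.subtype_apply, add_sub_cancel_left]))
      rw [sub_eq_zero.1 this, hw] at hy
      exact zero_ne_one hy
  have hx : x ∈ W' := h.witt.perp_perp W' ▸ mem_perp.2 fun z hz => h2 z (Submodule.mem_sup_right hz)
  have h3 : ∀ w : W, φ w = 0 → B w x = 0 := fun w hw => h2 _ (Submodule.mem_sup_left ⟨w, hw, rfl⟩)
  refine ⟨x, hx, h1, h3, fun x' hx' h4 => Submodule.mem_span_singleton.2 ⟨B y x', sub_eq_zero.1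
    (h.symm.eq_zero (sub_mem (W'.smul_mem _ hx) hx') (mem_perp.2 fun w hw => ?_))⟩⟩
  have e3 := h3 (⟨w, hw⟩ - φ ⟨w, hw⟩ • y) (by simp [hy])
  have e4 := h4 (⟨w, hw⟩ - φ ⟨w, hw⟩ • y) (by simp [hy])
  simp [h1, sub_eq_zero] at e3 e4
  simp [e3, e4, mul_comm]

theorem exists_weyl (h : Op B Q W W') {Y Z : W ≃ₗ[F] W} {a : F[X]} (h1 : a.Monic)
    (ha : Irreducible a) (hY : ∀ w, aeval (Y : End F W) a w = 0)
    (hZ : ∀ x ∈ W', aeval (h.lv Z : End F V) a x = 0) :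
    ∃ k ∈ Isom B Q, h.lv Y = k * h.lv Z * k⁻¹ := by
  have hw := h.witt
  have hr : ∀ x ∈ W', (h.lv Z : End F V) x ∈ W' := fun x => h.lv_right Z
  obtain ⟨E, hE⟩ := sim_of_irreducible (f := (h.lv Z : End F V).restrict hr) (g := (Y : End F W))
    h1 ha h.finrank_eq.symm (LinearMap.ext fun x => Subtype.ext
      ((aeval_intertwine W'.subtype (fun _ => rfl) a x).trans (hZ x x.2))) (LinearMap.ext hY)
  obtain ⟨k, hk, k1, k2⟩ := hw.exists_isom_map_eq E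
    (fun x x' => by rw [h.ts.b _ (E x).2 _ (E x').2, h.ts'.b _ x.2 _ x'.2])
    fun x => by rw [h.ts.q _ (E x).2, h.ts'.q _ x.2]
  have h2 := h.symm.map hk
  rw [k1] at h2
  obtain ⟨u, hu, k3⟩ := h2.exists_UR h
  rw [← map_mul_equiv] at k3
  have k4 : ∀ x : W', (u * k) x = E x := fun x => by
    rw [LinearEquiv.mul_apply, k2, hu.2.1 _ (E x).2]
  have hK := mul_mem hu.1 hk
  generalize u * k = K at *
  have k5 : W'.map (K : V →ₗ[F] V) = W := by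
    refine le_antisymm (by rintro _ ⟨x, hx, rfl⟩; exact k4 ⟨x, hx⟩ ▸ (E _).2) fun w hw => ?_
    exact ⟨E.symm ⟨w, hw⟩, Submodule.coe_mem _, by simp [k4]⟩
  refine ⟨K, hK, h.ext (h.lv_isom Y) (mul_mem (mul_mem hK (h.lv_isom Z)) (inv_mem hK))
    (fun w hw => ?_) (fun w => h.lv_mem Y) (fun π hπ => ?_) (fun x => h.lv_right Y)
    fun x hx => ?_⟩
  · obtain ⟨x, rfl⟩ : ∃ x : W', w = E x := ⟨E.symm ⟨w, hw⟩, by simp⟩
    rw [h.lv_left, LinearEquiv.mul_apply, LinearEquiv.mul_apply, ← k4 x, inv_apply_apply,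
      ← LinearEquiv.coe_coe Y, ← hE, ← k4]
    rfl
  · have : K⁻¹ π ∈ perp B W ⊓ perp B W' := by
      rw [← mem_map_equiv', ← perp_sup, map_perp (mem_isom.1 hK).1, Submodule.map_sup, k3, k5,
        perp_sup]
      exact ⟨hπ.2, hπ.1⟩
    rw [h.lv_mid Y hπ, LinearEquiv.mul_apply, LinearEquiv.mul_apply, h.lv_mid Z this,
      apply_inv_apply]
  · exact k3.le ⟨_, h.lv_mem Z (mem_map_equiv'.1 (k3.ge hx)), rfl⟩

variable [Finite F]

theorem com_gen (hG : PolarG B Q G) (h : Op B Q W W') (hu' : u' ∈ UR B Q W') (hu : u ∈ UR B Q W)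
    {Y Z : W ≃ₗ[F] W} (ht : t ∈ Fx B Q W W') {c₁ c₂ c₀ : F[X]}
    (hY : ∀ w, aeval (Y : End F W) c₁ w = 0) (hZ : ∀ w, aeval (Z : End F W) c₂ w = 0)
    (h0 : ∀ π ∈ perp B W ⊓ perp B W', aeval (t : End F V) c₀ π = 0) (h1 : Gd σ c₁ c₀)
    (h2 : Gd σ c₂ c₀) (hl : h.lv Z * t ∈ G) {k : V ≃ₗ[F] V} (hk : k ∈ G)
    (e : h.lv Y * t = k * (h.lv Z * t) * k⁻¹) : Com G (u' * h.lv (Y * Z⁻¹) * u⁻¹) := by
  obtain ⟨v₁, hv₁, e1⟩ := (lev_lv h ht hY h0).2.symm.conj_bot h.symm h1.h3 h1.h2.symm hu'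
  obtain ⟨v₂, hv₂, e2⟩ := (lev_lv h ht hZ h0).2.conj_bot h h2.h1 h2.h2 hu
  convert com_of (UR_le hG h.ts' hv₁) (UR_le hG h.ts hv₂) hl hk e1 e2 e using 3
  rw [map_mul, map_inv]; group

omit [Finite F] in
theorem lv_conj (h : Op B Q W W') {A Z k : W ≃ₗ[F] W} (ht : t ∈ Fx B Q W W')
    (e : A * Z = k * Z * k⁻¹) : h.lv (A * Z) * t = h.lv k * (h.lv Z * t) * (h.lv k)⁻¹ := by
  rw [e, map_mul, map_mul, mul_assoc, lv_comm h _ ht, map_inv]; group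

theorem com_i (hG : PolarG B Q G) (h : Op B Q W W') (hu' : u' ∈ UR B Q W') (hu : u ∈ UR B Q W)
    {A Z k : W ≃ₗ[F] W} (ht : t ∈ Fx B Q W W') {c c₀ : F[X]}
    (hZ : ∀ w, aeval (Z : End F W) c w = 0)
    (h0 : ∀ π ∈ perp B W ⊓ perp B W', aeval (t : End F V) c₀ π = 0) (h1 : Gd σ c c₀)
    (hl : h.lv Z * t ∈ G) (hk : h.lv k ∈ G) (e : A * Z = k * Z * k⁻¹) :
    Com G (u' * h.lv A * u⁻¹) := by
  have := com_gen hG h hu' hu (Y := A * Z) ht (fun w => by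
    obtain ⟨w, rfl⟩ := k.surjective w
    rw [← LinearEquiv.coe_coe, ← aeval_intertwine (f := (Z : End F W)) _ (fun v => by simp [e]), hZ,
      map_zero]) hZ h0 h1 h1 hl hk (lv_conj h ht e)
  rwa [mul_inv_cancel_right] at this

theorem conj_line (h : Op B Q W W') {Z : W ≃ₗ[F] W} (ht : t ∈ Fx B Q W W') {μ : F} (hμ : μ ≠ 0)
    {b c₀ : F[X]} {y : W} {φ : Dual F W} (hZ : Sp1 (Z : End F W) μ b y φ)
    (h0 : ∀ π ∈ perp B W ⊓ perp B W', aeval (t : End F V) c₀ π = 0) (h1 : Gd1 σ μ b c₀) :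
    ∃ x ∈ W', B y x = 1 ∧ (∀ w : W, φ w = 0 → B w x = 0) ∧ (h.lv Z * t) y = μ • (y : V) ∧
      (h.lv Z * t) x = (σ μ)⁻¹ • x ∧
      (∀ u ∈ UR B Q W, ∃ v ∈ UR B Q W, ∃ s ∈ Dp B Q (F ∙ (y : V)),
        u * (h.lv Z * t) = v * (s * (h.lv Z * t)) * v⁻¹) ∧
      (∀ u ∈ Dp B Q W, ∃ v ∈ Dp B Q W, ∃ s ∈ Dp B Q (F ∙ (y : V)),
        u * (h.lv Z * t) = v * (s * (h.lv Z * t)) * v⁻¹) ∧
      ∀ u ∈ UR B Q W', ∃ v ∈ UR B Q W', ∃ s ∈ Dp B Q (F ∙ x),
        u * (h.lv Z * t) = v * (s * (h.lv Z * t)) * v⁻¹ := by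
  obtain ⟨x, hx, x1, x2, x3⟩ := exists_dual_line h hZ.one
  obtain ⟨k1, k2⟩ := lev_lv h ht hZ.aeval_eq h0
  generalize h.lv Z * t = l at *
  have k3 : ∀ w : W, l w = Z w := fun w => by simpa using k1 X w
  have k4 : l y = μ • (y : V) := (k3 y).trans (congrArg Subtype.val hZ.eig)
  have k5 : ∀ z : V, ∀ {a : F}, l z = a • z → ∀ w ∈ F ∙ z, l w ∈ F ∙ z := fun z a e w hw => by
    obtain ⟨c, rfl⟩ := Submodule.mem_span_singleton.1 hw
    rw [map_smul, e]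
    exact Submodule.smul_mem _ _ (Submodule.smul_mem _ _ (Submodule.mem_span_singleton_self z))
  have k6 : l x = (σ μ)⁻¹ • x := by
    obtain ⟨a, ha⟩ := Submodule.mem_span_singleton.1 (x3 _ (k2.right x hx) fun w hw => by
      obtain ⟨w, rfl⟩ := Z.surjective w
      rw [← k3, isom_b k2.isom, x2 w ((mul_eq_zero.1 ((hZ.dual w).symm.trans hw)).resolve_left hμ)])
    have := isom_b k2.isom y x
    rw [k4, ← ha] at this
    rw [← ha, eq_inv_of_mul_eq_one_right (a := σ μ) (b := a) (by simpa [x1, mul_comm] using this)]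
  have k7 : ∀ w ∈ W, aeval (l : End F V) b w ∈ F ∙ (y : V) := fun w hw => by
    obtain ⟨c, hc⟩ := Submodule.mem_span_singleton.1 (hZ.mem ⟨w, hw⟩)
    exact Submodule.mem_span_singleton.2 ⟨c, by rw [k1 b ⟨w, hw⟩, ← hc]; rfl⟩
  have k8 := (Submodule.span_singleton_le_iff_mem _ _).2 y.2
  refine ⟨x, hx, x1, x2, k4, k6, fun u => k2.conj h k8 (k5 _ k4) k7 h1.h1 h1.h2,
    fun u => k2.conj_Dp h k8 (k5 _ k4) k7 h1.h1 h1.h2, fun u => k2.symm.conj h.symm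
      ((Submodule.span_singleton_le_iff_mem _ _).2 hx) (k5 _ k6) (fun z hz => x3 _
        (aeval_mem k2.right _ hz) fun w hw => ?_) h1.h3 h1.h4⟩
  refine mem_perp.1 (aeval_cr_mem (W := (LinearMap.ker φ).map W.subtype) k2.isom ?_ z) _
    ⟨w, hw, rfl⟩
  rintro _ ⟨w, hw, rfl⟩
  exact (k1 b w).trans (by rw [hZ.ker w hw]; rfl)

theorem com_ii (hG : PolarG B Q G) (hT : ∀ y, Q y = Q 0 → ∀ s ∈ Dp B Q (F ∙ y), s = 1)
    (h : Op B Q W W') (hu' : u' ∈ UR B Q W') (hu : u ∈ UR B Q W) {A Z k : W ≃ₗ[F] W}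
    (ht : t ∈ Fx B Q W W') {μ : F} (hμ : μ ≠ 0) {b c₀ : F[X]} {y : W} {φ : Dual F W}
    (hZ : Sp1 (Z : End F W) μ b y φ)
    (h0 : ∀ π ∈ perp B W ⊓ perp B W', aeval (t : End F V) c₀ π = 0) (h1 : Gd1 σ μ b c₀)
    (hl : h.lv Z * t ∈ G) (hk : h.lv k ∈ G) (e : A * Z = k * Z * k⁻¹) :
    Com G (u' * h.lv A * u⁻¹) := by
  obtain ⟨x, hx, -, -, -, -, k1, -, k2⟩ := conj_line h ht hμ hZ h0 h1
  obtain ⟨v₂, hv₂, s₂, hs₂, e2⟩ := k1 u hu
  obtain ⟨v₁, hv₁, s₁, hs₁, e1⟩ := k2 _ (UR_conj (inv_mem (h.lv_isom k))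
    (fun _ => inv_mem_of fun _ => h.lv_right k) hu')
  rw [hT _ (h.ts.q _ y.2) _ hs₂, one_mul] at e2
  rw [hT _ (h.ts'.q _ hx) _ hs₁, one_mul] at e1
  convert com_of (u' := u') (l₁ := h.lv (A * Z) * t) (a := h.lv Z * t)
    (mul_mem hk (UR_le hG h.ts' hv₁)) (UR_le hG h.ts hv₂) hl (one_mem _)
    (by rw [lv_conj h ht e]; exact conj_aux e1) e2 (by simp) using 3
  rw [map_mul]; group

theorem com_iii (hG : PolarG B Q G) (h : Op B Q W W') (hu' : u' ∈ UR B Q W') (hu : u ∈ UR B Q W)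
    {A Z k : W ≃ₗ[F] W} {μ : F} (hμ : σ μ * μ = 1) {b c₀ : F[X]} {y : W} {φ : Dual F W}
    (hZ : Sp1 (Z : End F W) μ b y φ) (h0 : ∀ π ∈ perp B W ⊓ perp B W', c₀.eval 1 • π = 0)
    (h1 : Gd1 σ μ b c₀) (hl : h.lv Z ∈ G) (hk : h.lv k ∈ G) (e : A * Z = k * Z * k⁻¹) {v : W}
    (hv : u' (A v) = A v) (v0 : φ v = 0) (v1 : φ (A v) = 1) : Com G (u' * h.lv A * u⁻¹) := by
  have hw := h.witt
  have hμ0 := right_ne_zero_of_mul_eq_one hμ
  obtain ⟨x, hx, x1, x2, l1, l2, k1, k2, k3⟩ := conj_line h (one_mem _) hμ0 hZ (fun π hπ => by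
    rw [aeval_eig (μ := 1) (by simp), h0 π hπ]) h1
  simp only [mul_one] at l1 l2 k1 k2 k3
  rw [← eq_inv_of_mul_eq_one_right hμ] at l2
  have xy : B (y : V) x ≠ 0 := by simp [x1]
  have yx : B x (y : V) ≠ 0 := fun e => xy (hw.refl e)
  obtain ⟨v₁, hv₁, s₁, hs₁, e1⟩ := k3 _ (UR_conj (inv_mem (h.lv_isom k))
    (fun _ => inv_mem_of fun _ => h.lv_right k) hu')
  obtain ⟨s, hs, s₀, hs₀, e0⟩ := exists_swap hG (h.ts'.q _ hx) (h.ts.q _ y.2) xy hμ0 (h.lv_isom Z)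
    l1 l2 hs₁
  obtain ⟨v₂, hv₂, s₂, hs₂, e2⟩ := k1 u hu
  have hy := (Submodule.span_singleton_le_iff_mem _ _).2 y.2
  have hv' := (Submodule.span_singleton_le_iff_mem _ _).2 (A v).2
  have mono : ∀ {z : W} {r}, r ∈ Dp B Q (F ∙ (z : V)) → r ∈ Dp B Q W := fun {z r} hr =>
    ⟨hr.1, fun x => (Submodule.span_singleton_le_iff_mem _ _).2 z.2 (hr.2 x)⟩
  have add : ∀ a ∈ Dp B Q W, ∀ b ∈ Dp B Q W, (a * b) x - x = (a x - x) + (b x - x) :=
    fun a ha b hb => by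
      have := Dp_fix hw ha (h.ts.le_perp (hb.2 x))
      rw [map_sub] at this
      rw [LinearEquiv.mul_apply, ← this]; abel
  have a1 : B x (A v - y : V) = 0 := hw.refl (x2 (A v - y) (by simp [v1, hZ.one]))
  rw [map_sub, sub_eq_zero] at a1
  obtain ⟨d, hd⟩ := Submodule.mem_span_singleton.1 ((mul_mem hs₀ (inv_mem hs₂) :).2 x)
  have xv : B (A v : V) x ≠ 0 := fun e => yx (a1 ▸ hw.refl e)
  obtain ⟨r, hr, er⟩ := exists_Dp hw (h.ts.q _ (A v).2) xv (c := d) (by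
    rw [← isom_q (mul_mem hs₀ (inv_mem hs₂) :).1 x, eq_add_of_sub_eq' hd.symm]
    exact hw.add _ _ _ _ rfl ((h.ts.q _ (W.smul_mem d (A v).2)).trans
      (h.ts.q _ (W.smul_mem d y.2)).symm) (by simp [a1]))
  have c1 : u' * r = r * u' := by
    rw [← mul_inv_eq_iff_eq_mul]
    refine Dp_ext hw (Dp_conj hu'.1 (fun z hz => ?_) hr) hr xv ?_
    · obtain ⟨a, rfl⟩ := Submodule.mem_span_singleton.1 hz
      rwa [map_smul, hv]
    · rw [LinearEquiv.mul_apply, LinearEquiv.mul_apply, (inv_mem hu' :).2.1 x hx, er, map_add,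
        map_smul, hv, hu'.2.1 x hx]
  have hr' : (h.lv A)⁻¹ * r⁻¹ * (h.lv A)⁻¹⁻¹ ∈ Dp B Q (F ∙ (v : V)) :=
    Dp_conj (inv_mem (h.lv_isom A)) (fun z hz => by
      obtain ⟨a, rfl⟩ := Submodule.mem_span_singleton.1 hz
      rw [map_smul, ← h.lv_left, inv_apply_apply]
      exact Submodule.smul_mem _ _ (Submodule.mem_span_singleton_self _)) (inv_mem hr)
  generalize hr'' : (h.lv A)⁻¹ * r⁻¹ * (h.lv A)⁻¹⁻¹ = r' at hr'
  have hz := mul_mem (mono hr) (mono hr')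
  obtain ⟨v₃, hv₃, s₃, hs₃, e3⟩ := k2 _ (mul_mem hz (mono hs₂))
  have c2 : s₃ = s₀ := by
    have m1 := Dp_conj (h.lv_isom Z) (fun _ => h.lv_mem Z) (inv_mem hv₃)
    have m2 : r * r' * s₂ = v₃ * s₃ * (h.lv Z * v₃⁻¹ * (h.lv Z)⁻¹) := by
      rw [← mul_inv_cancel_right (r * r' * s₂) (h.lv Z), e3]; group
    have m3 := congrArg (fun a : V ≃ₗ[F] V => B x (a x - x)) m2
    have m4 : (h.lv Z)⁻¹ x = μ⁻¹ • x := (h.lv Z).injective (by
      rw [apply_inv_apply, map_smul, l2, smul_smul, inv_mul_cancel₀ hμ0, one_smul])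
    have m5 : B x ((h.lv Z * v₃⁻¹ * (h.lv Z)⁻¹) x - x) = B x (v₃⁻¹ x - x) := by
      rw [← isom_b (inv_mem (h.lv_isom Z)), map_sub, LinearEquiv.mul_apply, LinearEquiv.mul_apply,
        inv_apply_apply, m4, map_smul v₃⁻¹, ← smul_sub, LinearMap.map_smulₛₗ₂, map_smul (B x),
        smul_smul, map_inv₀, ← mul_inv, hμ, inv_one, one_smul]
    have m6 := add _ hv₃ _ (inv_mem hv₃)
    have m7 := add _ (mono (mul_mem hs₀ (inv_mem hs₂))) _ (mono hs₂)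
    rw [mul_inv_cancel, LinearEquiv.coe_one, id, sub_self] at m6
    rw [inv_mul_cancel_right, ← hd] at m7
    simp only [add _ hz _ (mono hs₂), add _ (mono hr) _ (mono hr'), add _ (mul_mem hv₃ (mono hs₃)) _ m1,
      add _ hv₃ _ (mono hs₃), map_add, m5, er, add_sub_cancel_left, map_smul, a1,
      Dp_fix hw hr' (mem_perp_singleton.2 (x2 v v0)), sub_self, map_zero, add_zero] at m3
    obtain ⟨a₃, h3⟩ := Submodule.mem_span_singleton.1 (hs₃.2 x)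
    obtain ⟨a₀, h4⟩ := Submodule.mem_span_singleton.1 (hs₀.2 x)
    have m8 := congrArg (B x) m6
    have m9 := congrArg (B x) m7
    rw [map_add, map_zero] at m8
    rw [map_add, map_smul, ← h4, map_smul] at m9
    rw [← h3, map_smul] at m3
    have : a₃ = a₀ := mul_right_cancel₀ yx (by
      simp only [smul_eq_mul] at m3 m9
      linear_combination -m3 - m9 + m8)
    exact Dp_ext hw hs₃ hs₀ xy (by rw [← sub_left_inj (a := x), ← h3, ← h4, this])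
  have hU := Dp_le_UR hw h.ts le_rfl
  refine Com.of_conj (UR_le hG h.ts (hU (mono hr))) ?_
  have := com_of (u' := u') (l₁ := h.lv (A * Z)) (u := r * r' * u) (l₂ := h.lv Z)
    (a := s₁ * h.lv Z) (mul_mem hk (UR_le hG h.ts' hv₁)) (UR_le hG h.ts (mul_mem hv₂ (hU hv₃)))
    (mul_mem (Dp_le hG (h.ts.q _ y.2) hs₀) hl) hs (by
      have := lv_conj h (one_mem _) e
      rw [mul_one, mul_one] at this
      rw [this]; exact conj_aux e1) (by
      rw [mul_assoc, e2, ← mul_assoc, ← mul_assoc, Dp_comm hw le_rfl hz hv₂, mul_assoc v₂,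
        ← mul_assoc (r * r'), e3, c2]
      group) e0
  convert this using 1
  have c3 := Dp_comm hw le_rfl (mono hr') (mul_mem (inv_mem hu) (inv_mem (hU (mono hr))))
  have c4 := Dp_comm hw le_rfl (inv_mem (mono hr')) (inv_mem hu)
  rw [map_mul, mul_inv_cancel_right, ← mul_assoc, ← mul_assoc, ← c1, mul_inv_rev, mul_inv_rev,
    ← mul_assoc u⁻¹, ← c4, ← hr'']
  group

end CF.Ore
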