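/-
Moving an isometry into the big cell and adjusting its Levi component.
-/
import Cfsg.Agent.Ore.C

set_option autoImplicit false

namespace CF.Ore

open Module Polynomial CF.Geom CF.Cls CF.Classical

section Det

variable {F W : Type*} [Field F] [AddCommGroup W] [Module F W] [FiniteDimensional F W]
  {f : End F W}

theorem det_of_disp {U : Type*} [AddCommGroup U] [Module F U] (j : U →ₗ[F] W)
    (hj : Function.Injective j) {g : End F U} (h1 : ∀ u, j (g u) = f (j u))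
    (h : ∀ z, f z - z ∈ LinearMap.range j) : LinearMap.det f = LinearMap.det g := by
  simpa using det_of_exact (h := LinearMap.id) j (LinearMap.range j).mkQ hj
    (Submodule.mkQ_surjective _) (Submodule.ker_mkQ _) h1
    fun v => (Submodule.Quotient.eq _).2 (h v)

theorem det_rank1 {v : W} (hv : v ≠ 0) (h : ∀ z, f z - z ∈ F ∙ v) {a : F} (h1 : f v = a • v) :
    LinearMap.det f = a := by
  rw [det_of_disp (LinearMap.toSpanSingleton F W v) (g := a • 1)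
    (LinearMap.ker_eq_bot.1 (LinearMap.ker_toSpanSingleton F hv))
    (fun u => by simp [h1, smul_smul, mul_comm]) (by rwa [← LinearMap.span_singleton_eq_range])]
  simp

theorem det_rank2 {v w : W} (hv : LinearIndependent F ![v, w])
    (h : ∀ z, f z - z ∈ Submodule.span F {v, w}) {a b c d : F} (h1 : f v = a • v + b • w)
    (h2 : f w = c • v + d • w) : LinearMap.det f = a * d - b * c := by
  rw [det_of_disp (Fintype.linearCombination F ![v, w]) (g := Matrix.toLin' !![a, c; b, d])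
    hv.fintypeLinearCombination_injective (fun u => by
      simp [Fintype.linearCombination_apply, h1, h2, Matrix.mulVec, dotProduct]; module)
    (by rwa [Fintype.range_linearCombination, Matrix.range_cons_cons_empty]), LinearMap.det_toLin',
    Matrix.det_fin_two_of, mul_comm c]

end Det

variable {F V : Type*} [Field F] [AddCommGroup V] [Module F V] {σ : F →+* F}
  {B : V →ₛₗ[σ] V →ₗ[F] F} {Q : V → F} {W W' X Y : Submodule F V} {g r : V ≃ₗ[F] V}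
  {G : Subgroup (V ≃ₗ[F] V)}

/-- maximal totally singular subspaces -/
structure MT (B : V →ₛₗ[σ] V →ₗ[F] F) (Q : V → F) (W : Submodule F V) : Prop where
  ts : TS B Q W
  mx : ∀ x ∈ perp B W, Q x = Q 0 → x ∈ W

theorem TS.bot : TS B Q ⊥ :=
  ⟨fun w hw => by rw [(Submodule.mem_bot F).1 hw], fun w hw w' _ => by
    simp [(Submodule.mem_bot F).1 hw]⟩

theorem TS.sup (h : IsWittPair σ B Q) (hW : TS B Q W) {x : V} (h1 : x ∈ perp B W)
    (h2 : Q x = Q 0) : TS B Q (W ⊔ F ∙ x) := by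
  constructor
  · intro z hz
    obtain ⟨w, hw, _, hy, rfl⟩ := Submodule.mem_sup.1 hz
    obtain ⟨a, rfl⟩ := Submodule.mem_span_singleton.1 hy
    rw [h.norm_add_singular (h.norm_smul_singular h2 a) (by simp [mem_perp.1 h1 w hw]), hW.q w hw]
  · intro z hz z' hz'
    obtain ⟨w, hw, _, hy, rfl⟩ := Submodule.mem_sup.1 hz
    obtain ⟨a, rfl⟩ := Submodule.mem_span_singleton.1 hy
    obtain ⟨w', hw', _, hy', rfl⟩ := Submodule.mem_sup.1 hz'
    obtain ⟨a', rfl⟩ := Submodule.mem_span_singleton.1 hy'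
    simp [hW.b w hw w' hw', mem_perp.1 h1 w hw, h.refl (mem_perp.1 h1 w' hw'), h.self_eq_zero h2]

theorem MT.an (hW : MT B Q W) (h : Op B Q W W') {π : V} (hπ : π ∈ perp B W ⊓ perp B W')
    (h0 : Q π = Q 0) : π = 0 := h.eq_zero (hW.mx π hπ.1 h0) hπ.2

/-- conjugate by an element of the unipotent radical -/
def Cj (B : V →ₛₗ[σ] V →ₗ[F] F) (Q : V → F) (W : Submodule F V) (g g' : V ≃ₗ[F] V) : Prop :=
  ∃ r ∈ UR B Q W, g' = r * g * r⁻¹

theorem Cj.refl (g : V ≃ₗ[F] V) : Cj B Q W g g := ⟨1, one_mem _, by simp⟩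

theorem Cj.trans {g' g'' : V ≃ₗ[F] V} (h : Cj B Q W g g') (h' : Cj B Q W g' g'') :
    Cj B Q W g g'' := by
  obtain ⟨r, hr, rfl⟩ := h
  obtain ⟨s, hs, rfl⟩ := h'
  exact ⟨s * r, mul_mem hs hr, by group⟩

theorem conj_apply (hr : r ∈ UR B Q W) (g : V ≃ₗ[F] V) {w : V} (hw : w ∈ W) :
    (r * g * r⁻¹) w = r (g w) := by
  rw [LinearEquiv.mul_apply, LinearEquiv.mul_apply, (inv_mem hr :).2.1 w hw]

theorem Cj.eq {g' : V ≃ₗ[F] V} (h : Cj B Q W g g') {w : V} (hw : w ∈ W) (hw' : g w ∈ W) :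
    g' w = g w := by
  obtain ⟨r, hr, rfl⟩ := h
  rw [conj_apply hr g hw, hr.2.1 _ hw']

theorem Cj.ne {g' : V ≃ₗ[F] V} (h : Cj B Q W g g') (h1 : ∃ w ∈ W, g w ∉ W) :
    ∃ w ∈ W, g' w ∉ W := by
  obtain ⟨r, hr, rfl⟩ := h
  obtain ⟨w, hw, h1⟩ := h1
  refine ⟨w, hw, fun h2 => h1 ?_⟩
  rw [conj_apply hr g hw] at h2
  rwa [r.injective (hr.2.1 _ h2).symm]

/-- a singular vector can be moved along `w` -/
def H1 (B : V →ₛₗ[σ] V →ₗ[F] F) (Q : V → F) (W W' : Submodule F V) : Prop :=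
  ∀ w ∈ W, ∀ y, Q y = Q 0 → (∀ π ∈ perp B W ⊓ perp B W', B π y = 0) → B w y ≠ 0 →
    ∃ c : F, c ≠ 0 ∧ ∃ π ∈ perp B W ⊓ perp B W', Q (y + c • w + π) = Q 0

/-- there are transvections -/
def Tr (B : V →ₛₗ[σ] V →ₗ[F] F) (Q : V → F) : Prop :=
  ∀ w y, Q w = Q 0 → Q y = Q 0 → ∃ c : F, c ≠ 0 ∧ Q (y + c • w) = Q 0

theorem Tr.h1 (h : Tr B Q) (hW : TS B Q W) : H1 B Q W W' := fun w hw y hy _ _ =>
  let ⟨c, h1, h2⟩ := h w y (hW.q w hw) hy
  ⟨c, h1, 0, zero_mem _, by rwa [add_zero]⟩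

theorem h1_of_ne (hW : MT B Q W) (h : Op B Q W W') (h0 : perp B W ⊓ perp B W' ≠ ⊥) :
    H1 B Q W W' := fun w hw y hy h1 h2 => by
  obtain ⟨π, hπ, h3⟩ := Submodule.exists_mem_ne_zero_of_ne_bot h0
  obtain ⟨c, hc⟩ := h.witt.slide w 0 (π + y) (hW.ts.q w hw) (by simpa [mem_perp.1 hπ.1 w hw])
  refine ⟨c, fun e => h3 (hW.an h hπ ?_), π, hπ, by rw [← hc]; congr 1; abel⟩
  rwa [e, zero_smul, add_zero, h.witt.norm_add_singular hy (h1 π hπ)] at hc

variable [FiniteDimensional F V]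

theorem Cj.mem (hG : PolarG B Q G) (hW : TS B Q W) {g' : V ≃ₗ[F] V} (h : Cj B Q W g g')
    (hg : g ∈ G) : g' ∈ G := by
  obtain ⟨r, hr, rfl⟩ := h
  exact mul_mem (mul_mem (UR_le hG hW hr) hg) (inv_mem (UR_le hG hW hr))

theorem Cj.com (hG : PolarG B Q G) (hW : TS B Q W) {g' : V ≃ₗ[F] V} (h : Cj B Q W g g')
    (hg : Com G g') : Com G g := by
  obtain ⟨r, hr, rfl⟩ := h
  exact hg.of_conj (UR_le hG hW hr)

theorem exists_MT (h : IsWittPair σ B Q) (hY : TS B Q Y) : ∃ W, MT B Q W ∧ Y ≤ W := by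
  obtain ⟨W, ⟨h1, h2⟩, h3⟩ := set_has_maximal_iff_noetherian.2 inferInstance
    {W | TS B Q W ∧ Y ≤ W} ⟨Y, hY, le_rfl⟩
  refine ⟨W, ⟨h1, fun x hx h0 => by_contra fun hn => h3 _ ⟨h1.sup h hx h0, le_sup_of_le_left h2⟩
    (lt_of_le_of_ne le_sup_left fun e => hn (e ▸ Submodule.mem_sup_right
      (Submodule.mem_span_singleton_self x)))⟩, h2⟩

theorem exists_MT_notMem (h : IsWittPair σ B Q) (hY : TS B Q Y) {x : V} (hx : x ∉ Y) :
    ∃ W, MT B Q W ∧ Y ≤ W ∧ x ∉ W := by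
  by_cases h1 : x ∈ perp B Y ∧ Q x = Q 0
  · obtain ⟨y, h2, h3, h4⟩ := h.exists_partner hx h1.2 (mem_perp.1 h1.1)
    obtain ⟨W, h5, h6⟩ := exists_MT h (hY.sup h (mem_perp.2 h4) h2)
    refine ⟨W, h5, le_sup_left.trans h6, fun h7 => one_ne_zero (h3.symm.trans ?_)⟩
    exact h5.ts.b x h7 y (h6 (Submodule.mem_sup_right (Submodule.mem_span_singleton_self y)))
  · obtain ⟨W, h5, h6⟩ := exists_MT h hY
    exact ⟨W, h5, h6, fun h7 => h1 ⟨perp_anti h6 (h5.ts.le_perp h7), h5.ts.q x h7⟩⟩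

theorem exists_op (h : IsWittPair σ B Q) (hW : TS B Q W) : ∃ W', Op B Q W W' := by
  obtain ⟨e, f, h1, h2⟩ := h.exists_hypFrame_span hW.q hW.le_perp rfl
  refine ⟨Submodule.span F (Set.range f), Op.of_disjoint h hW
    ⟨fun w => h.singular_of_mem_span h1.qf h1.ff, fun w hw w' hw' =>
      mem_perp.1 (IsWittPair.span_le_perp_span h1.ff hw') w hw⟩
    ((finrank_range_le_card (R := F) f).trans (by simp)) fun x hx hx' => ?_⟩
  refine Submodule.disjoint_def.1 (h1.disjoint h) x ?_ ?_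
  · rw [hypSpan_eq_sup, h2]; exact Submodule.mem_sup_left hx
  · rw [hypSpan_eq_sup, h2, perp_sup]; exact ⟨hW.le_perp hx, hx'⟩

theorem MT.right (hW : MT B Q W) (h : Op B Q W W') : MT B Q W' := by
  refine ⟨h.ts', fun x hx h0 => ?_⟩
  obtain ⟨y, hy, h1⟩ := h.symm.dec x
  have h2 := sub_mem hx (h.ts'.le_perp hy)
  rw [sub_eq_zero.1 (hW.an h ⟨h1, h2⟩ ?_)]
  · exact hy
  rw [sub_eq_add_neg, h.witt.norm_add_singular (h.ts'.q _ (neg_mem hy)), h0]
  simp [h.witt.refl (mem_perp.1 hx y hy)]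

theorem Op.finrank_add (h : Op B Q W W') :
    2 * finrank F W + finrank F ↥(perp B W ⊓ perp B W') = finrank F V := by
  have h1 := h.witt.finrank_perp (W ⊔ W')
  have h2 := Submodule.finrank_sup_add_finrank_inf_eq W W'
  rw [(h.compl.disjoint.mono_right h.ts'.le_perp).eq_bot, finrank_bot, ← h.finrank_eq] at h2
  rw [perp_sup] at h1
  omega

theorem Op.exists_ne (h : Op B Q W W') (hW : MT B Q W) {y : V} (hy : Q y = Q 0) (h1 : y ∉ W) :
    ∃ w ∈ W, B w y ≠ 0 := by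
  by_contra! hc
  exact h1 (hW.mx y (mem_perp.2 hc) hy)

theorem exists_transv (h : Op B Q W W') (hW : MT B Q W) (H : H1 B Q W W') (hX : TS B Q X) :
    ∃ r ∈ UR B Q W, ∀ x ∈ X, r x ∈ W' → x = 0 := by
  obtain ⟨n, hn⟩ : ∃ n, finrank F ↥(X ⊓ W') < n := ⟨_, Nat.lt_succ_self _⟩
  have hw := h.witt
  induction n generalizing X with
  | zero => omega
  | succ n ih =>
    by_cases hc : ∀ x ∈ X, x ∈ W' → x = 0
    · exact ⟨1, one_mem _, hc⟩
    push Not at hc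
    obtain ⟨x, hx, hx', h0⟩ := hc
    obtain ⟨w, hw', h1⟩ := h.exists_ne hW (hX.q x hx) fun e => h0 (h.eq_zero e (h.ts'.le_perp hx'))
    obtain ⟨c, hc, π, hπ, h2⟩ := H w hw' x (hX.q x hx)
      (fun π hπ => hw.refl (mem_perp.1 hπ.2 x hx')) h1
    obtain ⟨r, hr, h3⟩ := hw.exists_Rad (h.ts.q w hw') (A := (F ∙ w) ⊔ perp B W ⊓ perp B W')
      (Submodule.mem_sup_left (Submodule.mem_span_singleton_self w)) (y' := x + c • w + π) h1
      (by simp [h.ts.b w hw' w hw', mem_perp.1 hπ.1 w hw']) (h2.trans (hX.q x hx).symm)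
      (by simpa [add_assoc] using Submodule.add_mem_sup (Submodule.smul_mem _ c
        (Submodule.mem_span_singleton_self w)) hπ)
    have hrU := Rad_mem_UR hw hw' (sup_le ((Submodule.span_singleton_le_iff_mem _ _).2
      (h.ts.le_perp hw')) inf_le_left) hr
    have key : ∀ z ∈ X, r z ∈ W' → r z = z ∧ B w z = 0 := fun z hz hz' => by
      obtain ⟨_, h4, p, hp, h5⟩ := Submodule.mem_sup.1 (hr.2.2.2 z)
      obtain ⟨a, rfl⟩ := Submodule.mem_span_singleton.1 h4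
      have h6 := congrArg (B x) h5
      simp only [map_add, map_smul, map_sub, mem_perp.1 hp.2 x hx', h.ts'.b x hx' _ hz',
        hX.b x hx z hz, sub_self, add_zero, smul_eq_mul, mul_eq_zero] at h6
      obtain rfl := h6.resolve_right fun e => h1 (hw.refl e)
      rw [zero_smul, zero_add] at h5
      have h7 : r z = z := by
        refine sub_eq_zero.1 (h5 ▸ hW.an h hp ?_)
        rw [← hw.norm_smul_singular (hX.q z hz) (-1), ← hw.norm_add_singular (x := p)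
          (h.ts'.q _ (neg_mem hz')) (by simp [hw.refl (mem_perp.1 hp.2 _ hz')]), h5]
        congr 1; module
      refine ⟨h7, by_contra fun e => hc ?_⟩
      rw [hw.Rad_eq_one hr e h7, LinearEquiv.coe_one, id, add_assoc, left_eq_add] at h3
      simpa [hc, h.ts.b, show w ≠ 0 from fun e => h1 (by simp [e])] using h.eq_zero
        (W.smul_mem c hw') (eq_neg_of_add_eq_zero_left h3 ▸ neg_mem hπ.2)
    have hlt : X.map (r : V →ₗ[F] V) ⊓ W' < X ⊓ W' := by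
      refine SetLike.lt_iff_le_and_exists.2 ⟨?_, x, Submodule.mem_inf.2 ⟨hx, hx'⟩, ?_⟩
      · rintro _ ⟨⟨z, hz, rfl⟩, hz'⟩
        exact ⟨(congrArg (· ∈ X) (key z hz hz').1).mpr hz, hz'⟩
      · rintro ⟨⟨z, hz, rfl⟩, -⟩
        exact h1 ((congrArg (B w) (key z hz hx').1).trans (key z hz hx').2)
    obtain ⟨u, hu, h4⟩ := ih (hX.map hrU.1)
      ((Submodule.finrank_lt_finrank_of_lt hlt).trans_le (Nat.le_of_lt_succ hn))
    exact ⟨u * r, mul_mem hu hrU, fun z hz hz' => r.map_eq_zero_iff.1 (h4 _ ⟨z, hz, rfl⟩ hz')⟩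

theorem cell_of_transv (h : Op B Q W W') (hW : MT B Q W) (hg : g ∈ Isom B Q) (hr : r ∈ UR B Q W)
    (h1 : ∀ x ∈ W.map (g : V →ₗ[F] V), r x ∈ W' → x = 0) : ∃ A, Cell B Q W W' (r * g * r⁻¹) A := by
  have h2 := mul_mem (mul_mem hr.1 hg) (inv_mem hr.1)
  refine exists_cell h h2 fun w hw h3 => g.map_eq_zero_iff.1 (h1 _ ⟨w, hw, rfl⟩ ?_)
  have := (hW.right h).mx _ h3 ((isom_q h2 w).trans (h.ts.q w hw))
  rwa [conj_apply hr g hw] at this

theorem exists_cj_cell (h : Op B Q W W') (hW : MT B Q W) (H : H1 B Q W W') (hg : g ∈ Isom B Q) :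
    ∃ g' A, Cj B Q W g g' ∧ Cell B Q W W' g' A :=
  let ⟨r, hr, h1⟩ := exists_transv h hW H (h.ts.map hg)
  let ⟨A, hA⟩ := cell_of_transv h hW hg hr h1
  ⟨_, A, ⟨r, hr, rfl⟩, hA⟩

namespace Cell

variable {A : W ≃ₗ[F] W}

theorem dec3 (h : Cell B Q W W' g A) (v : W) :
    ∃ π ∈ perp B W ⊓ perp B W', ∃ x ∈ W', g v = A v + π + x := by
  obtain ⟨x, hx, h1⟩ := h.op.symm.dec (g v - A v)
  exact ⟨_, ⟨h1, sub_mem (h.eq v) (h.op.ts'.le_perp hx)⟩, x, hx, by abel⟩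

omit [FiniteDimensional F V] in
theorem q (h : Cell B Q W W' g A) (v : W) : Q (g v) = Q 0 :=
  (isom_q h.isom v).trans (h.op.ts.q _ v.2)

omit [FiniteDimensional F V] in
theorem b (h : Cell B Q W W' g A) (v w : W) : B (g v) (g w) = 0 :=
  (isom_b h.isom v w).trans (h.op.ts.b _ v.2 _ w.2)

theorem upd (h : Cell B Q W W' g A) (hr : r ∈ UR B Q W) {Z : Submodule F W}
    (hZ : ∀ v : W, ∃ z ∈ Z, r (g v) - g v - z ∈ perp B W') :
    ∃ f : End F W, (∀ z, f z - z ∈ Z) ∧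
      (∀ v w : W, r (g v) - g v - w ∈ perp B W' → f (A v) = A v + w) ∧
      (LinearMap.det f ≠ 0 → ∃ A', Cell B Q W W' (r * g * r⁻¹) A' ∧ (∀ v, A' v = f (A v)) ∧
        LinearMap.det (A' : W →ₗ[F] W) = LinearMap.det f * LinearMap.det (A : W →ₗ[F] W)) := by
  let p := W.projectionOnto _ h.op.compl
  let f : End F W := p ∘ₗ (r : V →ₗ[F] V) ∘ₗ (g : V →ₗ[F] V) ∘ₗ W.subtype ∘ₗ (A⁻¹ : W ≃ₗ[F] W)
  have hf : ∀ v, f (A v) = p (r (g v)) := fun v => by simp [f]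
  have k : ∀ v w : W, r (g v) - g v - w ∈ perp B W' → f (A v) = A v + w := fun v w hw => by
    have := Submodule.projectionOnto_apply_of_mem_right h.op.compl (add_mem hw (h.eq v))
    rw [show r (g v) - g v - w + (g v - A v) = r (g v) - ((A v + w : W) : V) by simp; abel, map_sub,
      Submodule.projectionOnto_apply_left, sub_eq_zero] at this
    rw [hf, this]
  refine ⟨f, fun z => ?_, k, fun hd => ?_⟩
  · obtain ⟨v, rfl⟩ := A.surjective z
    obtain ⟨z, hz, h1⟩ := hZ v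
    simpa [k v z h1]
  obtain ⟨f', hf'⟩ := exists_equiv_of_det hd
  have e : ∀ v, (f' * A) v = f (A v) := fun v => by rw [← hf']; rfl
  refine ⟨f' * A, ⟨h.op, mul_mem (mul_mem hr.1 h.isom) (inv_mem hr.1), fun w => ?_⟩, e,
    by rw [det_mul_equiv, hf']⟩
  rw [conj_apply hr g w.2, e, hf, ← Submodule.projectionOnto_apply_eq_zero_iff h.op.compl, map_sub,
    Submodule.projectionOnto_apply_left, sub_self]

theorem rad1 (h : Cell B Q W W' g A) {w : W} (hw : w ≠ 0) {y : V} (hy : Q y = Q 0)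
    (h1 : B w y ≠ 0) {c : F} {π : V} (hπ : π ∈ perp B W ⊓ perp B W')
    (h2 : Q (y + c • w + π) = Q 0) :
    ∃ r ∈ Rad B Q w ((F ∙ (w : V)) ⊔ perp B W ⊓ perp B W'), r ∈ UR B Q W ∧ r y = y + c • w + π ∧
      ∀ a : F, 1 + a ≠ 0 → r (g (A⁻¹ w : W)) - g (A⁻¹ w : W) - a • w ∈ perp B W' →
        ∃ A', Cell B Q W W' (r * g * r⁻¹) A' ∧
          (∀ v z : W, r (g v) - g v - z ∈ perp B W' → A' v = A v + z) ∧
          LinearMap.det (A' : W →ₗ[F] W) = (1 + a) * LinearMap.det (A : W →ₗ[F] W) := by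
  have ho := h.op
  obtain ⟨r, hr, h3⟩ := ho.witt.exists_Rad (ho.ts.q _ w.2) (A := (F ∙ (w : V)) ⊔ perp B W ⊓ perp B W')
    (Submodule.mem_sup_left (Submodule.mem_span_singleton_self _)) (y' := y + c • w + π) h1
    (by simp [ho.ts.b _ w.2 _ w.2, mem_perp.1 hπ.1 _ w.2]) (h2.trans hy.symm)
    (by simpa [add_assoc] using Submodule.add_mem_sup (Submodule.smul_mem _ c
      (Submodule.mem_span_singleton_self (w : V))) hπ)
  have hrU := Rad_mem_UR ho.witt w.2 (sup_le ((Submodule.span_singleton_le_iff_mem _ _).2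
    (ho.ts.le_perp w.2)) inf_le_left) hr
  refine ⟨r, hr, hrU, h3, fun a ha h4 => ?_⟩
  obtain ⟨f, f1, f2, f3⟩ := h.upd hrU (Z := F ∙ w) fun v => by
    obtain ⟨_, h4, p, hp, h5⟩ := Submodule.mem_sup.1 (hr.2.2.2 (g v))
    obtain ⟨a, rfl⟩ := Submodule.mem_span_singleton.1 h4
    exact ⟨a • w, Submodule.smul_mem _ _ (Submodule.mem_span_singleton_self _),
      by simpa [← h5] using hp.2⟩
  have f4 := f2 (A⁻¹ w) (a • w) h4
  rw [apply_inv_apply] at f4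
  have f5 := det_rank1 hw f1 (a := 1 + a) (by rw [f4, add_smul, one_smul])
  obtain ⟨A', k1, k2, k3⟩ := f3 (f5 ▸ ha)
  exact ⟨A', k1, fun v z hz => (k2 v).trans (f2 v z hz), f5 ▸ k3⟩

theorem perp_of (h : Cell B Q W W' g A) (hW : MT B Q W) {v : W} (hv : B (A v) (g v) = 0) {π : V}
    (hπ : π ∈ perp B W ⊓ perp B W') : B π (g v) = 0 := by
  have hw := h.op.witt
  obtain ⟨p, hp, x, hx, e⟩ := h.dec3 v
  have h1 := h.q v
  rw [e] at hv h1 ⊢
  rw [show (A v : V) + p + x = p + x + A v by abel, hw.norm_add_singular (h.op.ts.q _ (A v).2)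
    (hw.refl (by simpa [h.op.ts.b _ (A v).2 _ (A v).2] using hv)), hw.norm_add_singular
    (h.op.ts'.q x hx) (hw.refl (mem_perp.1 hp.2 x hx))] at h1
  simp [hW.an h.op hp h1, hw.refl (mem_perp.1 hπ.1 _ (A v).2), hw.refl (mem_perp.1 hπ.2 x hx)]

theorem exists_beta (h : Cell B Q W W' g A) (hW : MT B Q W) (H : H1 B Q W W')
    (hne : ∃ w ∈ W, g w ∉ W) :
    ∃ g' A', Cj B Q W g g' ∧ Cell B Q W W' g' A' ∧ ∃ v : W, B (A' v) (g' v) ≠ 0 := by
  by_cases hc : ∃ v : W, B (A v) (g v) ≠ 0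
  · exact ⟨g, A, .refl g, h, hc⟩
  push Not at hc
  have hw := h.op.witt
  obtain ⟨v, hv, h1⟩ := hne
  lift v to W using hv
  obtain ⟨w, hw', h2⟩ := h.op.exists_ne hW (h.q v) h1
  lift w to W using hw'
  obtain ⟨c, c0, π, hπ, h3⟩ := H w w.2 _ (h.q v) (fun π => h.perp_of hW (hc v)) h2
  obtain ⟨r, hr, hU, e, k⟩ := h.rad1 (w := w) (fun e => h2 (by simp [e])) (h.q v) h2 hπ h3
  obtain ⟨A', k1, k2, -⟩ := k 0 (by simp) (by
    rw [hw.Rad_fix hr, sub_self, zero_smul, sub_self]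
    · exact zero_mem _
    rw [perp_sup, Submodule.mem_inf, mem_perp_singleton]
    exact ⟨by simpa [apply_inv_apply] using hc (A⁻¹ w), mem_perp.2 fun π => h.perp_of hW (hc _)⟩)
  refine ⟨_, A', ⟨r, hU, rfl⟩, k1, v, ?_⟩
  rw [k2 v (c • w) (by simpa [e, add_assoc] using hπ.2), conj_apply hU g v.2, e]
  simpa [hc v, h.op.ts.b _ (A v).2 _ w.2, h.op.ts.b _ w.2 _ w.2, mem_perp.1 hπ.1 _ (A v).2,
    mem_perp.1 hπ.1 _ w.2, c0] using h2

theorem adj1 (h : Cell B Q W W' g A) {v : W} (h1 : B (A v) (g v) ≠ 0) {a : F} (ha : 1 + a ≠ 0)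
    {π : V} (hπ : π ∈ perp B W ⊓ perp B W') (h2 : Q (g v + a • (A v : V) + π) = Q 0) :
    ∃ r ∈ Rad B Q (A v) ((F ∙ (A v : V)) ⊔ perp B W ⊓ perp B W'), r ∈ UR B Q W ∧
      r (g v) = g v + a • (A v : V) + π ∧ ∃ A', Cell B Q W W' (r * g * r⁻¹) A' ∧
        A' v = (1 + a) • A v ∧
        LinearMap.det (A' : W →ₗ[F] W) = (1 + a) * LinearMap.det (A : W →ₗ[F] W) := by
  obtain ⟨r, hr, hU, e, k⟩ := h.rad1 (w := A v) (fun e => h1 (by simp [e])) (h.q v) h1 hπ h2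
  have h3 : r (g v) - g v - a • (A v : V) ∈ perp B W' := by simpa [e, add_assoc] using hπ.2
  obtain ⟨A', k1, k2, k3⟩ := k a ha (by rwa [inv_apply_apply])
  exact ⟨r, hr, hU, e, A', k1, by rw [k2 v (a • A v) h3, add_smul, one_smul], k3⟩

theorem mod2 (h : Cell B Q W W' g A) {v w : W} (hv : LinearIndependent F ![A v, A w])
    (hr : r ∈ Dp B Q (Submodule.span F {(A v : V), (A w : V)})) {a b c d : F}
    (h1 : r (g v) = g v + a • (A v : V) + b • (A w : V))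
    (h2 : r (g w) = g w + c • (A v : V) + d • (A w : V)) (hd : (1 + a) * (1 + d) - b * c ≠ 0) :
    ∃ A', Cj B Q W g (r * g * r⁻¹) ∧ Cell B Q W W' (r * g * r⁻¹) A' ∧
      (∀ z : W, (r * g * r⁻¹) z = r (g z)) ∧ (∀ z : W, (A' z : V) = A z + (r (g z) - g z)) ∧
      LinearMap.det (A' : W →ₗ[F] W) =
        ((1 + a) * (1 + d) - b * c) * LinearMap.det (A : W →ₗ[F] W) := by
  have hle : Submodule.span F {(A v : V), (A w : V)} ≤ W := Submodule.span_le.2 (by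
    rintro _ (rfl | rfl) <;> exact Submodule.coe_mem _)
  have hU := Dp_le_UR h.op.witt h.op.ts hle hr
  obtain ⟨f, f1, f2, f3⟩ := h.upd hU (Z := Submodule.span F {A v, A w}) fun z => by
    obtain ⟨a, b, e⟩ := Submodule.mem_span_pair.1 (hr.2 (g z))
    exact ⟨_, Submodule.mem_span_pair.2 ⟨a, b, rfl⟩, by simp [← e]⟩
  have f4 := det_rank2 hv f1 (a := 1 + a) (b := b) (c := c) (d := 1 + d)
    (by rw [f2 v (a • A v + b • A w) (by simp [h1, add_assoc])]; module)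
    (by rw [f2 w (c • A v + d • A w) (by simp [h2, add_assoc])]; module)
  obtain ⟨A', k1, k2, k3⟩ := f3 (f4 ▸ hd)
  exact ⟨A', ⟨r, hU, rfl⟩, k1, fun z => conj_apply hU g z.2, fun z => by
    rw [k2, f2 z ⟨_, hle (hr.2 (g z))⟩ (by simp)]; rfl, f4 ▸ k3⟩

end Cell

end CF.Ore
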