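/-
Polynomials coprime to their conjugate reciprocals.
-/
import Cfsg.Agent.Ore.C

set_option autoImplicit false

namespace CF.Ore

open Module Polynomial CF.Geom CF.Cls CF.Classical

variable {F : Type*} [Field F] {σ : F →+* F} {b c₀ : F[X]} {μ ν : F} {d : ℕ}

/-- the minimal polynomial of a primitive element of the extension of degree `d` -/
structure GP (σ : F →+* F) (b : F[X]) (d : ℕ) (ν : F) : Prop where
  monic : b.Monic
  deg : b.natDegree = d
  irr : Irreducible b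
  cop : IsCoprime b (cr σ b)
  det : (-1) ^ b.natDegree * b.coeff 0 = ν
  ne : ν ≠ 0
  gen : ∀ x : F, x ≠ 0 → ∃ k : ℕ, x = ν ^ k

theorem exists_gp [Fintype F] {s : ℕ} (hσ : ∀ x, σ x = x ^ s) (hs : s ∣ Fintype.card F) (hd : d ≠ 0)
    (h : Fintype.card F ^ (d - 1) + s < Fintype.card F ^ d - 1) : ∃ b ν, GP σ b d ν := by
  obtain ⟨p, hp⟩ := CharP.exists F
  have := Fact.mk (CharP.char_is_prime F p)
  have : NeZero d := ⟨hd⟩
  obtain ⟨n, -, hn⟩ := FiniteField.card F p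
  obtain ⟨k, -, rfl⟩ := (Nat.dvd_prime_pow (CharP.char_is_prime F p)).1 (hn ▸ hs)
  let K := FiniteField.Extension F p d
  have : CharP K p := charP_of_injective_algebraMap (algebraMap F K).injective p
  obtain ⟨ζ, hζ⟩ := IsCyclic.exists_monoid_generator (α := Kˣ)
  have h1 : orderOf ζ = Fintype.card F ^ d - 1 := by
    rw [orderOf_eq_card_of_forall_mem_powers hζ, Nat.card_units, FiniteField.natCard_extension,
      Nat.card_eq_fintype_card]
  have h2 : ∀ x : K, x ≠ 0 → ∃ k : ℕ, x = ζ ^ k := fun x hx =>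
    let ⟨k, hk⟩ := hζ (Units.mk0 x hx)
    ⟨k, by simpa using congrArg Units.val hk.symm⟩
  have hi : IsIntegral F (ζ : K) := IsIntegral.of_finite F _
  let pb := PowerBasis.ofAdjoinEqTop hi (eq_top_iff.2 fun x _ => by
    by_cases hx : x = 0
    · exact hx ▸ zero_mem _
    obtain ⟨k, rfl⟩ := h2 x hx
    exact pow_mem (Algebra.self_mem_adjoin_singleton F _) k)
  have h3 : (-1) ^ (minpoly F (ζ : K)).natDegree * (minpoly F (ζ : K)).coeff 0 =
      Algebra.norm F (ζ : K) := (Algebra.PowerBasis.norm_gen_eq_coeff_zero_minpoly pb).symm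
  have h4 : Algebra.norm F (ζ : K) ≠ 0 := Algebra.norm_ne_zero_iff.2 ζ.ne_zero
  have h0 : (minpoly F (ζ : K)).coeff 0 ≠ 0 := right_ne_zero_of_mul (h3 ▸ h4)
  refine ⟨_, _, minpoly.monic hi, pb.finrank.symm.trans (FiniteField.finrank_extension F p d),
    minpoly.irreducible hi, (minpoly.irreducible hi).coprime_iff_not_dvd.2 fun h5 => ?_, h3, h4,
    fun x hx => ?_⟩
  · have hz := pow_ne_zero (p ^ k) ζ.ne_zero
    have hroot : aeval ((ζ : K) ^ p ^ k)⁻¹ (cr σ (minpoly F (ζ : K))) = 0 := by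
      have h4 := aeval_reverse_mul (inv_mul_cancel₀ hz) (mul_inv_cancel₀ hz)
        ((minpoly F (ζ : K)).map σ)
      have h5 : aeval ((ζ : K) ^ p ^ k) ((minpoly F (ζ : K)).map σ) = 0 := by
        have h6 := congrArg (iterateFrobenius K p k) (minpoly.aeval F (ζ : K))
        rw [map_zero, aeval_def, hom_eval₂] at h6
        have h7 : (algebraMap F K).comp σ = (iterateFrobenius K p k).comp (algebraMap F K) := by
          ext x; simp [hσ, iterateFrobenius_def]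
        rw [aeval_def, eval₂_map, h7]
        exact h6
      rw [h5, mul_eq_zero] at h4
      rw [cr_apply, map_mul, h4.resolve_left (pow_ne_zero _ hz), mul_zero]
    rw [eq_of_monic_of_dvd_of_natDegree_le (minpoly.monic hi) (monic_cr h0) h5
      (natDegree_cr h0).le] at hroot
    obtain ⟨g, hg⟩ := minpoly.exists_algEquiv_of_root' hi.isAlgebraic hroot
    obtain ⟨j, hj, rfl⟩ := FiniteField.Extension.exists_frob_pow_eq F p d g
    rw [FiniteField.Extension.frob_iterate_apply, Nat.card_eq_fintype_card,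
      ← mul_eq_one_iff_eq_inv₀ hz, ← pow_add] at hg
    have h6 := Nat.le_of_dvd (Nat.add_pos_left (pow_pos Fintype.card_pos j) _)
      (orderOf_dvd_of_pow_eq_one (x := ζ) (Units.ext (by simpa using hg)))
    have h7 := Nat.pow_le_pow_right (Fintype.card_pos (α := F)) (Nat.le_sub_one_of_lt hj)
    omega
  · obtain ⟨y, rfl⟩ := FiniteField.norm_surjective F K x
    obtain ⟨k, rfl⟩ := h2 y (Algebra.norm_ne_zero_iff.1 hx)
    exact ⟨k, map_pow _ _ _⟩

theorem cop_X_sub {a : F} (h : b.eval a ≠ 0) : IsCoprime (X - C a) b :=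
  (irreducible_X_sub_C a).coprime_iff_not_dvd.2 (by rwa [dvd_iff_isRoot])

theorem eval_ne_of_irr (h : Irreducible b) (h2 : 2 ≤ b.natDegree) (a : F) : b.eval a ≠ 0 :=
  fun e => by
    have := natDegree_eq_of_degree_eq_some (n := 1) (degree_eq_one_of_irreducible_of_root h e)
    omega

theorem gd1_of (hμ : μ ≠ 0) (h1 : IsCoprime b (cr σ b)) (h2 : b.eval (σ μ)⁻¹ ≠ 0)
    (h3 : (cr σ b).eval μ ≠ 0) (h4 : c₀.eval μ ≠ 0) (h5 : c₀.eval (σ μ)⁻¹ ≠ 0)
    (h6 : IsCoprime b c₀) (h7 : IsCoprime (cr σ b) c₀) : Gd1 σ μ b c₀ := by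
  refine ⟨(cop_X_sub h4).mul_left h6, ?_, ?_, (cop_X_sub h3).symm.mul_right h1.symm⟩ <;>
    rw [map_mul, cr_X_sub_C hμ]
  exacts [(cop_X_sub h2).symm.mul_right h1, (cop_X_sub h5).mul_left h7]

theorem Gd1.gd (h : Gd1 σ μ b c₀) (hμ : μ ≠ 0) (h1 : σ μ * μ ≠ 1) : Gd σ ((X - C μ) * b) c₀ := by
  refine ⟨h.h1, IsCoprime.mul_left ?_ h.h2, h.h3⟩
  rw [map_mul, cr_X_sub_C hμ]
  refine (cop_X_sub ?_).mul_right h.h4.of_mul_right_left.symm
  simp only [eval_sub, eval_X, eval_C, sub_ne_zero]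
  exact fun e => h1 (by nth_rw 2 [e]; rw [mul_inv_cancel₀ (by simpa using hμ)])

theorem GP.coeff_ne (h : GP σ b d ν) : b.coeff 0 ≠ 0 := right_ne_zero_of_mul (h.det ▸ h.ne)

theorem gd_irr (hσ : ∀ x, σ (σ x) = x) (h1 : b.Monic) (h : Irreducible b) (h0 : b.coeff 0 ≠ 0)
    (h2 : c₀ ≠ 0) (h3 : c₀.natDegree < b.natDegree) :
    IsCoprime b c₀ ∧ IsCoprime (cr σ b) c₀ :=
  ⟨h.coprime_iff_not_dvd.2 fun e => (natDegree_le_of_dvd e h2).not_gt h3,
    (irreducible_cr hσ h1 h0 h).coprime_iff_not_dvd.2 fun e =>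
      (natDegree_le_of_dvd e h2).not_gt (natDegree_cr (σ := σ) h0 ▸ h3)⟩

theorem GP.gd1 (h : GP σ b d ν) (hσ : ∀ x, σ (σ x) = x) (hd : 2 ≤ d) (hμ : μ ≠ 0)
    (h3 : c₀.natDegree < d) (h4 : c₀.eval μ ≠ 0) (h5 : c₀.eval (σ μ)⁻¹ ≠ 0) : Gd1 σ μ b c₀ :=
  have k := gd_irr hσ h.monic h.irr h.coeff_ne (fun e => h4 (by simp [e])) (h.deg ▸ h3)
  gd1_of hμ h.cop (eval_ne_of_irr h.irr (h.deg ▸ hd) _)
    (eval_ne_of_irr (irreducible_cr hσ h.monic h.coeff_ne h.irr)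
      (by rwa [natDegree_cr h.coeff_ne, h.deg]) _) h4 h5 k.1 k.2

theorem GP.gd1_one (h : GP σ b d ν) (hσ : ∀ x, σ (σ x) = x) (hd : 2 ≤ d) (hμ : μ ≠ 0) :
    Gd1 σ μ b 1 := h.gd1 hσ hd hμ (by simp; omega) (by simp) (by simp)

theorem GP.gd1_X_sub_one (h : GP σ b d ν) (hσ : ∀ x, σ (σ x) = x) (hd : 2 ≤ d) (hμ : μ ≠ 0)
    (h1 : μ ≠ 1) : Gd1 σ μ b (X - C 1) :=
  h.gd1 hσ hd hμ (by rw [natDegree_X_sub_C]; omega) (by simpa [sub_eq_zero]) (by
    simpa [sub_eq_zero] using fun e => h1 (σ.injective (e.trans (map_one σ).symm)))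

theorem GP.card_dvd [Fintype F] (h : GP σ b d ν) {k : ℕ} (hk : ν ^ k = 1) :
    Fintype.card F - 1 ∣ k := by
  rw [← Nat.card_eq_fintype_card, ← Nat.card_units, ← orderOf_eq_card_of_forall_mem_powers
    (g := Units.mk0 ν h.ne) fun x => let ⟨k, hk⟩ := h.gen x x.ne_zero; ⟨k, Units.ext (by simp [hk])⟩]
  exact orderOf_dvd_of_pow_eq_one (Units.ext (by simpa))

theorem GP.pow_ne [Fintype F] (h : GP σ b d ν) {k : ℕ} (h0 : 0 < k) (hk : k + 1 < Fintype.card F) :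
    ν ^ k ≠ 1 := fun e => by
  have := Nat.le_of_dvd h0 (h.card_dvd e)
  omega

end CF.Ore
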