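/-
Non-invariant maximal totally singular subspaces, non-scalar Levi components, and the reduction
of the commutator problem to the big cell.
-/
import Cfsg.Agent.Ore.D
import Cfsg.Agent.Ore.P

set_option autoImplicit false

namespace CF.Ore

open Module Polynomial CF.Geom CF.Cls CF.Classical

variable {F V : Type*} [Field F] [AddCommGroup V] [Module F V] {σ : F →+* F}
  {B : V →ₛₗ[σ] V →ₗ[F] F} {Q : V → F} {W W' X Y : Submodule F V} {g r t : V ≃ₗ[F] V}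
  {G : Subgroup (V ≃ₗ[F] V)} [FiniteDimensional F V]

theorem mem_sup_of_inv (h : IsWittPair σ B Q) (hY : TS B Q Y)
    (H : ∀ W, MT B Q W → Y ≤ W → ∀ w ∈ W, g w ∈ W) {z : V} (hz : z ∈ perp B Y) (h0 : Q z = Q 0) :
    g z ∈ Y ⊔ F ∙ z := by
  by_contra hc
  obtain ⟨W, h1, h2, h3⟩ := exists_MT_notMem h (hY.sup h hz h0) hc
  exact h3 (H W h1 (le_sup_left.trans h2) z
    (h2 (Submodule.mem_sup_right (Submodule.mem_span_singleton_self z))))

theorem exists_MT_ne (h : IsWittPair σ B Q) {e : V} (he : e ≠ 0) (h0 : Q e = Q 0)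
    (h3 : 3 ≤ finrank F V ∨ Tr B Q) (hg : g ∈ Isom B Q) (hs : ¬ ∃ c : F, ∀ v, g v = c • v) :
    ∃ W, MT B Q W ∧ ∃ w ∈ W, g w ∉ W := by
  by_contra! hc
  obtain ⟨f, h1, h2⟩ := h.exists_hyperbolic he h0
  refine (h.scalar_of_fix_points h0 h1 h2 (h3.imp_right fun k => k f e h1 h0) ⟨g, hg⟩
    fun v hv => ?_).elim fun c hc => (hs ⟨c, hc⟩)
  simpa using mem_sup_of_inv h TS.bot (fun W hW _ => hc W hW) (by simp [perp_bot]) hv

theorem scalar_mod (h : IsWittPair σ B Q) (hT : Tr B Q) (hY : TS B Q Y) (hm : ¬ MT B Q Y)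
    (H : ∀ W, MT B Q W → Y ≤ W → ∀ w ∈ W, g w ∈ W) :
    ∃ c : F, ∀ z ∈ perp B Y, g z - c • z ∈ Y := by
  have k : ∀ z ∈ perp B Y, Q z = Q 0 → ∃ c : F, g z - c • z ∈ Y := fun z hz h0 => by
    obtain ⟨y, hy, _, h1, e⟩ := Submodule.mem_sup.1 (mem_sup_of_inv h hY H hz h0)
    obtain ⟨c, rfl⟩ := Submodule.mem_span_singleton.1 h1
    exact ⟨c, by simpa [← e] using hy⟩
  obtain ⟨e, he, h0, he'⟩ : ∃ e ∈ perp B Y, Q e = Q 0 ∧ e ∉ Y := by
    by_contra! hc; exact hm ⟨hY, hc⟩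
  obtain ⟨c, hc⟩ := k e he h0
  have k2 : ∀ z ∈ perp B Y, Q z = Q 0 → g z - c • z ∈ Y := fun z hz hz0 => by
    obtain ⟨s, s0, hs⟩ := hT z e hz0 h0
    obtain ⟨c₁, h1⟩ := k z hz hz0
    obtain ⟨c₂, h2⟩ := k _ (add_mem he (Submodule.smul_mem _ s hz)) hs
    have h3 : (c - c₂) • e + (s * (c₁ - c₂)) • z ∈ Y := by
      convert sub_mem (sub_mem h2 hc) (Y.smul_mem s h1) using 1
      rw [map_add, map_smul]; module
    by_cases h4 : c = c₂
    · rw [← h4, sub_self, zero_smul, zero_add, mul_smul, Y.smul_mem_iff s0] at h3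
      convert add_mem h1 h3 using 1; module
    · have h5 : s * (c₁ - c₂) ≠ 0 := fun e0 => he' (by
        rwa [e0, zero_smul, add_zero, Y.smul_mem_iff (sub_ne_zero.2 h4)] at h3)
      obtain ⟨c₃, h6⟩ := k _ (hY.le_perp h3) (hY.q _ h3)
      rw [← Y.smul_mem_iff h5]
      convert sub_mem (add_mem h6 (Y.smul_mem (c₃ - c) h3)) (Y.smul_mem (c - c₂) hc) using 1
      rw [map_add, map_smul, map_smul]; module
  obtain ⟨f, f0, f1, f2⟩ := h.exists_partner he' h0 (mem_perp.1 he)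
  have k3 : ∀ z ∈ perp B Y, B e z ≠ 0 → g z - c • z ∈ Y := fun z hz h1 => by
    obtain ⟨a, ha⟩ := h.slide e 0 z h0 h1
    convert sub_mem (k2 _ (add_mem hz (Submodule.smul_mem _ a he)) ha) (Y.smul_mem a hc) using 1
    rw [map_add, map_smul]; module
  refine ⟨c, fun z hz => ?_⟩
  by_cases h1 : B e z = 0
  · convert sub_mem (k3 _ (add_mem hz (mem_perp.2 f2)) (by simp [h1, f1])) (k2 f (mem_perp.2 f2) f0)
      using 1
    rw [map_add]; module
  · exact k3 z hz h1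

theorem exists_MT_matched (h : IsWittPair σ B Q) (hT : Tr B Q) {k : ℕ}
    (hk : ∀ c : F, ∃ T ≤ End.eigenspace (g : End F V) c, T ≤ perp B (End.eigenspace (g : End F V) c) ∧
      finrank F (End.eigenspace (g : End F V) c) ≤ finrank F T + k) (hn : 7 + k ≤ finrank F V)
    (hm : ∀ W, MT B Q W → 3 ≤ finrank F W) (hg : g ∈ Isom B Q) {v : V} (h0 : Q v = Q 0)
    (h1 : B v (g v) = 0) (h2 : g v ∉ F ∙ v) :
    ∃ W, MT B Q W ∧ v ∈ W ∧ g v ∈ W ∧ ∃ w ∈ W, g w ∉ W := by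
  have hv : v ≠ 0 := fun e => h2 (by simp [e])
  have hY : TS B Q ((⊥ ⊔ F ∙ v) ⊔ F ∙ g v) := (TS.bot.sup h (by simp [perp_bot]) h0).sup h
    (by rwa [bot_sup_eq, mem_perp_singleton]) ((isom_q hg v).trans h0)
  rw [bot_sup_eq] at hY
  have h3 : finrank F ↥((F ∙ v) ⊔ F ∙ g v) = 2 := by
    rw [Submodule.finrank_sup_span_singleton h2, finrank_span_singleton hv]
  have m1 : v ∈ (F ∙ v) ⊔ F ∙ g v := Submodule.mem_sup_left (Submodule.mem_span_singleton_self _)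
  have m2 : g v ∈ (F ∙ v) ⊔ F ∙ g v := Submodule.mem_sup_right (Submodule.mem_span_singleton_self _)
  generalize (F ∙ v) ⊔ (F ∙ g v) = Y at *
  by_contra! hc
  obtain ⟨c, h4⟩ := scalar_mod h hT hY (fun e => by have := hm Y e; omega)
    fun W h5 h6 => hc W h5 (h6 m1) (h6 m2)
  obtain ⟨T, t1, t2, t3⟩ := hk c
  have hE : v ∉ End.eigenspace (g : End F V) c := fun e => h2 (by
    rw [show g v = c • v from End.mem_eigenspace_iff.1 e]
    exact Submodule.smul_mem _ _ (Submodule.mem_span_singleton_self v))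
  have h5 : finrank F (perp B Y) ≤ finrank F ↥(End.eigenspace (g : End F V) c ⊓ perp B Y) + 2 := by
    let f := ((g : End F V) - c • 1).domRestrict (perp B Y)
    have e1 := f.finrank_range_add_finrank_ker
    have e2 : finrank F (LinearMap.range f) ≤ finrank F Y :=
      Submodule.finrank_mono (by rintro _ ⟨z, rfl⟩; exact h4 z z.2)
    have e3 := Submodule.finrank_mono (show (LinearMap.ker f).map (perp B Y).subtype ≤
      End.eigenspace (g : End F V) c ⊓ perp B Y by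
        rintro _ ⟨z, hz, rfl⟩
        exact ⟨End.mem_eigenspace_iff.2 (sub_eq_zero.1 hz), z.2⟩)
    rw [Submodule.finrank_map_subtype_eq] at e3
    omega
  generalize End.eigenspace (g : End F V) c = E at *
  have h6 := Submodule.finrank_sup_add_finrank_inf_eq T (E ⊓ perp B Y)
  have h7 := Submodule.finrank_mono (sup_le t1 (inf_le_left (b := perp B Y)))
  have h8 := Submodule.finrank_mono (show (T ⊓ (E ⊓ perp B Y)) ⊔ (F ∙ v) ≤
      perp B ((E ⊓ perp B Y) ⊔ F ∙ v) by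
    rw [perp_sup]
    refine sup_le (fun z hz => ⟨perp_anti inf_le_left (t2 hz.1), mem_perp_singleton.2
      (mem_perp.1 hz.2.2 v m1)⟩) ((Submodule.span_singleton_le_iff_mem _ _).2
        ⟨mem_perp.2 fun z hz => h.refl (mem_perp.1 hz.2 v m1), mem_perp_singleton.2
          (h.self_eq_zero h0)⟩))
  have h9 := h.finrank_perp ((E ⊓ perp B Y) ⊔ F ∙ v)
  have h10 := h.finrank_perp Y
  rw [Submodule.finrank_sup_span_singleton fun e : v ∈ E ⊓ perp B Y => hE e.1] at h9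
  rw [Submodule.finrank_sup_span_singleton fun e : v ∈ T ⊓ (E ⊓ perp B Y) => hE e.2.1] at h8
  omega

namespace Cell

variable {A : W ≃ₗ[F] W}

theorem symm_iff (h : Cell B Q W W' g A) {v : W} (hv : ∀ π ∈ perp B W ⊓ perp B W', B π (g v) = 0)
    (z : W) : B (A v) (g z) = 0 ↔ B (A z) (g v) = 0 := by
  have hw := h.op.witt
  obtain ⟨p, hp, x, hx, e⟩ := h.dec3 z
  have h1 := h.b z v
  have h2 := mem_perp.1 (h.eq v) x hx
  rw [e, map_add, map_add, LinearMap.add_apply, LinearMap.add_apply, hv p hp, add_zero] at h1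
  rw [map_sub, sub_eq_zero] at h2
  rw [e, map_add, map_add, h.op.ts.b _ (A v).2 _ (A z).2, mem_perp.1 hp.1 _ (A v).2, zero_add,
    zero_add, hw.refl_iff, ← h2, eq_neg_of_add_eq_zero_left h1, neg_eq_zero]

theorem modR (h : Cell B Q W W' g A) {v w : W} (hv : B (A v) (g v) ≠ 0) (hw : w ≠ 0)
    (h1 : B (A v) (g w) = 0) (h2 : B (A w) (g v) = 0) {s : F} (hs : s ≠ 0)
    (hd : B (A v) (g v) + σ s * s * B (g w) (A w) ≠ 0) :
    ∃ g' A', Cj B Q W g g' ∧ Cell B Q W W' g' A' ∧ B (A' v) (g' v) ≠ 0 ∧ A' v ∉ F ∙ v := by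
  by_cases hc : A v ∉ F ∙ v
  · exact ⟨g, A, .refl g, h, hv, hc⟩
  push Not at hc
  have hW := h.op.witt
  have h0 : A v ≠ 0 := fun e => hv (by simp [e])
  have h3 : A w ∉ F ∙ A v := fun e => by
    obtain ⟨c, e⟩ := Submodule.mem_span_singleton.1 e
    rw [← e] at h2
    obtain rfl : c = 0 := by simpa [hv] using h2
    exact hw (A.map_eq_zero_iff.1 (by simpa using e.symm))
  have b0 := fun x y : W => h.op.ts.b _ x.2 _ y.2
  obtain ⟨r, hr, e1⟩ := hW.exists_Rad (h.op.ts.q _ (A v).2)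
    (A := Submodule.span F {(A v : V), (A w : V)}) (Submodule.subset_span (by simp))
    (y' := g v + s • (A w : V)) hv (by simp [b0])
    (hW.norm_add_singular (h.op.ts.q _ (s • A w).2) (by simp [hW.refl h2]))
    (by simpa using Submodule.smul_mem _ s (Submodule.subset_span (by simp)))
  obtain ⟨a, e2⟩ := Submodule.mem_span_singleton.1 (hr.2.2.1 _ h1)
  have e3 := (isom_b hr.1 _ _).trans (h.b w v)
  rw [e1, eq_add_of_sub_eq' e2.symm] at e3
  simp only [map_add, LinearMap.add_apply, map_smul, LinearMap.map_smulₛₗ₂, h.b, b0, smul_zero,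
    add_zero, zero_add, smul_eq_mul] at e3
  obtain ⟨A', k1, k2, k3, k4, -⟩ := h.mod2 (linearIndependent_pair_of_notMem h0 h3) ⟨hr.1, hr.2.2.2⟩
    (a := 0) (b := s) (c := a) (d := 0) (by simp [e1]) (by simp [e2]) fun e => hd (by
      have : σ s * σ a = 1 := by rw [← map_mul, show s * a = 1 by linear_combination -e, map_one]
      linear_combination σ s * e3 - B (A v) (g v) * this)
  refine ⟨_, A', k1, k2, by simpa [k3, k4, e1, b0, h2] using hv, fun e => h3 ?_⟩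
  have e4 : A' v = A v + s • A w := Subtype.ext (by simp [k4, e1])
  rw [e4, Submodule.add_mem_iff_right _ hc, Submodule.smul_mem_iff _ hs] at e
  obtain ⟨c, e5⟩ := Submodule.mem_span_singleton.1 hc
  rwa [← e5, Submodule.span_singleton_smul_eq (Ne.isUnit fun e => h0 (by simp [← e5, e]))]

theorem modR3 (h : Cell B Q W W' g A) (hW : MT B Q W) (h3 : 3 ≤ finrank F W) {v w : W}
    (hv : B (A v) (g v) ≠ 0) (hw : w ≠ 0) (h1 : B (A w) (g w) = 0) :
    ∃ g' A', Cj B Q W g g' ∧ Cell B Q W W' g' A' ∧ ∃ v : W, B (A' v) (g' v) ≠ 0 ∧ A' v ∉ F ∙ v := by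
  have k : ∀ v w : W, B (A v) (g v) ≠ 0 → w ≠ 0 → B (A w) (g w) = 0 → B (A w) (g v) = 0 →
      ∃ g' A', Cj B Q W g g' ∧ Cell B Q W W' g' A' ∧ ∃ v : W, B (A' v) (g' v) ≠ 0 ∧ A' v ∉ F ∙ v :=
    fun v w hv hw h1 h2 =>
      let ⟨g', A', k1, k2, k3⟩ := h.modR hv hw ((h.symm_iff (fun _ => h.perp_of hW h1) v).1 h2) h2
        one_ne_zero (by simpa [h.op.witt.refl h1])
      ⟨g', A', k1, k2, v, k3⟩
  by_cases hc : ∃ z : W, B (A z) (g z) ≠ 0 ∧ B (A w) (g z) = 0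
  · obtain ⟨z, h4, h5⟩ := hc
    exact k z w h4 hw h1 h5
  push Not at hc
  obtain ⟨z, h4, h5, h6⟩ := exists_ne_zero_mem_ker_two h3 (B (A w) ∘ₗ (g : V →ₗ[F] V) ∘ₗ W.subtype)
    (B (A v) ∘ₗ (g : V →ₗ[F] V) ∘ₗ W.subtype)
  have h7 : B (A z) (g z) = 0 := by_contra fun e => hc z e h5
  exact k v z hv h4 h7 ((h.symm_iff (fun _ => h.perp_of hW h7) v).2 h6)

theorem modR2 (h : Cell B Q W W' g A) (hW : MT B Q W) (hT : Tr B Q) (h2 : 2 ≤ finrank F W)
    (h3 : finrank F ↥(perp B W ⊓ perp B W') < finrank F W) {s : F} (hs : s ≠ 0)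
    (hs' : σ s * s ≠ 1) {v : W} (hv : B (A v) (g v) ≠ 0) :
    ∃ g' A', Cj B Q W g g' ∧ Cell B Q W W' g' A' ∧ ∃ v : W, B (A' v) (g' v) ≠ 0 ∧ A' v ∉ F ∙ v := by
  have hw := h.op.witt
  have k : ∀ v w : W, B (A v) (g v) ≠ 0 → w ≠ 0 → B (A v) (g w) = 0 → B (A w) (g v) = 0 →
      ∃ g' A', Cj B Q W g g' ∧ Cell B Q W W' g' A' ∧ ∃ v : W, B (A' v) (g' v) ≠ 0 ∧ A' v ∉ F ∙ v :=
    fun v w hv hw h1 h2 => by
      obtain ⟨s, s0, s1⟩ : ∃ s, s ≠ 0 ∧ B (A v) (g v) + σ s * s * B (g w) (A w) ≠ 0 := by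
        by_contra! hc
        exact hv (mul_left_cancel₀ (sub_ne_zero.2 hs') (by
          linear_combination (σ s * s) * hc 1 one_ne_zero - hc s hs -
            σ s * s * B (g w) (A w) * map_one σ))
      obtain ⟨g', A', k1, k2, k3⟩ := h.modR hv hw h1 h2 s0 s1
      exact ⟨g', A', k1, k2, v, k3⟩
  obtain ⟨w, w0, w1⟩ : ∃ w : W, w ≠ 0 ∧ ∀ π ∈ perp B W ⊓ perp B W', B π (g w) = 0 := by
    have e1 := Submodule.finrank_sup_add_finrank_inf_eq (W.map (g : V →ₗ[F] V))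
      (perp B (perp B W ⊓ perp B W'))
    have e2 := Submodule.finrank_le (W.map (g : V →ₗ[F] V) ⊔ perp B (perp B W ⊓ perp B W'))
    have e3 := hw.finrank_perp (perp B W ⊓ perp B W')
    rw [finrank_map_equiv] at e1
    obtain ⟨_, ⟨⟨w, w1, rfl⟩, w2⟩, w0⟩ := Submodule.exists_mem_ne_zero_of_ne_bot
      (p := W.map (g : V →ₗ[F] V) ⊓ perp B (perp B W ⊓ perp B W')) fun e => by
        rw [e, finrank_bot] at e1; omega
    exact ⟨⟨w, w1⟩, fun e => w0 (by simp [show w = 0 from congrArg Subtype.val e]), mem_perp.1 w2⟩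
  by_cases hc : ∃ v : W, (∀ π ∈ perp B W ⊓ perp B W', B π (g v) = 0) ∧ B (A v) (g v) ≠ 0
  · obtain ⟨v, h4, h5⟩ := hc
    obtain ⟨z, h6, h7⟩ := exists_ne_zero_mem_ker h2 (B (A v) ∘ₗ (g : V →ₗ[F] V) ∘ₗ W.subtype)
    exact k v z h5 h6 h7 ((h.symm_iff h4 z).1 h7)
  push Not at hc
  by_cases h4 : B (A w) (g v) = 0
  · exact k v w hv w0 ((h.symm_iff w1 v).1 h4) h4
  by_cases h5 : A v ∉ F ∙ v
  · exact ⟨g, A, .refl g, h, v, hv, h5⟩
  push Not at h5
  obtain ⟨c, c0, h6⟩ := hT _ _ (h.op.ts.q _ (A w).2) (h.q v)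
  obtain ⟨r, hr, hU, e, k⟩ := h.rad1 (w := A w) (by simpa) (h.q v) h4 (zero_mem _)
    (by rwa [add_zero])
  obtain ⟨A', k1, k2, -⟩ := k 0 (by simp) (by
    rw [hw.Rad_fix hr, sub_self, zero_smul, sub_self]
    · exact zero_mem _
    rw [perp_sup, Submodule.mem_inf, mem_perp_singleton, inv_apply_apply]
    exact ⟨hc w w1, mem_perp.2 w1⟩)
  refine ⟨_, A', ⟨r, hU, rfl⟩, k1, v, fun e1 => hv (hc v fun π hπ => ?_), fun e1 => ?_⟩
  · simpa [conj_apply hU g v.2, e, hw.refl (mem_perp.1 hπ.1 _ (A w).2)] using k1.perp_of hW e1 hπ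
  · rw [k2 v (c • A w) (by simp [e]), Submodule.add_mem_iff_right _ h5,
      Submodule.smul_mem_iff _ c0] at e1
    obtain ⟨a, e2⟩ := Submodule.mem_span_singleton.1 e1
    obtain ⟨a', e3⟩ := Submodule.mem_span_singleton.1 h5
    have a0 : a' ≠ 0 := fun e => hv (by simp [← e3, e])
    obtain rfl : w = (a / a') • v := A.injective (by
      rw [map_smul, ← e2, ← e3, smul_smul, div_mul_cancel₀ _ a0])
    exact w0 (by simpa [hv, a0, show v ≠ 0 from fun e => hv (by simp [e])] using hc _ w1)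

end Cell

end CF.Ore
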