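/-
Commutators in the big cell: the final criteria.
-/
import Cfsg.Agent.Ore.E

set_option autoImplicit false

namespace CF.Ore

open Module Polynomial CF.Geom CF.Cls CF.Classical

variable {F V : Type*} [Field F] [AddCommGroup V] [Module F V] {σ : F →+* F}
  {B : V →ₛₗ[σ] V →ₗ[F] F} {Q : V → F} {W W' X Y : Submodule F V} {g r t : V ≃ₗ[F] V}
  {G : Subgroup (V ≃ₗ[F] V)} [FiniteDimensional F V] {A : W ≃ₗ[F] W}

/-- `g` lies in the big cell with trivial anisotropic component -/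
def Std (h : Op B Q W W') (g : V ≃ₗ[F] V) (A : W ≃ₗ[F] W) : Prop :=
  ∃ u' ∈ UR B Q W', ∃ u ∈ UR B Q W, g = u' * h.lv A * u⁻¹

theorem Cell.dec_mem (hG : PolarG B Q G) (h : Cell B Q W W' g A) (hg : g ∈ G) :
    ∃ t ∈ Fx B Q W W', h.op.lv A * t ∈ G ∧ (t = 1 → Std h.op g A) ∧
      ∀ π ∈ perp B W ⊓ perp B W', ∀ π₁ ∈ perp B W ⊓ perp B W', ∀ w ∈ W,
        g (π + w) - π₁ ∈ W' → t π = π₁ := by
  obtain ⟨u', hu', u, hu, t, ht, e, k⟩ := h.dec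
  refine ⟨t, ht, ?_, fun e1 => ⟨u', hu', u, hu, e.trans (by rw [e1, mul_one])⟩, k⟩
  convert mul_mem (mul_mem (inv_mem (UR_le hG h.op.ts' hu')) (e ▸ hg :)) (UR_le hG h.op.ts hu)
    using 1
  group

theorem Cell.std (hG : PolarG B Q G) (h : Cell B Q W W' g A) (hg : g ∈ G)
    (hA : LinearMap.det (A : W →ₗ[F] W) = 1) (hT : ∀ t ∈ G, t ∈ Fx B Q W W' → t = 1) :
    Std h.op g A :=
  let ⟨t, h1, h2, h3, _⟩ := h.dec_mem hG hg
  h3 (hT t ((G.mul_mem_cancel_left (h.op.lv_mem_of_det hG hA)).1 h2) h1)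

omit [FiniteDimensional F V] in
theorem Fx_eq_one (h : perp B W ⊓ perp B W' = ⊥) (ht : t ∈ Fx B Q W W') : t = 1 :=
  LinearEquiv.ext fun x => sub_eq_zero.1 ((Submodule.mem_bot F).1 (h ▸ ht.2 x))

omit [FiniteDimensional F V] in
theorem nonscalar_of {v : W} (h : A v ∉ F ∙ v) (c : F) (hc : ∀ v, A v = c • v) : A = 1 :=
  (h (hc v ▸ Submodule.smul_mem _ c (Submodule.mem_span_singleton_self v))).elim

theorem lv_fac (hG : PolarG B Q G) (h : Op B Q W W') (hW : 0 < finrank F W) (Z : W ≃ₗ[F] W) :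
    ∃ y ∈ W, ∃ x ∈ W', B y x = 1 ∧ ∀ l ∈ Isom B Q, l y = LinearMap.det (Z : W →ₗ[F] W) • y →
      l x ∈ W' → (∀ z, B y z = 0 → B x z = 0 → l z = z) → h.lv Z * l⁻¹ ∈ G := by
  have hw := h.witt
  have := finrank_pos_iff.1 hW
  obtain ⟨y, hy⟩ := exists_ne (0 : W)
  obtain ⟨φ, h1⟩ := Module.Projective.exists_dual_eq_one F hy
  obtain ⟨x, hx, x1, x2, -⟩ := exists_dual_line h h1
  refine ⟨y, y.2, x, hx, x1, fun l hl l1 l2 l3 => ?_⟩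
  have h0 : LinearMap.det (Z : W →ₗ[F] W) ≠ 0 := (LinearEquiv.isUnit_det' Z).ne_zero
  generalize ha : LinearMap.det (Z : W →ₗ[F] W) = a at *
  have h2 : 1 + φ ((a - 1) • y) = a := by simp [h1]
  have h3 : ∀ w : W, l w = dl φ _ (h2.symm ▸ h0) w := fun w => by
    have := l3 (w - φ w • y : W) (h.ts.b _ y.2 _ (Submodule.coe_mem _))
      (hw.refl (x2 _ (by simp [h1])))
    rw [Submodule.coe_sub, Submodule.coe_smul, map_sub, map_smul, l1, sub_eq_iff_eq_add] at this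
    rw [this, dl_apply]; simp; module
  rw [← h.ext (h.lv_isom (dl φ _ (h2.symm ▸ h0))) hl (fun w hw => by rw [h.lv_left _ ⟨w, hw⟩, ← h3])
    (fun _ => h.lv_mem _) (fun π hπ => by
      rw [h.lv_mid _ hπ, l3 π (mem_perp.1 hπ.1 _ y.2) (mem_perp.1 hπ.2 _ hx)])
    (fun _ => h.lv_right _) fun z hz => ?_, ← map_inv, ← map_mul]
  · refine h.lv_mem_of_det hG (mul_right_cancel₀ h0 ?_)
    have := det_mul_equiv (Z * (dl φ _ (h2.symm ▸ h0))⁻¹) (dl φ _ (h2.symm ▸ h0))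
    rw [inv_mul_cancel_right, (det_dl _ _ _).trans h2, ha] at this
    rw [← this, one_mul]
  · have := l3 (z - B y z • x) (by simp [x1]) (h.ts'.b x hx _ (sub_mem hz (W'.smul_mem _ hx)))
    rw [map_sub, map_smul, sub_eq_iff_eq_add] at this
    exact this ▸ add_mem (sub_mem hz (W'.smul_mem _ hx)) (W'.smul_mem _ l2)

theorem conj_irr (h : Op B Q W W') (hσ : ∀ x, σ (σ x) = x) {Y Z : W ≃ₗ[F] W} {p : F[X]}
    (h1 : p.Monic) (h2 : Irreducible p) (h0 : p.coeff 0 ≠ 0)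
    (hY : aeval (Y : End F W) p = 0 ∨ aeval (Y : End F W) (cr σ p) = 0)
    (hZ : aeval (Z : End F W) p = 0 ∨ aeval (Z : End F W) (cr σ p) = 0) :
    ∃ k ∈ Isom B Q, h.lv Y = k * h.lv Z * k⁻¹ := by
  have k1 : ∀ {a : F[X]}, a.Monic → Irreducible a → aeval (Y : End F W) a = 0 →
      aeval (Z : End F W) a = 0 → ∃ k ∈ Isom B Q, h.lv Y = k * h.lv Z * k⁻¹ := fun h1 h2 hY hZ => by
    obtain ⟨e, he⟩ := sim_of_irreducible h1 h2 rfl hZ hY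
    refine ⟨h.lv e, h.lv_isom e, ?_⟩
    rw [← map_inv, ← map_mul, ← map_mul, eq_mul_inv_of_mul_eq (LinearEquiv.ext fun v => (he v).symm :
      Y * e = e * Z)]
  have k2 : ∀ {a : F[X]}, aeval (Z : End F W) a = 0 → ∀ x ∈ W',
      aeval (h.lv Z : End F V) (cr σ a) x = 0 := fun {a} hZ => by
    simpa using (lev_lv h (one_mem _) (c₀ := 0) (fun w => by rw [hZ]; rfl) (by simp)).2.k'
  have h3 := irreducible_cr hσ h1 h0 h2
  rcases hY with hY | hY <;> rcases hZ with hZ | hZ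
  · exact k1 h1 h2 hY hZ
  · exact exists_weyl h h1 h2 (fun w => by rw [hY]; rfl) (cr_cr hσ h1 h0 ▸ k2 hZ)
  · exact exists_weyl h (monic_cr h0) h3 (fun w => by rw [hY]; rfl) (k2 hZ)
  · exact k1 (monic_cr h0) h3 hY hZ

variable [Finite F] {ho : Op B Q W W'} {b c₀ : F[X]} {μ : F}

theorem Std.com_i (hG : PolarG B Q G) (h : Std ho g A) (hA : LinearMap.det (A : W →ₗ[F] W) = 1)
    (hs : ∀ c : F, (∀ v, A v = c • v) → A = 1) (hb : b.Monic) (hd : b.natDegree + 1 = finrank F W)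
    (hb0 : b.coeff 0 ≠ 0) (hμ0 : μ ≠ 0) (hμ : b.eval μ ≠ 0) (ht : t ∈ Fx B Q W W')
    (h0 : ∀ π ∈ perp B W ⊓ perp B W', aeval (t : End F V) c₀ π = 0)
    (h1 : Gd σ ((Polynomial.X - C μ) * b) c₀)
    (hl : ∀ Z : W ≃ₗ[F] W, LinearMap.det (Z : W →ₗ[F] W) = μ * ((-1) ^ b.natDegree * b.coeff 0) →
      ho.lv Z * t ∈ G) : Com G g := by
  obtain ⟨u', hu', u, hu, rfl⟩ := h
  obtain ⟨Z, k, y, φ, k1, k2, k3, k4⟩ := fact_any hA hs hb hd hb0 hμ0 hμ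
  exact Ore.com_i hG ho hu' hu ht k3.aeval_eq h0 h1 (hl Z k4) (ho.lv_mem_of_det hG k1) k2

theorem Std.com_ii (hG : PolarG B Q G) (hT : ∀ y, Q y = Q 0 → ∀ s ∈ Dp B Q (F ∙ y), s = 1)
    (h : Std ho g A) (hA : LinearMap.det (A : W →ₗ[F] W) = 1)
    (hs : ∀ c : F, (∀ v, A v = c • v) → A = 1) (hb : b.Monic) (hd : b.natDegree + 1 = finrank F W)
    (hb0 : b.coeff 0 ≠ 0) (hμ0 : μ ≠ 0) (hμ : b.eval μ ≠ 0) (ht : t ∈ Fx B Q W W')
    (h0 : ∀ π ∈ perp B W ⊓ perp B W', aeval (t : End F V) c₀ π = 0) (h1 : Gd1 σ μ b c₀)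
    (hl : ∀ Z : W ≃ₗ[F] W, LinearMap.det (Z : W →ₗ[F] W) = μ * ((-1) ^ b.natDegree * b.coeff 0) →
      ho.lv Z * t ∈ G) : Com G g := by
  obtain ⟨u', hu', u, hu, rfl⟩ := h
  obtain ⟨Z, k, y, φ, k1, k2, k3, k4⟩ := fact_any hA hs hb hd hb0 hμ0 hμ
  exact Ore.com_ii hG hT ho hu' hu ht hμ0 k3 h0 h1 (hl Z k4) (ho.lv_mem_of_det hG k1) k2

theorem Std.com_iii (hG : PolarG B Q G) (h : Std ho g A) (hA : LinearMap.det (A : W →ₗ[F] W) = 1)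
    {v : V} (hv : v ∈ W) (hv' : g v ∈ W) (hs : g v ∉ F ∙ v) (hb : b.Monic)
    (hd : b.natDegree + 1 = finrank F W) (hb0 : b.coeff 0 ≠ 0) (hμ0 : σ μ * μ = 1)
    (hμ : b.eval μ ≠ 0) (h0 : ∀ π ∈ perp B W ⊓ perp B W', c₀.eval 1 • π = 0) (h1 : Gd1 σ μ b c₀)
    (hl : ∀ Z : W ≃ₗ[F] W, LinearMap.det (Z : W →ₗ[F] W) = μ * ((-1) ^ b.natDegree * b.coeff 0) →
      ho.lv Z ∈ G) : Com G g := by
  obtain ⟨u', hu', u, hu, e⟩ := h
  lift v to W using hv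
  have e1 : g v = u' (A v) := by
    rw [e, LinearEquiv.mul_apply, LinearEquiv.mul_apply, (inv_mem hu :).2.1 _ v.2, ho.lv_left]
  have e2 : u' (A v) = A v :=
    sub_eq_zero.1 (ho.eq_zero (sub_mem (e1 ▸ hv') (A v).2) (UR_disp hu' _))
  obtain ⟨φ, h2, h3⟩ := lv_exists_dual (W := F ∙ v) (z := A v) fun e3 => hs (by
    obtain ⟨c, e3⟩ := Submodule.mem_span_singleton.1 e3
    rw [e1, e2, ← e3]
    exact Submodule.smul_mem _ c (Submodule.mem_span_singleton_self _))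
  have h4 := h3 v (Submodule.mem_span_singleton_self v)
  obtain ⟨Z, k, y, k1, k2, k3, k4⟩ := fact_phi hA h4 h2 hb hd hb0
    (right_ne_zero_of_mul_eq_one hμ0) hμ
  exact e ▸ Ore.com_iii hG ho hu' hu hμ0 k3 h0 h1 (hl Z k4) (ho.lv_mem_of_det hG k1) k2 e2 h4 h2

theorem Std.com_irr (hG : PolarG B Q G) (h : Std ho g A) (hσ : ∀ x, σ (σ x) = x) {p : F[X]}
    (h1 : p.Monic) (h2 : Irreducible p) (h0 : p.coeff 0 ≠ 0) (h3 : p ≠ cr σ p)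
    (h4 : 2 ≤ p.natDegree) {Z : W ≃ₗ[F] W}
    (hZ : aeval (Z : End F W) p = 0 ∨ aeval (Z : End F W) (cr σ p) = 0)
    (hY : aeval ((A * Z : W ≃ₗ[F] W) : End F W) p = 0 ∨
      aeval ((A * Z : W ≃ₗ[F] W) : End F W) (cr σ p) = 0) (hl : ho.lv Z ∈ G)
    (hk : ∀ k ∈ Isom B Q, ∃ z, z * ho.lv Z = ho.lv Z * z ∧ k * z ∈ G) : Com G g := by
  obtain ⟨u', hu', u, hu, rfl⟩ := h
  obtain ⟨k, k1, k2⟩ := conj_irr ho hσ h1 h2 h0 hY hZ
  obtain ⟨z, z1, z2⟩ := hk k k1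
  have c1 : IsCoprime p (cr σ p) := h2.coprime_iff_not_dvd.2 fun e =>
    h3 (eq_of_monic_of_dvd_of_natDegree_le h1 (monic_cr h0) e (natDegree_cr h0).le).symm
  have c2 := gd_irr hσ h1 h2 h0 (c₀ := Polynomial.X - C 1) (X_sub_C_ne_zero 1)
    (by rwa [natDegree_X_sub_C])
  have c3 : ∀ {Z : W ≃ₗ[F] W}, aeval (Z : End F W) p = 0 ∨ aeval (Z : End F W) (cr σ p) = 0 →
      ∃ c, (∀ w, aeval (Z : End F W) c w = 0) ∧ Gd σ c (Polynomial.X - C 1) := fun hZ =>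
    hZ.elim (fun e => ⟨p, fun w => by rw [e]; rfl, c2.1, c1, c2.2⟩) fun e =>
      ⟨_, fun w => by rw [e]; rfl, c2.2, (cr_cr hσ h1 h0).symm ▸ c1.symm,
        (cr_cr hσ h1 h0).symm ▸ c2.1⟩
  obtain ⟨c₁, a1, a2⟩ := c3 hY
  obtain ⟨c₂, a3, a4⟩ := c3 hZ
  have := com_gen hG ho hu' hu (one_mem _) a1 a3 (fun π _ => by simp) a2 a4 (by rwa [mul_one]) z2
    (by rw [mul_one, mul_one, k2, mul_assoc k z, z1]; group)
  rwa [mul_inv_cancel_right] at this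

end CF.Ore
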