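/-
Factorisations of matrices of size two and three over small fields into elements with irreducible
characteristic polynomials.
-/
import Cfsg.Agent.Ore.L

set_option autoImplicit false

namespace CF.Ore

open Module Polynomial CF.Geom CF.Cls CF.Classical

/-- three by three matrices -/
structure M3 (R : Type) where
  (a b c d e f g h i : R)

/-- two by two matrices -/
structure M2 (R : Type) where
  (a b c d : R)

variable {R : Type} [Add R] [Mul R] [Neg R] [Zero R] [One R] {F W : Type*} [Field F]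
  [AddCommGroup W] [Module F W] [FiniteDimensional F W] {φ : R → F}

/-- a computable copy of a field -/
structure Cd (φ : R → F) : Prop where
  bij : Function.Bijective φ
  add : ∀ a b, φ (a + b) = φ a + φ b
  mul : ∀ a b, φ (a * b) = φ a * φ b
  neg : ∀ a, φ (-a) = -φ a
  zero : φ 0 = 0
  one : φ 1 = 1

theorem Cd.of_equiv {R : Type} [CommRing R] (e : R ≃+* F) : Cd e :=
  ⟨e.bijective, map_add e, map_mul e, map_neg e, map_zero e, map_one e⟩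

/-- `Z` and `A * Z` are both killed by `p` or `p'` -/
def Fac (A : W ≃ₗ[F] W) (p p' : F[X]) (d : F) : Prop :=
  ∃ Z : W ≃ₗ[F] W, LinearMap.det (Z : W →ₗ[F] W) = d ∧
    (aeval (Z : End F W) p = 0 ∨ aeval (Z : End F W) p' = 0) ∧
    (aeval ((A * Z : W ≃ₗ[F] W) : End F W) p = 0 ∨ aeval ((A * Z : W ≃ₗ[F] W) : End F W) p' = 0)

theorem fac_of_mat {n : ℕ} (b : Basis (Fin n) F W) {A : W ≃ₗ[F] W} {p p' : F[X]}
    {z : Matrix (Fin n) (Fin n) F} (h0 : z.det ≠ 0) (h1 : aeval z p = 0 ∨ aeval z p' = 0)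
    (h2 : aeval (LinearMap.toMatrix b b (A : End F W) * z) p = 0 ∨
      aeval (LinearMap.toMatrix b b (A : End F W) * z) p' = 0) : Fac A p p' z.det := by
  obtain ⟨Z, hZ⟩ := exists_equiv_of_det (Z := Matrix.toLin b b z) (by rwa [LinearMap.det_toLin])
  have e1 : (Z : End F W) = Matrix.toLinAlgEquiv b z := hZ
  have e2 : ((A * Z : W ≃ₗ[F] W) : End F W) =
      Matrix.toLinAlgEquiv b (LinearMap.toMatrix b b (A : End F W) * z) := by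
    rw [map_mul, ← e1, ← LinearMap.toMatrixAlgEquiv_symm]
    exact congrArg (· * (Z : End F W)) ((LinearMap.toMatrixAlgEquiv b).symm_apply_apply _).symm
  refine ⟨Z, by rw [hZ, LinearMap.det_toLin], ?_, ?_⟩
  · simpa only [e1, aeval_algHom_apply, EmbeddingLike.map_eq_zero_iff]
  · simpa only [e2, aeval_algHom_apply, EmbeddingLike.map_eq_zero_iff]

namespace M2

/-- product -/
def mul (x y : M2 R) : M2 R := ⟨x.a * y.a + x.b * y.c, x.a * y.b + x.b * y.d,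
  x.c * y.a + x.d * y.c, x.c * y.b + x.d * y.d⟩

/-- determinant -/
def det (x : M2 R) : R := x.a * x.d + -(x.b * x.c)

/-- the trace is `t` or `t'` -/
abbrev Ok (t t' : R) (x : M2 R) : Prop := x.a + x.d = t ∨ x.a + x.d = t'

/-- the matrix -/
def mat (φ : R → F) (x : M2 R) : Matrix (Fin 2) (Fin 2) F := !![φ x.a, φ x.b; φ x.c, φ x.d]

omit [FiniteDimensional F W] in
theorem ch (h : Cd φ) {x : M2 R} {t t' : R} (h1 : x.Ok t t') {d : F} (h2 : (x.mat φ).det = d) :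
    aeval (x.mat φ) (X ^ 2 - C (φ t) * X + C d) = 0 ∨
      aeval (x.mat φ) (X ^ 2 - C (φ t') * X + C d) = 0 := by
  have := Matrix.aeval_self_charpoly (x.mat φ)
  rw [Matrix.charpoly_fin_two, h2, show (x.mat φ).trace = φ (x.a + x.d) by simp [mat, h.add]] at this
  rcases h1 with rfl | rfl
  exacts [.inl this, .inr this]

theorem fac (h : Cd φ) {t t' d : R} (L : List (M2 R)) (hd : φ d ≠ 0)
    (H : ∀ a b c e, det ⟨a, b, c, e⟩ = (1 : R) →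
      ∃ z ∈ L, z.det = d ∧ z.Ok t t' ∧ (mul ⟨a, b, c, e⟩ z).Ok t t')
    (hW : finrank F W = 2) {A : W ≃ₗ[F] W} (hA : LinearMap.det (A : W →ₗ[F] W) = 1) :
    Fac A (X ^ 2 - C (φ t) * X + C (φ d)) (X ^ 2 - C (φ t') * X + C (φ d)) (φ d) := by
  let b := finBasisOfFinrankEq F W hW
  have k1 : ∀ x : M2 R, (x.mat φ).det = φ x.det := fun x => by
    simp [mat, det, h.add, h.mul, h.neg, Matrix.det_fin_two, sub_eq_add_neg]
  choose ψ hψ using h.bij.2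
  obtain ⟨x, hx⟩ : ∃ x : M2 R, LinearMap.toMatrix b b (A : End F W) = x.mat φ := by
    generalize LinearMap.toMatrix b b (A : End F W) = M
    exact ⟨⟨ψ (M 0 0), ψ (M 0 1), ψ (M 1 0), ψ (M 1 1)⟩, by
      simpa only [mat, hψ] using Matrix.eta_fin_two _⟩
  rw [← LinearMap.det_toMatrix b, hx] at hA
  obtain ⟨z, -, z1, z2, z3⟩ := H _ _ _ _ (h.bij.1 ((k1 x).symm.trans (hA.trans h.one.symm)))
  have k2 : x.mat φ * z.mat φ = (x.mul z).mat φ := by simp [mat, mul, h.add, h.mul]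
  have k3 := (k1 z).trans (congrArg φ z1)
  exact k3 ▸ fac_of_mat b (k3 ▸ hd) (ch h z2 rfl)
    (by rw [hx, k2]; exact ch h z3 (by rw [← k2, Matrix.det_mul, hA, one_mul]))

end M2

namespace M3

/-- product -/
def mul (x y : M3 R) : M3 R :=
  ⟨x.a * y.a + x.b * y.d + x.c * y.g, x.a * y.b + x.b * y.e + x.c * y.h,
    x.a * y.c + x.b * y.f + x.c * y.i, x.d * y.a + x.e * y.d + x.f * y.g,
    x.d * y.b + x.e * y.e + x.f * y.h, x.d * y.c + x.e * y.f + x.f * y.i,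
    x.g * y.a + x.h * y.d + x.i * y.g, x.g * y.b + x.h * y.e + x.i * y.h,
    x.g * y.c + x.h * y.f + x.i * y.i⟩

/-- determinant -/
def det (x : M3 R) : R := x.a * (x.e * x.i + -(x.f * x.h)) + x.b * (x.f * x.g + -(x.d * x.i)) +
  x.c * (x.d * x.h + -(x.e * x.g))

/-- trace -/
def tr (x : M3 R) : R := x.a + x.e + x.i

/-- second coefficient -/
def sc (x : M3 R) : R := x.a * (x.e + x.i) + x.e * x.i + -(x.b * x.d + x.c * x.g + x.f * x.h)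

/-- the characteristic polynomial is one of two -/
abbrev Ok (t s : R) (x : M3 R) : Prop := x.tr = t ∧ x.sc = s ∨ x.tr = s ∧ x.sc = t

/-- the matrix -/
def mat (φ : R → F) (x : M3 R) : Matrix (Fin 3) (Fin 3) F :=
  !![φ x.a, φ x.b, φ x.c; φ x.d, φ x.e, φ x.f; φ x.g, φ x.h, φ x.i]

theorem det_mat (h : Cd φ) (x : M3 R) : (x.mat φ).det = φ x.det := by
  simp [mat, det, h.add, h.mul, h.neg, Matrix.det_fin_three]; ring

theorem ch (h : Cd φ) {x : M3 R} {t s : R} (h1 : x.Ok t s) (h2 : (x.mat φ).det = 1) :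
    aeval (x.mat φ) (X ^ 3 - C (φ t) * X ^ 2 + C (φ s) * X - 1) = 0 ∨
      aeval (x.mat φ) (X ^ 3 - C (φ s) * X ^ 2 + C (φ t) * X - 1) = 0 := by
  have : aeval (x.mat φ) (X ^ 3 - C (φ x.tr) * X ^ 2 + C (φ x.sc) * X - C (φ x.det)) = 0 := by
    simp only [map_sub, map_add, map_mul, aeval_X, aeval_C, pow_succ, pow_zero, one_mul,
      Algebra.algebraMap_eq_smul_one, smul_mul_assoc, Matrix.one_fin_three]
    ext i j
    fin_cases i <;> fin_cases j <;> simp [mat, det, tr, sc, h.add, h.mul, h.neg] <;> ring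
  rw [← det_mat h, h2, C_1] at this
  rcases h1 with ⟨rfl, rfl⟩ | ⟨rfl, rfl⟩
  exacts [.inl this, .inr this]

theorem fac (h : Cd φ) {t s : R} (L : List (M3 R)) (hL : ∀ z ∈ L, z.det = 1 ∧ z.Ok t s)
    (H : ∀ b c e f h i, det ⟨0, b, c, 1, e, f, 0, h, i⟩ = (1 : R) →
      ∃ z ∈ L, (mul ⟨0, b, c, 1, e, f, 0, h, i⟩ z).Ok t s) (hL' : L ≠ [])
    (hW : finrank F W = 3) {A : W ≃ₗ[F] W} (hA : LinearMap.det (A : W →ₗ[F] W) = 1)
    (hs : ∀ c : F, (∀ v, A v = c • v) → A = 1) :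
    Fac A (X ^ 3 - C (φ t) * X ^ 2 + C (φ s) * X - 1) (X ^ 3 - C (φ s) * X ^ 2 + C (φ t) * X - 1)
      1 := by
  have k0 : ∀ z ∈ L, (z.mat φ).det = 1 := fun z hz => by rw [det_mat h, (hL z hz).1, h.one]
  by_cases h1 : A = 1
  · obtain ⟨z, hz⟩ := List.exists_mem_of_ne_nil L hL'
    have := ch h (hL z hz).2 (k0 z hz)
    exact k0 z hz ▸ fac_of_mat (finBasisOfFinrankEq F W hW) (by simp [k0 z hz]) this
      (by simpa [h1])
  obtain ⟨χ, v, h2, h3⟩ := exists_hyperplane_not_inv (g := (A : W →ₗ[F] W)) fun c hc =>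
    h1 (hs c fun v => by simpa using LinearMap.congr_fun hc v)
  have h4 : LinearIndependent F ![v, A v] := linearIndependent_pair_of_notMem
    (fun e => by simp [e] at h3) fun e => by
      obtain ⟨c, e⟩ := Submodule.mem_span_singleton.1 e
      simp [← e, h2] at h3
  obtain ⟨w, h5⟩ := exists_linearIndependent_snoc_of_lt_finrank h4 (by omega)
  obtain ⟨b, hb⟩ := exists_basis_of_li (ι := Fin 3) h5 (by simp [hW])
  have h6 : ∀ i, LinearMap.toMatrix b b (A : End F W) i 0 = if i = 1 then 1 else 0 := fun i => by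
    rw [LinearMap.toMatrix_apply, show (A : End F W) (b 0) = b 1 by rw [hb, hb]; rfl, b.repr_self,
      Finsupp.single_apply]
    simp only [eq_comm]
  choose ψ hψ using h.bij.2
  obtain ⟨b', c, e, f, h', i, hx⟩ : ∃ b' c e f h' i, LinearMap.toMatrix b b (A : End F W) =
      mat φ ⟨0, b', c, 1, e, f, 0, h', i⟩ := by
    generalize LinearMap.toMatrix b b (A : End F W) = M at h6
    exact ⟨ψ (M 0 1), ψ (M 0 2), ψ (M 1 1), ψ (M 1 2), ψ (M 2 1), ψ (M 2 2), by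
      simpa [mat, hψ, h.zero, h.one, h6] using Matrix.eta_fin_three M⟩
  rw [← LinearMap.det_toMatrix b, hx] at hA
  obtain ⟨z, z1, z2⟩ := H _ _ _ _ _ _ (h.bij.1 ((det_mat h _).symm.trans (hA.trans h.one.symm)))
  have k2 : ∀ x, mat φ x * z.mat φ = (x.mul z).mat φ := fun x => by
    simp [mat, mul, h.add, h.mul, add_assoc]
  exact k0 z z1 ▸ fac_of_mat b (by simp [k0 z z1]) (ch h (hL z z1).2 (k0 z z1))
    (by rw [hx, k2]; exact ch h z2 (by rw [← k2, Matrix.det_mul, hA, one_mul, k0 z z1]))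

end M3

theorem fac23 [Fintype F] (hF : Fintype.card F = 2) (hW : finrank F W = 3) {A : W ≃ₗ[F] W}
    (hA : LinearMap.det (A : W →ₗ[F] W) = 1) (hs : ∀ c : F, (∀ v, A v = c • v) → A = 1) :
    Fac A (X ^ 3 + X - 1) (X ^ 3 - X ^ 2 - 1) 1 := by
  simpa using M3.fac (.of_equiv (ZMod.ringEquivOfPrime F Nat.prime_two hF)) (t := 0) (s := 1)
    [⟨0, 1, 0, 0, 0, 1, 1, 0, 1⟩, ⟨0, 0, 1, 1, 0, 1, 0, 1, 0⟩, ⟨0, 0, 1, 0, 1, 1, 1, 1, 1⟩,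
      ⟨1, 1, 1, 1, 1, 0, 0, 1, 1⟩, ⟨1, 0, 1, 1, 1, 1, 1, 1, 0⟩, ⟨0, 1, 1, 1, 0, 0, 0, 1, 0⟩,
      ⟨1, 1, 0, 0, 0, 1, 1, 0, 0⟩, ⟨1, 1, 0, 1, 0, 1, 0, 1, 0⟩, ⟨0, 1, 1, 1, 1, 1, 1, 0, 1⟩,
      ⟨0, 0, 1, 1, 0, 0, 1, 1, 0⟩] (by decide +kernel) (by decide +kernel) (by simp) hW hA hs

theorem fac32 [Fintype F] (hF : Fintype.card F = 3) (hW : finrank F W = 2) {A : W ≃ₗ[F] W}
    (hA : LinearMap.det (A : W →ₗ[F] W) = 1) : Fac A (X ^ 2 - X - 1) (X ^ 2 + X - 1) (-1) := by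
  simpa [sub_eq_add_neg] using M2.fac (.of_equiv (ZMod.ringEquivOfPrime F Nat.prime_three hF))
    (t := 1) (t' := -1) (d := -1) [⟨0, 2, 2, 1⟩, ⟨1, 1, 1, 0⟩, ⟨2, 1, 2, 2⟩, ⟨0, 2, 2, 2⟩]
    (by simp) (by decide +kernel) hW hA

theorem fac33 [Fintype F] (hF : Fintype.card F = 3) (hW : finrank F W = 3) {A : W ≃ₗ[F] W}
    (hA : LinearMap.det (A : W →ₗ[F] W) = 1) (hs : ∀ c : F, (∀ v, A v = c • v) → A = 1) :
    Fac A (X ^ 3 - X - 1) (X ^ 3 + X ^ 2 - 1) 1 := by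
  simpa [sub_eq_add_neg] using M3.fac (.of_equiv (ZMod.ringEquivOfPrime F Nat.prime_three hF))
    (t := 0) (s := -1)
    [⟨0, 1, 1, 2, 1, 0, 2, 1, 1⟩, ⟨1, 1, 2, 0, 0, 2, 1, 2, 2⟩, ⟨1, 1, 2, 1, 0, 1, 2, 1, 2⟩,
      ⟨0, 1, 2, 1, 2, 1, 2, 1, 1⟩, ⟨0, 2, 0, 2, 0, 1, 0, 2, 2⟩, ⟨1, 0, 2, 2, 1, 0, 2, 2, 0⟩,
      ⟨1, 2, 2, 1, 1, 1, 0, 2, 1⟩, ⟨1, 1, 0, 0, 1, 1, 2, 1, 0⟩, ⟨0, 1, 0, 2, 0, 1, 1, 2, 0⟩,
      ⟨1, 2, 2, 1, 1, 0, 1, 2, 1⟩, ⟨1, 0, 2, 2, 1, 1, 1, 2, 0⟩, ⟨2, 2, 0, 2, 2, 2, 1, 0, 2⟩]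
    (by decide +kernel) (by decide +kernel) (by simp) hW hA hs

/-- the field with four elements -/
def K4 : Type := Fin 4

namespace K4

instance : DecidableEq K4 := inferInstanceAs (DecidableEq (Fin 4))
instance : Fintype K4 := inferInstanceAs (Fintype (Fin 4))
instance (n : ℕ) : OfNat K4 n := ⟨Fin.ofNat 4 n⟩
instance : Add K4 := ⟨fun a b => Fin.ofNat 4 (Fin.val a ^^^ Fin.val b)⟩
instance : Mul K4 := ⟨fun a b => Fin.ofNat 4 (2625168384 >>> (8 * Fin.val a + 2 * Fin.val b))⟩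
instance : Neg K4 := ⟨id⟩
instance (P : K4 → Prop) [h : DecidablePred P] : Decidable (∀ a, P a) :=
  @Nat.decidableForallFin 4 P h

/-- first coordinate -/
def c0 (a : K4) : ZMod 2 := (Fin.val a : ℕ)

/-- second coordinate -/
def c1 (a : K4) : ZMod 2 := (Fin.val a / 2 : ℕ)

theorem exists_cd [Fintype F] (hF : Fintype.card F = 4) : ∃ φ : K4 → F, Cd φ := by
  obtain ⟨ω, h0, h1⟩ := exists_ne_zero_ne_one_of_card (F := F) (by simp [hF])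
  have h2 : (2 : F) = 0 := by
    have := FiniteField.cast_card_eq_zero F
    rw [hF] at this
    exact pow_eq_zero_iff two_ne_zero |>.1 (by linear_combination this)
  have h3 : ω * ω = ω + 1 := by
    have := FiniteField.pow_card_sub_one_eq_one ω h0
    rw [hF] at this
    exact mul_left_cancel₀ (sub_ne_zero.2 h1) (by linear_combination this - (ω * ω - 1) * h2)
  have := CharTwo.of_one_ne_zero_of_two_eq_zero one_ne_zero h2
  let ψ := ZMod.castHom (dvd_refl 2) F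
  have k : ∀ a b : K4, c0 (a + b) = c0 a + c0 b ∧ c1 (a + b) = c1 a + c1 b ∧
      c0 (a * b) = c0 a * c0 b + c1 a * c1 b ∧
      c1 (a * b) = c0 a * c1 b + c1 a * c0 b + c1 a * c1 b ∧
      (a = b ∨ c0 (a + b) = 1 ∧ c1 (a + b) = 0 ∨ c0 (a + b) = 0 ∧ c1 (a + b) = 1 ∨
        c0 (a + b) = 1 ∧ c1 (a + b) = 1) := by decide
  have h4 : ∀ a b : K4, ψ (c0 (a + b)) + ψ (c1 (a + b)) * ω =
      ψ (c0 a) + ψ (c1 a) * ω + (ψ (c0 b) + ψ (c1 b) * ω) := fun a b => by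
    rw [(k a b).1, (k a b).2.1, map_add, map_add]; ring
  refine ⟨fun a => ψ (c0 a) + ψ (c1 a) * ω, (Fintype.bijective_iff_injective_and_card _).2
    ⟨fun a b e => ?_, hF.symm⟩, h4, fun a b => ?_, fun a => (CharTwo.neg_eq _).symm,
    by simp [show c0 0 = 0 from rfl, show c1 0 = 0 from rfl],
    by simp [show c0 1 = 1 from rfl, show c1 1 = 0 from rfl]⟩
  · have h5 := h4 a b
    rw [show _ + _ = _ from e, CharTwo.add_self_eq_zero] at h5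
    rcases (k a b).2.2.2.2 with e | ⟨e, e'⟩ | ⟨e, e'⟩ | ⟨e, e'⟩
    · exact e
    all_goals simp [e, e', h0, CharTwo.add_eq_zero, h1.symm] at h5
  · simp only [(k a b).2.2.1, (k a b).2.2.2.1, map_add, map_mul]
    linear_combination -ψ (c1 a) * ψ (c1 b) * h3

end K4

theorem fac42 [Fintype F] (hF : Fintype.card F = 4) : ∃ ω : F, ω * ω = ω + 1 ∧
    ∀ {A : W ≃ₗ[F] W}, finrank F W = 2 → LinearMap.det (A : W →ₗ[F] W) = 1 →
      Fac A (X ^ 2 - C ω * X + 1) (X ^ 2 - C (ω * ω) * X + 1) 1 := by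
  obtain ⟨φ, h⟩ := K4.exists_cd hF
  refine ⟨φ 2, by rw [← h.mul, ← h.one, ← h.add]; rfl, fun hW hA => ?_⟩
  simpa [h.one, h.mul] using M2.fac h (t := 2) (t' := 2 * 2) (d := 1)
    [⟨0, 3, 2, 2⟩, ⟨3, 1, 1, 0⟩, ⟨2, 1, 1, 0⟩, ⟨1, 2, 1, 3⟩, ⟨0, 2, 3, 3⟩, ⟨2, 2, 2, 1⟩]
    (by simp [h.one]) (by decide +kernel) hW hA

theorem fac43 [Fintype F] (hF : Fintype.card F = 4) (hW : finrank F W = 3) {A : W ≃ₗ[F] W}
    (hA : LinearMap.det (A : W →ₗ[F] W) = 1) (hs : ∀ c : F, (∀ v, A v = c • v) → A = 1) :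
    Fac A (X ^ 3 + X - 1) (X ^ 3 - X ^ 2 - 1) 1 := by
  obtain ⟨φ, h⟩ := K4.exists_cd hF
  simpa [h.one, h.zero] using M3.fac h (t := 0) (s := 1)
    [⟨0, 3, 0, 1, 3, 2, 0, 1, 2⟩, ⟨3, 2, 3, 1, 3, 2, 3, 1, 1⟩, ⟨3, 3, 3, 3, 3, 2, 3, 1, 1⟩,
      ⟨0, 3, 3, 1, 2, 0, 3, 0, 3⟩, ⟨3, 3, 0, 2, 3, 2, 0, 2, 1⟩, ⟨2, 1, 1, 2, 3, 2, 0, 2, 1⟩,
      ⟨1, 3, 0, 0, 3, 2, 1, 3, 2⟩, ⟨3, 3, 3, 1, 1, 2, 3, 0, 2⟩, ⟨1, 2, 0, 2, 3, 2, 1, 1, 2⟩,
      ⟨0, 3, 3, 2, 1, 0, 2, 1, 1⟩, ⟨3, 0, 3, 3, 1, 3, 1, 2, 3⟩, ⟨0, 0, 2, 2, 1, 0, 0, 2, 0⟩,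
      ⟨0, 3, 3, 3, 0, 1, 0, 3, 0⟩, ⟨2, 3, 3, 0, 1, 2, 3, 2, 3⟩, ⟨0, 0, 1, 3, 2, 1, 0, 2, 2⟩,
      ⟨0, 3, 3, 1, 3, 0, 3, 2, 2⟩, ⟨2, 0, 2, 0, 1, 3, 3, 3, 2⟩, ⟨0, 2, 3, 2, 3, 1, 1, 3, 3⟩,
      ⟨1, 3, 1, 3, 3, 2, 1, 1, 2⟩, ⟨0, 0, 2, 2, 0, 0, 0, 2, 1⟩, ⟨3, 2, 2, 1, 0, 3, 0, 2, 3⟩,
      ⟨2, 2, 1, 3, 0, 3, 1, 2, 3⟩, ⟨2, 3, 1, 2, 1, 3, 1, 1, 2⟩, ⟨3, 0, 1, 0, 0, 2, 1, 1, 3⟩,
      ⟨2, 0, 2, 2, 2, 1, 3, 3, 0⟩, ⟨3, 0, 3, 1, 1, 3, 1, 3, 2⟩, ⟨0, 2, 2, 3, 1, 1, 0, 1, 0⟩,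
      ⟨0, 2, 2, 2, 3, 3, 2, 1, 3⟩, ⟨3, 1, 3, 1, 0, 0, 0, 1, 2⟩]
    (by decide +kernel) (by decide +kernel) (by simp) hW hA hs

end CF.Ore
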