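/-
Small irreducible polynomials, orthogonal decompositions, transport of commutators.
-/
import Cfsg.Agent.Ore.F
import Cfsg.Agent.Ore.K

set_option autoImplicit false

namespace CF.Ore

open Module Polynomial CF.Geom CF.Cls CF.Classical

variable {F : Type*} [Field F] {σ : F →+* F}

/-- an irreducible polynomial and its different conjugate reciprocal -/
structure IR (σ : F →+* F) (p p' : F[X]) : Prop where
  monic : p.Monic
  irr : Irreducible p
  c0 : p.coeff 0 ≠ 0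
  deg : 2 ≤ p.natDegree
  cr : cr σ p = p'
  ne : p ≠ p'

theorem ir_of {p p' : F[X]} {n : ℕ} (h1 : p.Monic) (h2 : p.natDegree = n) (h3 : 2 ≤ n) (h4 : n ≤ 3)
    (h5 : ∀ x, p.eval x ≠ 0) (h6 : p'.natDegree ≤ n)
    (h7 : ∀ i ≤ n, σ (p.coeff 0) * p'.coeff i = σ (p.coeff (n - i))) (h8 : p.coeff 1 ≠ p'.coeff 1) :
    IR σ p p' := by
  have h0 : p.coeff 0 ≠ 0 := coeff_zero_eq_eval_zero p ▸ h5 0
  refine ⟨h1, irreducible_of_degree_le_three_of_not_isRoot (by simp; omega) h5, h0, h2 ▸ h3,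
    ext fun i => ?_, fun e => h8 (by rw [e])⟩
  by_cases hi : i ≤ n
  · rw [coeff_cr _ (h2 ▸ hi), h2, ← h7 i hi, inv_mul_cancel_left₀ (by simpa)]
  · rw [coeff_eq_zero_of_natDegree_lt (by rw [natDegree_cr h0]; omega),
      coeff_eq_zero_of_natDegree_lt (by omega)]

theorem ir_two (h : ∀ x : F, x ^ 4 = x) : IR σ (X ^ 3 + X - 1) (X ^ 3 - X ^ 2 - 1) := by
  refine ir_of (n := 3) (by monicity!) (by compute_degree!) (by omega) le_rfl (fun x e => ?_)
    (by compute_degree) (fun i hi => ?_) (by simp [coeff_X, coeff_one])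
  · simp only [eval_sub, eval_add, eval_pow, eval_X, eval_one] at e
    have : x ^ 2 = 0 := by linear_combination x * e - h x
    simp [pow_eq_zero_iff two_ne_zero |>.1 this] at e
  · interval_cases i <;> simp [coeff_X, coeff_one, coeff_X_pow]

theorem ir_three (h : ∀ x : F, x ^ 3 = x) : IR σ (X ^ 3 - X - 1) (X ^ 3 + X ^ 2 - 1) := by
  refine ir_of (n := 3) (by monicity!) (by compute_degree!) (by omega) le_rfl (fun x e => ?_)
    (by compute_degree) (fun i hi => ?_) (by simp [coeff_X, coeff_one])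
  · simp [h] at e
  · interval_cases i <;> simp [coeff_X, coeff_one, coeff_X_pow]

theorem ir_three' (h : ∀ x : F, x ^ 3 = x) (h2 : (2 : F) ≠ 0) :
    IR σ (X ^ 2 - X - 1) (X ^ 2 + X - 1) := by
  refine ir_of (n := 2) (by monicity!) (by compute_degree!) le_rfl (by omega) (fun x e => ?_)
    (by compute_degree) (fun i hi => ?_)
    (by simpa [coeff_X, coeff_one] using fun e : (-1 : F) = 1 => h2 (by linear_combination -e))
  · simp only [eval_sub, eval_pow, eval_X, eval_one] at e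
    have : x ^ 2 = 0 := by linear_combination h x - x * e
    simp [pow_eq_zero_iff two_ne_zero |>.1 this] at e
  · interval_cases i <;> simp [coeff_X, coeff_one, coeff_X_pow]

theorem ir_four (h : ∀ x : F, x ^ 4 = x) (hσ : ∀ x, σ x = x ^ 2) {ω : F} (hω : ω * ω = ω + 1) :
    IR σ (X ^ 2 - C ω * X + 1) (X ^ 2 - C (ω * ω) * X + 1) := by
  refine ir_of (n := 2) (by monicity!) (by compute_degree!) le_rfl (by omega) (fun x e => ?_)
    (by compute_degree) (fun i hi => ?_) (by simp [coeff_X, coeff_one, hω])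
  · simp only [eval_sub, eval_add, eval_mul, eval_C, eval_pow, eval_X, eval_one] at e
    have : ω = 0 := by
      linear_combination (x ^ 2 + ω * x + ω ^ 2 - 1) * e - h x + (x * (ω + 1) - 1) * hω
    simp [this] at hω
  · interval_cases i <;> simp [coeff_X, coeff_one, coeff_X_pow, -map_mul, hσ ω, sq]

variable {V : Type*} [AddCommGroup V] [Module F V] [FiniteDimensional F V]
  {B : V →ₛₗ[σ] V →ₗ[F] F} {Q : V → F} {W W' U : Submodule F V} {g : V ≃ₗ[F] V}
  {G : Subgroup (V ≃ₗ[F] V)} {A : W ≃ₗ[F] W}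

theorem Std.com_fac [Finite F] {ho : Op B Q W W'} (hG : PolarG B Q G) (h : Std ho g A)
    (hσ : ∀ x, σ (σ x) = x) {p p' : F[X]} (hp : IR σ p p') {d : F} (hA : Fac A p p' d)
    (hl : ∀ Z : W ≃ₗ[F] W, LinearMap.det (Z : End F W) = d → ho.lv Z ∈ G)
    (hk : ∀ Z : W ≃ₗ[F] W, detC (Z : End F W) = ⊤ →
      ∀ k ∈ Isom B Q, ∃ z, z * ho.lv Z = ho.lv Z * z ∧ k * z ∈ G) (hW : 0 < finrank F W) :
    Com G g := by
  obtain ⟨Z, h1, h2, h3⟩ := hA
  obtain rfl := hp.cr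
  refine h.com_irr hG hσ hp.monic hp.irr hp.c0 hp.ne hp.deg h2 h3 (hl Z h1) (hk Z ?_)
  obtain ⟨a, a1, a2, a3⟩ : ∃ a : F[X], a.Monic ∧ Irreducible a ∧ aeval (Z : End F W) a = 0 :=
    h2.elim (fun e => ⟨_, hp.monic, hp.irr, e⟩) fun e =>
      ⟨_, monic_cr hp.c0, irreducible_cr hσ hp.monic hp.c0 hp.irr, e⟩
  obtain ⟨b, hb⟩ := Multiset.exists_mem_of_ne_zero (s := ed (Z : End F W)) fun e => by
    simp [finrank_eq_ed (Z : End F W), e] at hW
  have h4 := ed_isPP _ b hb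
  refine detC_eq_top_of_irreducible hb ((Associated.irreducible_iff ?_).1 a2)
  exact (a2.dvd_iff.1 ((aeval_eq_zero_iff_ed _ a).1 a3 b hb)).resolve_left
    (not_isUnit_of_natDegree_pos _ h4.natDegree_pos)

theorem com_break (h : IsWittPair σ B Q) (hU : Disjoint U (perp B U)) (hg : g ∈ Isom B Q)
    (hgU : ∀ u ∈ U, g u ∈ U) (S : Subgroup Fˣ) :
    ∃ g₁ ∈ Isom (B.domRestrict₁₂ U U) (fun x : U => Q x),
    ∃ g₂ ∈ Isom (B.domRestrict₁₂ (perp B U) (perp B U)) (fun x : perp B U => Q x),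
      (∀ u : U, (g₁ u : V) = g u) ∧ LinearMap.det (g : End F V) =
        LinearMap.det (g₁ : End F U) * LinearMap.det (g₂ : End F (perp B U)) ∧
      (Com (Isom (B.domRestrict₁₂ U U) (fun x : U => Q x) ⊓ S.comap LinearEquiv.det) g₁ →
        Com (Isom (B.domRestrict₁₂ (perp B U) (perp B U)) (fun x : perp B U => Q x) ⊓
          S.comap LinearEquiv.det) g₂ → Com (Isom B Q ⊓ S.comap LinearEquiv.det) g) := by
  have hd := h.orthDecomp hU
  obtain ⟨⟨g₁, g₂⟩, e⟩ : (⟨g, hg⟩ : Isom B Q) ∈ hd.hom.range := by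
    rw [hd.range_hom (h.restrict hU).nondegenerate, left_prodEquivOfIsCompl]
    exact mem_stabSet_iff_le.2 hgU
  obtain rfl : (hd.hom (g₁, g₂)).1 = g := congrArg Subtype.val e
  refine ⟨g₁, g₁.2, g₂, g₂.2, fun u => by simpa using (hd.hom_apply (g₁, g₂) u 0).symm,
    hd.det_hom _, ?_⟩
  rintro ⟨a, ha, b, hb, e1⟩ ⟨c, hc, d, hd', e2⟩
  have k : ∀ x y, x.1 ∈ S.comap LinearEquiv.det → y.1 ∈ S.comap LinearEquiv.det →
      (hd.hom (x, y)).1 ∈ Isom B Q ⊓ S.comap LinearEquiv.det := fun x y hx hy =>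
    ⟨Subtype.prop _, Subgroup.mem_comap.2 (by
      rw [show LinearEquiv.det (hd.hom (x, y)).1 = LinearEquiv.det x.1 * LinearEquiv.det y.1 from
        Units.ext (by simpa using hd.det_hom (x, y))]
      exact S.mul_mem hx hy)⟩
  refine ⟨_, k ⟨a, ha.1⟩ ⟨c, hc.1⟩ ha.2 hc.2, _, k ⟨b, hb.1⟩ ⟨d, hd'.1⟩ hb.2 hd'.2, ?_⟩
  rw [← Subgroup.coe_inv, ← Subgroup.coe_inv, ← Subgroup.coe_mul, ← Subgroup.coe_mul,
    ← Subgroup.coe_mul, ← map_inv, ← map_inv, ← map_mul, ← map_mul, ← map_mul]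
  exact congrArg (fun x => (hd.hom x).1) (Prod.ext (Subtype.ext e1) (Subtype.ext e2))

theorem com_transport {Γ H : Type*} [Group Γ] [Group H] {G : Subgroup Γ} (e : H ≃* G)
    (h : ∀ g ∈ G, Com G g) (g : H) : ∃ a b : H, g = a * b * a⁻¹ * b⁻¹ := by
  obtain ⟨a, ha, b, hb, h1⟩ := h _ (e g).2
  exact ⟨e.symm ⟨a, ha⟩, e.symm ⟨b, hb⟩, e.injective (Subtype.ext (by simpa using h1))⟩

end CF.Ore
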