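/-
Orthogonal groups: membership tests for `Ω`, the element `-1`, cells of plus type.
-/
import Cfsg.Agent.Ore.G
import Cfsg.Agent.Geom.Disc

set_option autoImplicit false

namespace CF.Ore

open Module Polynomial CF.Geom CF.Cls CF.Classical QuadraticMap

variable {F V : Type*} [Field F] [AddCommGroup V] [Module F V] {Q : QuadraticForm F V}
  {W W' : Submodule F V} {g t : V ≃ₗ[F] V} {A : W ≃ₗ[F] W}

theorem oRefl_mem_Dp (y : V) : (oRefl Q y).1 ∈ Dp (polarBilin Q) Q (F ∙ y) :=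
  ⟨(oRefl Q y).2, fun x => by
    simpa [oRefl_apply] using Submodule.smul_mem _ _ (Submodule.mem_span_singleton_self y)⟩

theorem Dp_refl (hQ : (polarBilin Q).Nondegenerate) {y : V} (ht : t ∈ Dp (polarBilin Q) Q (F ∙ y)) :
    t = 1 ∨ Q y ≠ 0 ∧ t = (oRefl Q y).1 := by
  have hw := isWittPair_quad Q hQ
  by_cases hc : ∀ x, polarBilin Q y x = 0
  · exact .inl (LinearEquiv.ext fun x => Dp_fix hw ht (mem_perp_singleton.2 (hc x)))
  push Not at hc
  obtain ⟨x, hx⟩ := hc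
  obtain ⟨c, e⟩ := Submodule.mem_span_singleton.1 (ht.2 x)
  have h1 := isom_q ht.1 x
  rw [eq_add_of_sub_eq' e.symm, quad_add, quad_smul, polar_smul_right, polar_comm] at h1
  by_cases h2 : c = 0
  · exact .inl (Dp_ext hw ht (one_mem _) hx (by simpa [h2, sub_eq_zero] using e.symm))
  have h3 : polar Q y x = -(c * Q y) := mul_left_cancel₀ h2 (by linear_combination h1)
  have h4 : Q y ≠ 0 := fun e => hx (by simp [h3, e])
  exact .inr ⟨h4, Dp_ext hw ht (oRefl_mem_Dp y) hx (by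
    rw [eq_add_of_sub_eq' e.symm, oRefl_apply, h3, mul_neg, mul_left_comm, inv_mul_cancel₀ h4]; simp)⟩

theorem Dp_sing (hQ : (polarBilin Q).Nondegenerate) (y : V) (hy : Q y = Q 0) :
    ∀ s ∈ Dp (polarBilin Q) Q (F ∙ y), s = 1 := fun _ hs =>
  (Dp_refl hQ hs).resolve_right fun h => h.1 (by simpa using hy)

theorem exists_prod_refl {κ : Type*} [DecidableEq κ] {v : κ → V} (s : Finset κ)
    (h1 : ∀ i j, i ≠ j → polar Q (v i) (v j) = 0) :
    ∃ vs : List V, (∀ w ∈ vs, ∃ i, w = v i) ∧ vs.length = s.card ∧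
      (vs.map Q).prod = ∏ i ∈ s, Q (v i) ∧ ∀ j z, (∀ i, i ≠ j → polar Q (v i) z = 0) →
        (vs.map (oRefl Q)).prod.1 z = if j ∈ s then (oRefl Q (v j)).1 z else z := by
  induction s using Finset.induction_on with
  | empty => exact ⟨[], by simp, rfl, rfl, fun j z _ => by simp⟩
  | insert i s hi ih =>
    obtain ⟨vs, k1, k2, k3, k4⟩ := ih
    refine ⟨v i :: vs, by simpa using k1, by simp [k2, hi], by simp [k3, hi],
      fun j z hz => ?_⟩
    rw [List.map_cons, List.prod_cons, Subgroup.coe_mul, LinearEquiv.mul_apply, k4 j z hz]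
    by_cases h : j = i
    · simp [h, hi]
    · simp only [Finset.mem_insert, h, false_or]
      refine oRefl_of_polar_eq_zero ?_
      split_ifs <;> simp [oRefl_apply, hz i (Ne.symm h), h1 i j (Ne.symm h)]

variable [FiniteDimensional F V] [Finite F]

theorem exists_refls (hQ : (polarBilin Q).Nondegenerate) {κ : Type*} [DecidableEq κ] {v : κ → V}
    (s : Finset κ) (h0 : ∀ i, Q (v i) ≠ 0) (h1 : ∀ i j, i ≠ j → polar Q (v i) (v j) = 0)
    (h2 : Even s.card) {c : F} (h3 : ∀ i, Q (v i) = c) :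
    ∃ g ∈ OmG Q, ∀ j z, (∀ i, i ≠ j → polar Q (v i) z = 0) →
      g z = if j ∈ s then (oRefl Q (v j)).1 z else z := by
  obtain ⟨vs, k1, k2, k3, k4⟩ := exists_prod_refl s h1
  obtain ⟨k, hk⟩ := h2
  refine ⟨_, mem_OmG.2 (prod_oRefl_mem_commutator hQ vs (fun w hw => ?_) ⟨k, k2.trans hk⟩
    ⟨c ^ k, by simp [k3, h3, hk, pow_add]⟩), k4⟩
  obtain ⟨i, rfl⟩ := k1 w hw
  exact h0 i

theorem com_neg (hQ : (polarBilin Q).Nondegenerate) (h2 : (2 : F) ≠ 0) (h3 : 3 ≤ finrank F V)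
    (hg : g ∈ OmG Q) (hc : ∀ v, g v = -v) : Com (OmG Q) g := by
  obtain ⟨n, hn⟩ : ∃ n, finrank F V = n + 1 := ⟨finrank F V - 1, by omega⟩
  obtain ⟨v, w, h4, h5⟩ := exists_orthFam_one h2 (polarBilin_isSymm Q) hQ hn
  have h6 : ∀ {u : Fin (n + 1) → V}, OrthFam (polarBilin Q) u →
      ⊤ ≤ Submodule.span F (Set.range u) := fun hu =>
    (hu.linearIndependent.span_eq_top_of_card_eq_finrank' (by simp [hn])).ge
  obtain ⟨⟨k, hk⟩, s, hs⟩ := (mem_commutator_iff_of_orthFam h2 hQ (h5 1 one_ne_zero)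
    ⟨g, OmG_le hg⟩ (fun _ => hc _) fun x hx => by
      obtain rfl : x = 0 := hQ.1 x fun y => by
        simpa [polar_comm] using mem_perp.1 (mem_perp_range.2 hx :
          x ∈ perp (polarBilin Q) _) y (h6 (h5 1 one_ne_zero) trivial)
      simp).1 (mem_OmG.1 hg)
  have h7 := prod_polarBilin_self (Q := Q) (Fin.snoc v ((1 : F) • w) : Fin (n + 1) → V)
  rw [hs, hk, Fin.prod_univ_castSucc] at h7
  simp only [Fin.snoc_castSucc, Fin.snoc_last, h4, Finset.prod_const_one, one_mul, one_smul] at h7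
  have h8 : 2 ^ k * s ≠ 0 := fun e => by
    simpa [h7, show 2 ^ (k + k) * (s * s) = (2 ^ k * s) ^ 2 by ring, e] using
      (h5 1 one_ne_zero).ne (Fin.last n)
  have h9 := h5 _ (inv_ne_zero h8)
  have h10 : ∀ i, polar Q ((Fin.snoc v ((2 ^ k * s)⁻¹ • w) : Fin (n + 1) → V) i)
      ((Fin.snoc v ((2 ^ k * s)⁻¹ • w) : Fin (n + 1) → V) i) = 1 := by
    refine Fin.lastCases ?_ fun i => by simpa using h4 i
    rw [Fin.snoc_last, polar_smul_left, polar_smul_right, ← polarBilin_apply_apply, h7]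
    rw [smul_eq_mul, smul_eq_mul, inv_mul_eq_iff_eq_mul₀ h8, inv_mul_eq_iff_eq_mul₀ h8]; ring
  generalize (Fin.snoc v ((2 ^ k * s)⁻¹ • w) : Fin (n + 1) → V) = u at h9 h10
  let e : Fin k ⊕ Fin k ≃ Fin (n + 1) := Fintype.equivOfCardEq (by simpa using hk.symm)
  have hu : ∀ i j, polar Q (u (e i)) (u (e j)) = if i = j then 1 else 0 := fun i j => by
    split_ifs with h
    · rw [h, h10]
    · exact h9.orth _ _ (e.injective.ne h)
  have hq : ∀ i, Q (u i) = 2⁻¹ := fun i => by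
    have := h10 i; rw [polar_self'] at this; exact eq_inv_of_mul_eq_one_right this
  have ext : ∀ {a b : V ≃ₗ[F] V}, (∀ i, a (u (e i)) = b (u (e i))) → a = b := fun h =>
    LinearEquiv.toLinearMap_injective (LinearMap.ext_on_range (top_le_iff.1 (h6 h9)) fun i =>
      by simpa using h (e.symm i))
  set x : Fin k → V := fun j => u (e (.inl j))
  set y : Fin k → V := fun j => u (e (.inr j))
  have xx : ∀ i j, polar Q (x i) (x j) = if i = j then 1 else 0 := fun i j => by simp [x, hu]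
  have yy : ∀ i j, polar Q (y i) (y j) = if i = j then 1 else 0 := fun i j => by simp [y, hu]
  have xy : ∀ i j, polar Q (x i) (y j) = 0 := fun i j => by simp [x, y, hu]
  have yx : ∀ i j, polar Q (y i) (x j) = 0 := fun i j => by simp [x, y, hu]
  have qx : ∀ i, Q (x i) = 2⁻¹ := fun _ => hq _
  have qy : ∀ i, Q (y i) = 2⁻¹ := fun _ => hq _
  have k0 : ∀ {p : Fin k → V} {c : F}, c ≠ 0 → (∀ i, Q (p i) = c) →
      (∀ i j, i ≠ j → polar Q (p i) (x j) = 0 ∧ polar Q (p i) (y j) = 0) →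
      (∀ i j, i ≠ j → polar Q (p i) (p j) = 0) → ∀ s : Finset (Fin k), Even s.card →
      ∃ g ∈ OmG Q, (∀ j, g (x j) = if j ∈ s then (oRefl Q (p j)).1 (x j) else x j) ∧
        ∀ j, g (y j) = if j ∈ s then (oRefl Q (p j)).1 (y j) else y j :=
    fun c0 a1 a2 a3 s hs =>
      let ⟨g, b1, b2⟩ := exists_refls hQ s (fun i => a1 i ▸ c0) a3 hs a1
      ⟨g, b1, fun j => b2 j _ fun i h => (a2 i j h).1, fun j => b2 j _ fun i h => (a2 i j h).2⟩
  have k1 := k0 (inv_ne_zero h2) qx (fun i j h => by simp [xx, xy, h]) fun i j h => by simp [xx, h]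
  have k2 := k0 (inv_ne_zero h2) qy (fun i j h => by simp [yy, yx, h]) fun i j h => by simp [yy, h]
  have q1 : ∀ i, Q (x i - y i) = 1 := fun i => by rw [quad_sub, qx, qy, xy]; field_simp; ring
  have q2 : ∀ i, Q (x i + y i) = 1 := fun i => by rw [quad_add, qx, qy, xy]; field_simp; ring
  have k3 := k0 one_ne_zero q1 (fun i j h => by simp [xx, xy, yx, yy, h])
    fun i j h => by simp [xx, xy, yx, yy, h]
  simp only [oRefl_apply, qx, qy, q1, xx, yy, xy, yx, polar_sub_left, if_true, inv_inv] at k1 k2 k3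
  rcases Nat.even_or_odd k with hk' | hk'
  · obtain ⟨a, a1, a2, a3⟩ := k1 Finset.univ (by simpa)
    obtain ⟨b, b1, b2, b3⟩ := k3 Finset.univ (by simpa)
    refine ⟨a, a1, b, b1, ?_⟩
    rw [eq_mul_inv_iff_mul_eq, eq_mul_inv_iff_mul_eq]
    refine ext fun i => ?_
    rcases i with i | i
    · change g (b (a (x i))) = a (b (x i)); simp [hc, a2, a3, b2, b3]; module
    · change g (b (a (y i))) = a (b (y i)); simp [hc, a2, a3, b2, b3]; module
  obtain ⟨i₀, i₁, hi⟩ : ∃ i₀ i₁ : Fin k, i₀ ≠ i₁ := by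
    have : 1 < k := by simp at hk; obtain ⟨l, rfl⟩ := hk'; omega
    exact ⟨⟨0, by omega⟩, ⟨1, this⟩, by simp⟩
  have k4 : ∀ i : Fin k, Even (Finset.univ.erase i).card := fun i => by
    simpa [Finset.card_erase_of_mem] using Nat.Odd.sub_odd hk' odd_one
  have k5 : Even ({i₀, i₁} : Finset (Fin k)).card := by simp [Finset.card_pair hi]
  obtain ⟨a, a1, a2, a3⟩ := k0 (p := fun i => if i = i₀ then x i - y i else x i + y i) one_ne_zero
    (fun i => by split_ifs; exacts [q1 i, q2 i])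
    (fun i j h => by split_ifs <;> simp [xx, xy, yx, yy, h])
    (fun i j h => by split_ifs <;> simp [xx, xy, yx, yy, h]) _ k5
  obtain ⟨a', a4, a5, a6⟩ := k1 _ (k4 i₁)
  obtain ⟨b, b1, b2, b3⟩ := k2 _ k5
  obtain ⟨b', b4, b5, b6⟩ := k3 _ (k4 i₀)
  refine ⟨a * a', mul_mem a1 a4, b * b', mul_mem b1 b4, ?_⟩
  rw [eq_mul_inv_iff_mul_eq, eq_mul_inv_iff_mul_eq]
  have k6 : ∀ i, g (b (b' (a (a' (x i))))) = a (a' (b (b' (x i)))) ∧
      g (b (b' (a (a' (y i))))) = a (a' (b (b' (y i)))) := fun i => by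
    by_cases e0 : i = i₀
    · subst e0
      constructor <;> simp [hc, a2, a3, a5, a6, b2, b3, b5, b6, hi, oRefl_apply, q1, xx, xy, yx, yy] <;>
        module
    by_cases e1 : i = i₁
    · subst e1
      constructor <;> simp [hc, a2, a3, a5, a6, b2, b3, b5, b6, e0, oRefl_apply, q2, xx, xy, yx, yy] <;>
        module
    constructor <;> simp [hc, a2, a3, a5, a6, b2, b3, b5, b6, e0, e1] <;> module
  exact ext fun i => by rcases i with i | i; exacts [(k6 i).1, (k6 i).2]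

theorem lv_mul_mem_iff (hQ : (polarBilin Q).Nondegenerate) (h5 : 5 ≤ finrank F V)
    (h : Op (polarBilin Q) Q W W') (hW : 0 < finrank F W) (Z : W ≃ₗ[F] W) (vs : List V)
    (hvs : ∀ v ∈ vs, Q v ≠ 0) : h.lv Z * (vs.map (oRefl Q)).prod.1 ∈ OmG Q ↔
      Even vs.length ∧ IsSquare (LinearMap.det (Z : End F W) * (vs.map Q).prod) := by
  obtain ⟨y, hy, x, hx, h1, h2⟩ := lv_fac (polarG_omega' hQ h5) h hW Z
  have h0 : LinearMap.det (Z : End F W) ≠ 0 := (LinearEquiv.isUnit_det' Z).ne_zero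
  have qy : Q y = 0 := (h.ts.q y hy).trans (map_zero Q)
  have qx : Q x = 0 := (h.ts'.q x hx).trans (map_zero Q)
  have h3 : polar Q x y = 1 := (polar_comm _ _ _).trans h1
  generalize LinearMap.det (Z : End F W) = a at *
  have h4 := h2 _ (oTor Q x y a).2 (oTor_right qx qy h3 h0)
    (by rw [oTor_left qx qy h3 h0]; exact W'.smul_mem _ hx) fun z e1 e2 => oTor_of_perp e2 e1 a
  have h6 := prod_oRefl_mem_commutator_iff hQ (reflSub_eq_top hQ (.inr (by omega)))
    ((x - a • y) :: (x - (1 : F) • y) :: vs)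
    (by simp only [List.mem_cons, forall_eq_or_imp, quad_hyp_sub qx qy h3]; simpa [h0])
  simp only [List.map_cons, List.prod_cons, quad_hyp_sub qx qy h3, List.length_cons, ← mul_assoc,
    ← mem_OmG] at h6
  rw [← (OmG Q).mul_mem_cancel_left (inv_mem h4), mul_inv_rev, inv_inv, mul_assoc,
    inv_mul_cancel_left]
  simpa [Nat.even_add_one, oTor] using h6

theorem lv_mem_iff (hQ : (polarBilin Q).Nondegenerate) (h5 : 5 ≤ finrank F V)
    (h : Op (polarBilin Q) Q W W') (hW : 0 < finrank F W) (Z : W ≃ₗ[F] W) :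
    h.lv Z ∈ OmG Q ↔ IsSquare (LinearMap.det (Z : End F W)) := by
  simpa using lv_mul_mem_iff hQ h5 h hW Z [] (by simp)

theorem eq_one_of_Dp (hQ : (polarBilin Q).Nondegenerate) (h5 : 5 ≤ finrank F V)
    (h : Op (polarBilin Q) Q W W') (hW : 0 < finrank F W) (hA : h.lv A * t ∈ OmG Q) {y : V}
    (ht : t ∈ Dp (polarBilin Q) Q (F ∙ y)) : t = 1 :=
  (Dp_refl hQ ht).resolve_right fun ⟨h1, h2⟩ => by
    simpa using (lv_mul_mem_iff hQ h5 h hW A [y] (by simpa)).1 (by simpa [h2] using hA)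

end CF.Ore
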