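/-
Every element of `Ω(V)`, `dim V ≥ 7`, over a finite field is a commutator.
-/
import Cfsg.Agent.Ore.Om

set_option autoImplicit false

namespace CF.Ore

open Module Polynomial CF.Geom CF.Cls CF.Classical QuadraticMap

variable {F V : Type*} [Field F] [AddCommGroup V] [Module F V] {Q : QuadraticForm F V}
  {W W' : Submodule F V} {g t : V ≃ₗ[F] V} {A : W ≃ₗ[F] W} [FiniteDimensional F V]

local notation "𝐁" => polarBilin Q

omit [FiniteDimensional F V] in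
theorem siegel_mem_Dp {u w : V} (hu : Q u = 0) (hw : Q w = 0) (h : polar Q u w = 0) :
    (eichler hu h).1 ∈ Dp 𝐁 Q (Submodule.span F {u, w}) :=
  ⟨(eichler hu h).2, fun x => Submodule.mem_span_pair.2 ⟨-polar Q w x, polar Q u x, by
    rw [eichler_apply, hw]; module⟩⟩

theorem Op.exists_dual (h : Op 𝐁 Q W W') {x y : V} (hx : x ∈ W') (hy : y ∈ W') (h1 : x ∉ F ∙ y) :
    ∃ w ∈ W, polar Q x w = 1 ∧ polar Q y w = 0 := by
  obtain ⟨w, h2, h3⟩ := h.witt.exists_dual_vec (x := x) (Z := (F ∙ y) ⊔ perp 𝐁 W) fun hm => by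
    obtain ⟨a, ha, z, hz, rfl⟩ := Submodule.mem_sup.1 hm
    obtain rfl := h.symm.eq_zero (by
      simpa using W'.sub_mem hx ((Submodule.span_singleton_le_iff_mem _ _).2 hy ha)) hz
    exact h1 (by simpa using ha)
  exact ⟨w, h.witt.perp_perp W ▸ mem_perp.2 fun z hz => h3 z (Submodule.mem_sup_right hz), h2,
    h3 y (Submodule.mem_sup_left (Submodule.mem_span_singleton_self y))⟩

theorem plus_alt (h : Cell 𝐁 Q W W' g A) (h0 : perp 𝐁 W ⊓ perp 𝐁 W' = ⊥) (v : W) :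
    polar Q (A v : V) (g v) = 0 := by
  obtain ⟨π, hπ, x, hx, e⟩ := h.dec3 v
  rw [h0] at hπ
  have h1 := h.q v
  rw [e, show π = 0 from hπ, add_zero] at h1 ⊢
  rw [quad_add, h.op.ts.q _ (A v).2, h.op.ts'.q x hx] at h1
  simpa [polar_self', h.op.ts.q _ (A v).2] using h1

theorem plus_skew (h : Cell 𝐁 Q W W' g A) (h0 : perp 𝐁 W ⊓ perp 𝐁 W' = ⊥) (v z : W) :
    polar Q (A z : V) (g v) = -polar Q (A v : V) (g z) := by
  have := plus_alt h h0 (v + z)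
  simp only [map_add, Submodule.coe_add, polar_add_left, polar_add_right, plus_alt h h0] at this
  linear_combination this

theorem plus_ne (h : Cell 𝐁 Q W W' g A) (hW : MT 𝐁 Q W) (hne : ∃ w ∈ W, g w ∉ W) :
    ∃ v z : W, polar Q (A v : V) (g z) ≠ 0 := by
  obtain ⟨z, hz, h1⟩ := hne
  obtain ⟨w, hw, h2⟩ := h.op.exists_ne hW (h.q ⟨z, hz⟩) h1
  exact ⟨A⁻¹ ⟨w, hw⟩, ⟨z, hz⟩, by rwa [apply_inv_apply]⟩

theorem plus_mod (h : Cell 𝐁 Q W W' g A) (h0 : perp 𝐁 W ⊓ perp 𝐁 W' = ⊥) {v z : W} (hv : v ≠ 0)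
    (hz : z ∉ F ∙ v) {c : F} (hc : 1 + c * polar Q (A v : V) (g z) ≠ 0) :
    ∃ g' A', Cj 𝐁 Q W g g' ∧ Cell 𝐁 Q W W' g' A' ∧ (∀ y : W, A' y = A y +
      (c * polar Q (A v : V) (g y)) • A z - (c * polar Q (A z : V) (g y)) • A v) ∧
      LinearMap.det (A' : End F W) =
        (1 + c * polar Q (A v : V) (g z)) ^ 2 * LinearMap.det (A : End F W) := by
  have q0 : ∀ w : W, Q w = 0 := fun w => (h.op.ts.q _ w.2).trans (map_zero Q)
  have hr := siegel_mem_Dp (q0 (A v)) (q0 (c • A z)) (h.op.ts.b _ (A v).2 _ (c • A z).2)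
  obtain ⟨A', k1, k2, -, k3, k4⟩ := h.mod2 (v := v) (w := z) (linearIndependent_pair_of_notMem
    (by simpa) fun e => hz <| by
      obtain ⟨a, e⟩ := Submodule.mem_span_singleton.1 e
      exact Submodule.mem_span_singleton.2 ⟨a, A.injective (by simpa using e)⟩)
    ⟨hr.1, fun x => Submodule.span_le.2 (by
      rintro _ (rfl | rfl)
      exacts [Submodule.subset_span (by simp), Submodule.smul_mem _ c
        (Submodule.subset_span (by simp))]) (hr.2 x)⟩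
    (a := c * polar Q (A v : V) (g z)) (b := 0) (c := 0) (d := c * polar Q (A v : V) (g z))
    (by simp [eichler_apply, q0, plus_alt h h0, plus_skew h h0 v z])
    (by simp [eichler_apply, q0, quad_smul, plus_alt h h0, smul_smul, mul_comm]) (by simpa)
  refine ⟨_, A', k1, k2, fun y => Subtype.ext ?_, by rw [k4]; ring⟩
  simp [k3, eichler_apply, q0, quad_smul, smul_smul, mul_comm]
  module

variable [Finite F]

theorem plus_cell (hQ : LinearMap.Nondegenerate 𝐁) (h5 : 5 ≤ finrank F V) (h : Op 𝐁 Q W W')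
    (hW : MT 𝐁 Q W) (h0 : perp 𝐁 W ⊓ perp 𝐁 W' = ⊥) (hg : g ∈ OmG Q) :
    ∃ g' A, Cj 𝐁 Q W g g' ∧ Cell 𝐁 Q W W' g' A := by
  have hG := polarG_omega' hQ h5
  suffices ∃ r ∈ UR 𝐁 Q W, ∀ x ∈ W.map (g : V →ₗ[F] V), r x ∈ W' → x = 0 from
    let ⟨r, hr, h1⟩ := this
    let ⟨A, hA⟩ := cell_of_transv h hW (OmG_le hg) hr h1
    ⟨_, A, ⟨r, hr, rfl⟩, hA⟩
  obtain ⟨n, hn⟩ : ∃ n, finrank F ↥(W' ⊓ W.map (g : V →ₗ[F] V)) < n := ⟨_, Nat.lt_succ_self _⟩
  have h1 := h.finrank_add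
  rw [h0, finrank_bot, add_zero] at h1
  have q0 : ∀ {X}, TS 𝐁 Q X → ∀ w ∈ X, Q w = 0 := fun hX w hw => (hX.q w hw).trans (map_zero Q)
  induction n generalizing g with
  | zero => omega
  | succ n ih =>
    by_cases hc : ∀ x ∈ W.map (g : V →ₗ[F] V), x ∈ W' → x = 0
    · exact ⟨1, one_mem _, hc⟩
    push Not at hc
    obtain ⟨x, hx, hx', x0⟩ := hc
    have hX := h.ts.map (OmG_le hg)
    obtain ⟨y, ⟨hy', hy⟩, h2⟩ : ∃ y ∈ W' ⊓ W.map (g : V →ₗ[F] V), y ∉ F ∙ x := by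
      by_contra! hc
      have htop := reflSub_eq_top hQ (.inr (by omega))
      obtain ⟨vs, hvs, e⟩ := mem_reflSub_iff.1 (htop ▸ Subgroup.mem_top (⟨g, OmG_le hg⟩ : OG Q))
      have h3 := (MaxTS.mk (h.finrank_eq ▸ h1) (q0 h.ts')).even_prod_oRefl hQ ⟨h1, q0 h.ts⟩ vs hvs
      have h4 := ((prod_oRefl_mem_commutator_iff hQ htop vs hvs).1 (e ▸ mem_OmG.1 hg)).1
      rw [e, (h.symm.compl.disjoint.mono_right h.ts.le_perp).eq_bot, finrank_bot,
        le_antisymm hc ((Submodule.span_singleton_le_iff_mem _ _).2 (Submodule.mem_inf.2 ⟨hx', hx⟩)),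
        finrank_span_singleton x0] at h3
      simp [Nat.even_add, h4] at h3
    obtain ⟨u, hu, u1, u2⟩ := h.exists_dual hy' hx' h2
    obtain ⟨w, hw, w1, w2⟩ := h.exists_dual hx' hy' fun e => h2 <| by
      obtain ⟨c, rfl⟩ := Submodule.mem_span_singleton.1 e
      exact Submodule.mem_span_singleton.2 ⟨c⁻¹, by simp [left_ne_zero_of_smul x0]⟩
    have hr := siegel_mem_Dp (q0 h.ts u hu) (q0 h.ts w hw) (h.ts.b u hu w hw)
    have hU := Dp_le_UR h.witt h.ts (Submodule.span_le.2 (by rintro _ (rfl | rfl) <;> assumption)) hr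
    have e := eichler_apply (q0 h.ts u hu) (h.ts.b u hu w hw)
    generalize (eichler (q0 h.ts u hu) (h.ts.b u hu w hw)).1 = r at *
    have key : ∀ z ∈ W.map (g : V →ₗ[F] V), r z ∈ W' → r z = z ∧ polar Q w z = 0 := fun z hz hz' => by
      have k1 : polar Q x _ = 0 := h.ts'.b x hx' _ hz'
      have k2 : polar Q y _ = 0 := h.ts'.b y hy' _ hz'
      simp [e, u1, u2, w1, w2, q0 h.ts w hw, show polar Q x z = 0 from hX.b x hx z hz,
        show polar Q y z = 0 from hX.b y hy z hz] at k1 k2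
      simp [e, k1, k2]
    have hlt : W' ⊓ W.map ((r * g : V ≃ₗ[F] V) : V →ₗ[F] V) < W' ⊓ W.map (g : V →ₗ[F] V) := by
      rw [map_mul_equiv]
      refine SetLike.lt_iff_le_and_exists.2 ⟨?_, x, Submodule.mem_inf.2 ⟨hx', hx⟩, ?_⟩
      · rintro _ ⟨hz', ⟨z, hz, rfl⟩⟩
        exact ⟨hz', (congrArg (· ∈ _) (key z hz hz').1).mpr hz⟩
      · rintro ⟨-, ⟨z, hz, rfl⟩⟩
        exact one_ne_zero (w1.symm.trans ((polar_comm _ _ _).trans
          ((congrArg (polar Q w) (key z hz hx').1).trans (key z hz hx').2)))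
    obtain ⟨s, hs, h4⟩ := ih (mul_mem (UR_le hG h.ts hU) hg)
      ((Submodule.finrank_lt_finrank_of_lt hlt).trans_le (Nat.le_of_lt_succ hn))
    exact ⟨s * r, mul_mem hs hU, fun z hz hz' => r.map_eq_zero_iff.1
      (h4 _ (by rw [map_mul_equiv]; exact ⟨z, hz, rfl⟩) hz')⟩

theorem plus_std (hQ : LinearMap.Nondegenerate 𝐁) (h5 : 5 ≤ finrank F V) (h : Op 𝐁 Q W W')
    (hW : MT 𝐁 Q W) (h0 : perp 𝐁 W ⊓ perp 𝐁 W' = ⊥) (hg : g ∈ OmG Q) (hne : ∃ w ∈ W, g w ∉ W) :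
    ∃ g' A, Cj 𝐁 Q W g g' ∧ Std h g' A ∧ LinearMap.det (A : End F W) = 1 ∧
      ∀ c : F, (∀ v, A v = c • v) → A = 1 := by
  have hG := polarG_omega' hQ h5
  have h1 := h.finrank_add
  rw [h0, finrank_bot, add_zero] at h1
  have k : ∀ {g A}, Cell 𝐁 Q W W' g A → ∀ {v z : W}, polar Q (A v : V) (g z) ≠ 0 →
      v ≠ 0 ∧ z ∉ F ∙ v := fun h v z e => ⟨fun e1 => e (by simp [e1]), fun e1 => by
    obtain ⟨c, rfl⟩ := Submodule.mem_span_singleton.1 e1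
    simp [plus_alt h h0] at e⟩
  obtain ⟨g₁, A₁, c1, a1⟩ := plus_cell hQ h5 h hW h0 hg
  obtain ⟨v, z, h2⟩ := plus_ne a1 hW (c1.ne hne)
  obtain ⟨t, t1, t2, -⟩ := a1.dec_mem hG (c1.mem hG hW.ts hg)
  rw [Fx_eq_one h0 t1, mul_one] at t2
  obtain ⟨s, hs⟩ := (lv_mem_iff hQ h5 h (by omega) A₁).1 t2
  have s0 : s ≠ 0 := fun e => (LinearEquiv.isUnit_det' A₁).ne_zero (by simp [hs, e])
  obtain ⟨g₂, A₂, c2, a2, -, d2⟩ := plus_mod a1 h0 (k a1 h2).1 (k a1 h2).2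
    (c := (s⁻¹ - 1) / polar Q (A₁ v : V) (g₁ z)) (by simpa [h2])
  rw [div_mul_cancel₀ _ h2, hs, add_sub_cancel, pow_two, mul_mul_mul_comm, inv_mul_cancel₀ s0,
    mul_one] at d2
  have fin : ∀ {g' A}, Cj 𝐁 Q W g g' → Cell 𝐁 Q W W' g' A → LinearMap.det (A : End F W) = 1 →
      Std h g' A := fun c a d => a.std hG (c.mem hG hW.ts hg) d fun _ _ => Fx_eq_one h0
  by_cases hc : ∀ c : F, (∀ v, A₂ v = c • v) → A₂ = 1
  · exact ⟨g₂, A₂, c1.trans c2, fin (c1.trans c2) a2 d2, d2, hc⟩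
  push Not at hc
  obtain ⟨c, hc, -⟩ := hc
  obtain ⟨v, z, h2⟩ := plus_ne a2 hW ((c1.trans c2).ne hne)
  obtain ⟨y, y0, y1, y2⟩ := exists_ne_zero_mem_ker_two (V := W) (by omega)
    (𝐁 (A₂ v) ∘ₗ (g₂ : V →ₗ[F] V) ∘ₗ W.subtype) (𝐁 (A₂ z) ∘ₗ (g₂ : V →ₗ[F] V) ∘ₗ W.subtype)
  replace y1 : polar Q (A₂ v : V) (g₂ y) = 0 := y1
  replace y2 : polar Q (A₂ z : V) (g₂ y) = 0 := y2
  obtain ⟨g₃, A₃, c3, a3, e3, d3⟩ := plus_mod a2 h0 (k a2 h2).1 (z := y) (fun e => by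
    obtain ⟨c, rfl⟩ := Submodule.mem_span_singleton.1 e
    simp [left_ne_zero_of_smul y0, plus_skew a2 h0 v z, h2] at y2) (c := 1) (by simp [y1])
  rw [y1, d2] at d3
  refine ⟨g₃, A₃, (c1.trans c2).trans c3, fin ((c1.trans c2).trans c3) a3 (by simpa using d3),
    by simpa using d3, nonscalar_of (v := z) fun e => ?_⟩
  rw [e3, plus_skew a2 h0 z y, y2, neg_zero, mul_zero, zero_smul, sub_zero, one_mul, hc z,
    Submodule.add_mem_iff_right _ (Submodule.smul_mem _ _ (Submodule.mem_span_singleton_self z)),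
    Submodule.smul_mem_iff _ h2, hc y, Submodule.smul_mem_iff _ fun e => h2 (by simp [hc, e])] at e
  obtain ⟨c, rfl⟩ := Submodule.mem_span_singleton.1 e
  simp [left_ne_zero_of_smul y0, h2] at y1

end CF.Ore
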