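/-
Every element of `Ω(V)`, `dim V ≥ 7`, over a finite field is a commutator.
-/
import Cfsg.Agent.Ore.Om2

set_option autoImplicit false

namespace CF.Ore

open Module Polynomial CF.Geom CF.Cls CF.Classical QuadraticMap

variable {F V : Type*} [Field F] [AddCommGroup V] [Module F V] {Q : QuadraticForm F V}
  {W W' : Submodule F V} {g t : V ≃ₗ[F] V} {A : W ≃ₗ[F] W} [FiniteDimensional F V]

local notation "𝐁" => polarBilin Q

theorem Op.mid_ne {σ : F →+* F} {B : V →ₛₗ[σ] V →ₗ[F] F} {Q : V → F} (h : Op B Q W W') {π : V}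
    (hπ : π ∈ perp B W ⊓ perp B W') (h0 : π ≠ 0) : ∃ ρ ∈ perp B W ⊓ perp B W', B π ρ ≠ 0 := by
  by_contra! hc
  refine h0 (h.witt.nondeg π fun v => ?_)
  obtain ⟨w, hw, x, hx, ρ, hρ, rfl⟩ := h.dec3 v
  simp [hc ρ hρ, h.witt.refl (mem_perp.1 hπ.1 w hw), h.witt.refl (mem_perp.1 hπ.2 x hx)]

theorem Cell.exists_mid {σ : F →+* F} {B : V →ₛₗ[σ] V →ₗ[F] F} {Q : V → F} (h : Cell B Q W W' g A)
    {ρ : V} (hρ : ρ ∈ perp B W ⊓ perp B W') :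
    ∃ π ∈ perp B W ⊓ perp B W', Q π = Q ρ ∧ ∃ w ∈ W, g (π + w) - ρ ∈ W' := by
  have hw := h.op.witt
  obtain ⟨x, hx, h1⟩ := h.op_map.symm.dec ρ
  rw [← map_perp (mem_isom.1 h.isom).1] at h1
  obtain ⟨y, hy, h1⟩ := h1
  replace h1 : g y = ρ - x := h1
  obtain ⟨w, hw', h2⟩ := h.op.dec y
  have h3 := sub_mem hy (h.op.ts.le_perp hw')
  refine ⟨_, ⟨h3, h2⟩, ?_, w, hw', by simpa [h1]⟩
  rw [← hw.norm_add_singular (h.op.ts.q w hw') (hw.refl (mem_perp.1 h3 w hw')), sub_add_cancel,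
    ← isom_q h.isom, h1, sub_eq_add_neg, hw.norm_add_singular (h.op.ts'.q _ (neg_mem hx))
      (by simp [hw.refl (mem_perp.1 hρ.2 x hx)])]

theorem aniso_adj (h : Cell 𝐁 Q W W' g A) {v : W} (hv : 𝐁 (A v) (g v) ≠ 0) :
    ∃ π₀ ∈ perp 𝐁 W ⊓ perp 𝐁 W', Q π₀ ≠ 0 ∧ ∀ ρ ∈ perp 𝐁 W ⊓ perp 𝐁 W', Q ρ ≠ 0 →
      ∃ g' A', Cj 𝐁 Q W g g' ∧ Cell 𝐁 Q W W' g' A' ∧ A' v = (Q ρ / Q π₀) • A v ∧
        LinearMap.det (A' : End F W) = Q ρ / Q π₀ * LinearMap.det (A : End F W) ∧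
        ∀ π₁ ∈ perp 𝐁 W ⊓ perp 𝐁 W', ∀ π₂ ∈ perp 𝐁 W ⊓ perp 𝐁 W', polar Q π₀ π₂ = 0 →
          ∀ w ∈ W, g (π₁ + w) - π₂ ∈ W' → ∃ w' ∈ W, g' (π₁ + w') - (oRefl Q ρ).1 π₂ ∈ W' := by
  obtain ⟨π₀, h0, x, hx, e⟩ := h.dec3 v
  have qW : ∀ w ∈ W, Q w = 0 := fun w hw => (h.op.ts.q w hw).trans (map_zero Q)
  have qW' : ∀ w ∈ W', Q w = 0 := fun w hw => (h.op.ts'.q w hw).trans (map_zero Q)
  have p1 : ∀ {π}, π ∈ perp 𝐁 W ⊓ perp 𝐁 W' → polar Q (A v : V) π = 0 := fun hπ =>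
    mem_perp.1 hπ.1 _ (A v).2
  have p2 : ∀ {π x}, π ∈ perp 𝐁 W ⊓ perp 𝐁 W' → x ∈ W' → polar Q π x = 0 := fun hπ hx =>
    (polar_comm _ _ _).trans (mem_perp.1 hπ.2 _ hx)
  have h1 : polar Q (A v : V) x = -Q π₀ := by
    have := h.q v
    simp only [e, quad_add, qW _ (A v).2, qW' x hx, p1 h0, polar_add_left, p2 h0 hx, map_zero] at this
    linear_combination this
  have h2 : Q π₀ ≠ 0 := fun e1 => hv (by simp [e, p1 h0, h1, e1, polar_self', qW])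
  refine ⟨π₀, h0, h2, fun ρ hρ h3 => ?_⟩
  have e1 : g v + (Q ρ / Q π₀ - 1) • (A v : V) + (ρ - π₀) = (Q ρ / Q π₀) • (A v : V) + ρ + x := by
    rw [e]; module
  obtain ⟨r, hr, hU, e2, A', k1, k2, k3⟩ := h.adj1 hv (a := Q ρ / Q π₀ - 1) (by simp [h2, h3])
    (sub_mem hρ h0) (by simp [e1, quad_add, quad_smul, qW, qW' x hx, p1 hρ, p2 hρ hx, h1, h2])
  rw [add_sub_cancel] at k2 k3
  refine ⟨_, A', ⟨r, hU, rfl⟩, k1, k2, k3, fun π₁ a1 π₂ a2 a3 w hw a4 => ?_⟩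
  obtain ⟨y, hy, e3⟩ : ∃ y ∈ W', g (π₁ + w) = π₂ + y := ⟨_, a4, by abel⟩
  have a5 : polar Q (g v) (g (π₁ + w)) = 0 := (isom_b h.isom _ _).trans (by
    rw [map_add, mem_perp.1 a1.1 _ v.2, h.op.ts.b _ v.2 w hw, add_zero])
  have xy : polar Q x y = 0 := h.op.ts'.b x hx y hy
  have a6 : polar Q (A v : V) y = 0 := by
    simpa [e, e3, p1 a2, a3, p2 h0 hy, polar_comm Q x π₂, p2 a2 hx, xy] using a5
  obtain ⟨k, a7⟩ := Submodule.mem_span_singleton.1 (hr.2.2.1 (g (π₁ + w)) (by simp [e3, p1 a2, a6]))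
  have a8 : polar Q _ _ = 0 := (isom_b hr.1 _ _).trans a5
  rw [e2, e1, eq_add_of_sub_eq' a7.symm, e3] at a8
  simp only [polar_add_left, polar_add_right, polar_smul_left, polar_smul_right, p1 a2, a6, xy,
    p2 hρ hy, polar_comm Q x π₂, p2 a2 hx, polar_comm Q ρ (A v), p1 hρ, polar_comm Q x (A v), h1,
    polar_self', qW _ (A v).2, smul_eq_mul] at a8
  refine ⟨r π₁ - π₁ + w - ((Q ρ)⁻¹ * polar Q ρ π₂) • v, sub_mem (add_mem (hU.2.2 _ a1.1) hw)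
    (W.smul_mem _ v.2), ?_⟩
  rw [show π₁ + (r π₁ - π₁ + w - ((Q ρ)⁻¹ * polar Q ρ π₂) • (v : V)) =
    r (π₁ + w - ((Q ρ)⁻¹ * polar Q ρ π₂) • (v : V)) by simp [hU.2.1 w hw, hU.2.1 _ v.2]; abel,
    LinearEquiv.mul_apply, LinearEquiv.mul_apply, inv_apply_apply, map_sub, map_sub, map_smul,
    map_smul, e2, e1, eq_add_of_sub_eq' a7.symm, e3, oRefl_apply,
    show k = polar Q ρ π₂ / Q π₀ by field_simp; linear_combination -a8]
  convert W'.sub_mem hy (W'.smul_mem ((Q ρ)⁻¹ * polar Q ρ π₂) hx) using 1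
  match_scalars <;> field_simp <;> ring

variable [Finite F]

theorem aniso_std (hQ : LinearMap.Nondegenerate 𝐁) (h5 : 5 ≤ finrank F V) (h : Op 𝐁 Q W W')
    (hW : MT 𝐁 Q W) (h0 : perp 𝐁 W ⊓ perp 𝐁 W' ≠ ⊥) (h2 : finrank F ↥(perp 𝐁 W ⊓ perp 𝐁 W') ≤ 2)
    (h3 : 3 ≤ finrank F W) (hg : g ∈ OmG Q) (hne : ∃ w ∈ W, g w ∉ W) :
    ∃ g' A, Cj 𝐁 Q W g g' ∧ Std h g' A ∧ LinearMap.det (A : End F W) = 1 ∧
      ∀ c : F, (∀ v, A v = c • v) → A = 1 := by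
  have hG := polarG_omega' hQ h5
  have an : ∀ {π}, π ∈ perp 𝐁 W ⊓ perp 𝐁 W' → Q π = 0 → π = 0 := fun hπ e =>
    hW.an h hπ (e.trans (map_zero Q).symm)
  obtain ⟨g₁, A₁, c1, a1⟩ := exists_cj_cell h hW (h1_of_ne hW h h0) (OmG_le hg)
  obtain ⟨g₂, A₂, c2, a2, v, hv⟩ := a1.exists_beta hW (h1_of_ne hW h h0) (c1.ne hne)
  obtain ⟨w, w0, w1⟩ := exists_singular_of_three_le (LinearMap.BilinMap.toQuadraticMap
    (LinearMap.compl₁₂ 𝐁 (W.subtype ∘ₗ (A₂ : End F W)) ((g₂ : End F V) ∘ₗ W.subtype))) h3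
  obtain ⟨g₃, A₃, c3, a3, v, hv, hv'⟩ := a2.modR3 hW h3 hv w0 w1
  replace c3 := (c1.trans c2).trans c3
  obtain ⟨π₀, p0, p1, k⟩ := aniso_adj a3 hv
  obtain ⟨π₂, p2, p3, p4⟩ : ∃ π₂ ∈ perp 𝐁 W ⊓ perp 𝐁 W', polar Q π₀ π₂ = 0 ∧
      (π₂ ≠ 0 ∨ finrank F ↥(perp 𝐁 W ⊓ perp 𝐁 W') ≤ 1) := by
    by_cases e : 2 ≤ finrank F ↥(perp 𝐁 W ⊓ perp 𝐁 W')
    · obtain ⟨z, z0, z1⟩ := exists_ne_zero_mem_ker e (𝐁 π₀ ∘ₗ Submodule.subtype _)
      exact ⟨z, z.2, z1, .inl (by simpa using z0)⟩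
    · exact ⟨0, zero_mem _, by simp, .inr (by omega)⟩
  obtain ⟨π₁, p5, p6, w, hw, p7⟩ := a3.exists_mid p2
  obtain ⟨y, hy⟩ : ∃ y, perp 𝐁 W ⊓ perp 𝐁 W' ⊓ perp 𝐁 (F ∙ π₁) = F ∙ y := by
    refine ((Submodule.finrank_le_one_iff_isPrincipal _).1 ?_).1
    rcases p4 with e | e
    · obtain ⟨ρ, r1, r2⟩ := h.mid_ne p5 fun e1 => e (an p2 (by simp [← p6, e1]))
      exact Nat.le_of_lt_succ ((Submodule.finrank_lt_finrank_of_lt (inf_lt_left.2 fun e1 =>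
        r2 (mem_perp_singleton.1 (e1 r1)))).trans_le h2)
    · exact (Submodule.finrank_mono inf_le_left).trans e
  obtain ⟨ρ, r1, r2, r3⟩ : ∃ ρ ∈ perp 𝐁 W ⊓ perp 𝐁 W', Q ρ ≠ 0 ∧ (oRefl Q ρ).1 π₂ = π₁ := by
    by_cases e : π₁ - π₂ = 0
    · exact ⟨π₀, p0, p1, (oRefl_of_polar_eq_zero p3).trans (sub_eq_zero.1 e).symm⟩
    · have := mt (an (sub_mem p5 p2)) e
      exact ⟨_, sub_mem p5 p2, this, oRefl_sub_apply p6 this⟩
  have key : ∀ s : F, s ≠ 0 → ∃ g' A', Cj 𝐁 Q W g g' ∧ Std h g' A' ∧ A' v ∉ F ∙ v ∧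
      IsSquare (LinearMap.det (A' : End F W)) ∧ LinearMap.det (A' : End F W) =
        s ^ 2 * (Q ρ / Q π₀ * LinearMap.det (A₃ : End F W)) := fun s s0 => by
    obtain ⟨g₄, A₄, c4, a4, k1, k2, k3⟩ := k (s • ρ) (Submodule.smul_mem _ s r1)
      (by simp [quad_smul, s0, r2])
    obtain ⟨w', hw', k4⟩ := k3 π₁ p5 π₂ p2 p3 w hw p7
    rw [oRefl_smul s0, r3] at k4
    obtain ⟨t, t1, t2, t3, t4⟩ := a4.dec_mem hG ((c3.trans c4).mem hG hW.ts hg)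
    have t5 := t4 π₁ p5 π₁ p5 w' hw' k4
    obtain rfl := eq_one_of_Dp hQ h5 h (by omega) t2 (y := y) ⟨t1.1, fun z => hy ▸ ⟨t1.2 z,
      mem_perp_singleton.2 (by rw [map_sub, ← t5, isom_b t1.1, t5, sub_self])⟩⟩
    exact ⟨g₄, A₄, c3.trans c4, t3 rfl, by
      rwa [k1, Submodule.smul_mem_iff _ (by simp [quad_smul, s0, r2, p1])],
      (lv_mem_iff hQ h5 h (by omega) _).1 (by simpa using t2), by rw [k2, quad_smul]; ring⟩
  obtain ⟨-, A₄, -, -, -, ⟨s, hs⟩, k1⟩ := key 1 one_ne_zero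
  have s0 : s ≠ 0 := fun e => (LinearEquiv.isUnit_det' A₄).ne_zero (by simp [hs, e])
  obtain ⟨g₅, A₅, k2, k3, k4, -, k5⟩ := key s⁻¹ (inv_ne_zero s0)
  rw [one_pow, one_mul, hs] at k1
  exact ⟨g₅, A₅, k2, k3, by rw [k5, ← k1]; field_simp, nonscalar_of k4⟩

theorem ore_omega (hQ : LinearMap.Nondegenerate 𝐁) (h7 : 7 ≤ finrank F V) (hg : g ∈ OmG Q) :
    Com (OmG Q) g := by
  have := Fintype.ofFinite F
  have hw := isWittPair_quad Q hQ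
  have h5 : 5 ≤ finrank F V := by omega
  have hG := polarG_omega' hQ h5
  by_cases hs : ∃ c : F, ∀ v, g v = c • v
  · obtain ⟨c, hc⟩ := hs
    have := finrank_pos_iff.1 (show 0 < finrank F V by omega)
    obtain ⟨v, hv⟩ := exists_nonsingular hQ
    have h1 := isom_q (OmG_le hg) v
    rw [hc, quad_smul, mul_eq_right₀ hv] at h1
    by_cases h2 : c = 1
    · rw [show g = 1 from LinearEquiv.ext fun v => by simp [hc, h2]]; exact com_one _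
    have h3 := (sq_eq_one_iff_of_ne_zero' h1).resolve_left h2
    exact com_neg hQ (fun e => h2 (by linear_combination h3 - e)) (by omega) hg fun v => by
      simp [hc, h3]
  obtain ⟨e, he, he'⟩ := exists_singular_of_three_le Q (by omega)
  obtain ⟨W, hW, hne⟩ := exists_MT_ne hw he (by simpa) (.inl (by omega)) (OmG_le hg) hs
  obtain ⟨W', h⟩ := exists_op hw hW.ts
  have an : ∀ {π}, π ∈ perp 𝐁 W ⊓ perp 𝐁 W' → Q π = 0 → π = 0 := fun hπ e =>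
    hW.an h hπ (e.trans (map_zero Q).symm)
  have h1 := h.finrank_add
  have h2 : finrank F ↥(perp 𝐁 W ⊓ perp 𝐁 W') ≤ 2 := by
    by_contra! hc
    obtain ⟨v, v1, v2, v3⟩ := exists_singular_mem Q hc
    exact v2 (an v1 v3)
  obtain ⟨g', A, c1, h3, h4, h6⟩ : ∃ g' A, Cj 𝐁 Q W g g' ∧ Std h g' A ∧
      LinearMap.det (A : End F W) = 1 ∧ ∀ c : F, (∀ v, A v = c • v) → A = 1 := by
    by_cases h0 : perp 𝐁 W ⊓ perp 𝐁 W' = ⊥
    · exact plus_std hQ h5 h hW h0 hg hne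
    · exact aniso_std hQ h5 h hW h0 h2 (by omega) hg hne
  refine c1.com hG hW.ts ?_
  have hq := Fintype.one_lt_card (α := F)
  have k : (Fintype.card F = 2 → 4 ≤ finrank F W) → ∃ b ν, GP (RingHom.id F) b (finrank F W - 1) ν ∧
      ∀ t ∈ Fx 𝐁 Q W W', t ∈ OmG Q → ∀ (μ : F) (c₀ : F[X]), μ = ν → c₀.natDegree < finrank F W - 1 →
        c₀.eval μ ≠ 0 → c₀.eval μ⁻¹ ≠ 0 →
        (∀ π ∈ perp 𝐁 W ⊓ perp 𝐁 W', aeval (t : End F V) c₀ π = 0) → Com (OmG Q) g' := fun hm => by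
    obtain ⟨b, ν, hb⟩ := exists_gp (F := F) (σ := RingHom.id F) (s := 1) (d := finrank F W - 1)
      (by simp) (one_dvd _) (by omega) (by
        obtain ⟨n, hn⟩ : ∃ n, finrank F W - 1 = n + 2 := ⟨finrank F W - 3, by omega⟩
        have h7 : 3 ≤ Fintype.card F ^ (n + 1) := by
          by_cases e : Fintype.card F = 2
          · exact le_trans (by simp [e]) (Nat.pow_le_pow_right (by omega)
              (show 2 ≤ n + 1 by have := hm e; omega))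
          · exact le_trans (by omega) (Nat.le_self_pow (by omega) _)
        rw [hn, show n + 2 - 1 = n + 1 from rfl, pow_succ _ (n + 1)]
        have := Nat.mul_le_mul_left (Fintype.card F ^ (n + 1)) hq
        omega)
    refine ⟨b, ν, hb, fun t t1 t2 μ c₀ e c1 c2 c3 c4 => h3.com_ii hG (Dp_sing hQ) h4 h6 hb.monic
      (by rw [hb.deg]; omega) hb.coeff_ne (e ▸ hb.ne) (eval_ne_of_irr hb.irr (by rw [hb.deg]; omega) _)
      t1 c4 (hb.gd1 (fun _ => rfl) (by omega) (e ▸ hb.ne) c1 c2 c3) fun Z hZ => mul_mem ?_ t2⟩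
    exact (lv_mem_iff hQ h5 h (by omega) Z).2 ⟨ν, by rw [hZ, hb.det, e]⟩
  by_cases h0 : perp 𝐁 W ⊓ perp 𝐁 W' = ⊥
  · rw [h0, finrank_bot] at h1
    obtain ⟨b, ν, hb, k⟩ := k fun _ => by omega
    exact k 1 (one_mem _) (one_mem _) ν 1 rfl (by simp; omega) (by simp) (by simp)
      fun π hπ => by rw [h0] at hπ; simpa using hπ
  by_cases h8 : Fintype.card F = 2
  swap
  · obtain ⟨b, ν, hb, k⟩ := k fun e => (h8 e).elim
    have : ν ≠ 1 := pow_one ν ▸ hb.pow_ne one_pos (by omega)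
    exact k 1 (one_mem _) (one_mem _) ν (X - C 1) rfl (by rw [natDegree_X_sub_C]; omega)
      (by simpa [sub_eq_zero]) (by simpa [sub_eq_zero]) fun π _ => by simp
  have h9 : (2 : F) = 0 := by simpa [h8] using FiniteField.cast_card_eq_zero F
  have h10 : ∀ c : F, c ≠ 0 → c = 1 := fun c hc => by
    simpa [h8] using FiniteField.pow_card_sub_one_eq_one c hc
  obtain ⟨x, hx, x0⟩ := Submodule.exists_mem_ne_zero_of_ne_bot h0
  have r1 : ∀ {π}, π ∈ perp 𝐁 W ⊓ perp 𝐁 W' → (oRefl Q π).1 ∈ Fx 𝐁 Q W W' := fun hπ =>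
    ⟨Subtype.prop _, fun z => (Submodule.span_singleton_le_iff_mem _ _).2 hπ ((oRefl_mem_Dp _).2 z)⟩
  by_cases h11 : finrank F W = 3
  · refine h3.com_fac hG (fun _ => rfl) (ir_two fun x => ?_) (fac23 h8 h11 h4 h6) (fun Z hZ =>
      (lv_mem_iff hQ h5 h (by omega) Z).2 (isSquare_of_two_eq_zero h9 _)) (fun Z _ k hk => ?_)
      (by omega)
    · by_cases e : x = 0 <;> simp [e, h10 x]
    have htop := reflSub_eq_top hQ (.inr (by omega))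
    obtain ⟨vs, hvs, e⟩ := mem_reflSub_iff.1 (htop ▸ Subgroup.mem_top (⟨k, hk⟩ : OG Q))
    obtain rfl : (vs.map (oRefl Q)).prod.1 = k := congrArg Subtype.val e
    rcases Nat.even_or_odd vs.length with h12 | h12
    · exact ⟨1, by simp, by simpa using mem_OmG.2 (prod_oRefl_mem_commutator hQ vs hvs h12
        (isSquare_of_two_eq_zero h9 _))⟩
    · exact ⟨_, (lv_comm h Z (r1 hx)).symm, by simpa using mem_OmG.2 (prod_oRefl_mem_commutator hQ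
        (vs ++ [x]) (by simpa [or_imp, forall_and] using ⟨hvs, mt (an hx) x0⟩)
        (by simpa using h12.add_one) (isSquare_of_two_eq_zero h9 _))⟩
  obtain ⟨b, ν, hb, k⟩ := k fun _ => by omega
  obtain ⟨y, hy, xy⟩ := h.mid_ne hx x0
  have qx := h10 _ (mt (an hx) x0)
  have qy := h10 _ (mt (an hy) fun e => xy (by simp [e]))
  replace xy : polar Q x y = 1 := h10 _ xy
  have h12 : y ∉ F ∙ x := fun e => by
    obtain ⟨c, rfl⟩ := Submodule.mem_span_singleton.1 e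
    simp [polar_self', h9] at xy
  have h13 : Submodule.span F {x, y} = perp 𝐁 W ⊓ perp 𝐁 W' :=
    Submodule.eq_of_le_of_finrank_le (Submodule.span_le.2 (by rintro _ (rfl | rfl) <;> assumption))
      (by rwa [finrank_span_pair (linearIndependent_pair_of_notMem x0 h12)])
  have h14 : (X ^ 2 + X + 1 : F[X]).natDegree = 2 := by compute_degree!
  have h15 : (1 + 1 + 1 : F) ≠ 0 := fun e =>
    one_ne_zero (by linear_combination e - h9 : (1 : F) = 0)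
  refine k _ (mul_mem (r1 hx) (r1 hy)) (oRefl_mul_mem_OmG hQ (by simp [qx]) (qy.trans qx.symm)) ν
    (X ^ 2 + X + 1) rfl (by omega) (by simpa [h10 ν hb.ne]) (by simpa [h10 ν hb.ne]) fun π hπ => ?_
  obtain ⟨a, c, rfl⟩ := Submodule.mem_span_pair.1 (h13 ▸ hπ)
  simp [pow_two, oRefl_apply, qx, qy, xy, polar_comm Q y x, polar_self', h9]
  match_scalars <;> grind

/-- `Ω` as an abstract group -/
noncomputable def omGEquiv {ι : Type} [Fintype ι] [DecidableEq ι] (Q : QuadraticForm F (ι → F)) :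
    Cfsg.Omega F Q ≃* OmG Q :=
  (omegaEquiv Q).trans (Subgroup.equivMapOfInjective _ _ (Subgroup.subtype_injective _))

end CF.Ore
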