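/-
Every element of a finite symplectic group is a commutator (three small exceptions).
-/
import Cfsg.Agent.Ore.G

set_option autoImplicit false

namespace CF.Ore

open Module Polynomial CF.Geom CF.Cls CF.Classical

universe u

variable {F : Type*} {V : Type u} [Field F] [AddCommGroup V] [Module F V] [FiniteDimensional F V]
  {B : LinearMap.BilinForm F V} {W W' : Submodule F V} {g : V ≃ₗ[F] V} {A : W ≃ₗ[F] W}

omit [FiniteDimensional F V] in
theorem tr_sp : Tr B (fun _ => (0 : F)) := fun _ _ _ _ => ⟨1, one_ne_zero, rfl⟩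

omit [FiniteDimensional F V] in
theorem sp_pi (hW : MT B (fun _ => (0 : F)) W) (h : Op B (fun _ => 0) W W') :
    perp B W ⊓ perp B W' = ⊥ := eq_bot_iff.2 fun _ hπ => hW.an h hπ rfl

theorem sp_finrank (hw : IsWittPair _ B (fun _ => (0 : F))) (hW : MT B (fun _ => (0 : F)) W) :
    2 * finrank F W = finrank F V := by
  obtain ⟨W', h⟩ := exists_op hw hW.ts
  rw [← h.finrank_add, sp_pi hW h, finrank_bot, add_zero]

theorem com_scalar_sp [Finite F] (hB : B.Nondegenerate) (hA : B.IsAlt) (hg : g ∈ SpG B) {c : F}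
    (hc : ∀ v, g v = c • v) : Com (SpG B) g := by
  have hw := isWittPair_alt B hB hA
  obtain ⟨m, e, f, h, hm⟩ := exists_symp_frame hB hA
  obtain ⟨b, hb⟩ := h.exists_basis' hw (by simpa using hm)
  have fe : ∀ i j, B (f i) (e j) = -B (e j) (f i) := fun i j => (hA.neg_eq _ _).symm
  by_cases h1 : c = -1
  · obtain ⟨x, y, hxy⟩ := exists_binary_eq (F := F) one_ne_zero one_ne_zero (-1)
    obtain ⟨k, k1, k2, k3⟩ := h.exists_isom hw (e' := f) (f' := fun i => -e i)
      ⟨fun _ => rfl, fun _ => rfl, h.ff, by simp [h.ee], by simp [fe, h.ef_self],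
        fun i j hij => by simp [fe, h.ef_ne j i hij.symm]⟩
    obtain ⟨l, l1, l2, l3⟩ := h.exists_isom hw (e' := fun i => x • e i + y • f i)
      (f' := fun i => y • e i - x • f i) ⟨fun _ => rfl, fun _ => rfl,
        fun i j => by simp [h.ee, h.ff, fe, h.ef, eq_comm, mul_comm],
        fun i j => by simp [h.ee, h.ff, fe, h.ef, eq_comm, mul_comm],
        fun i => by simp [h.ee, h.ff, fe, h.ef_self]; linear_combination -hxy,
        fun i j hij => by simp [h.ee, h.ff, fe, h.ef_ne i j hij, h.ef_ne j i hij.symm]⟩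
    refine ⟨k, k1, l, l1, ?_⟩
    rw [eq_mul_inv_iff_mul_eq, eq_mul_inv_iff_mul_eq]
    refine b.ext' fun i => ?_
    rcases i with i | i <;> simp [hb, hc, h1, k2, k3, l2, l3] <;> module
  · rw [show g = 1 from b.ext' fun i => ?_]
    · exact com_one _
    obtain ⟨i, hi⟩ : Nonempty (Fin m) := ⟨i.elim id id⟩
    have := isom_b hg (e ⟨i, hi⟩) (f ⟨i, hi⟩)
    simp only [hc, map_smul, LinearMap.smul_apply, h.ef_self, smul_eq_mul, mul_one] at this
    simp [hc, (mul_self_eq_one_iff.1 this).resolve_right h1]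

theorem sp_adj (h : Cell B (fun _ => 0) W W' g A) {v : W} (hv : B (A v) (g v) ≠ 0) :
    ∃ g' A', Cj B (fun _ => 0) W g g' ∧ Cell B (fun _ => 0) W W' g' A' ∧
      LinearMap.det (A' : End F W) = 1 ∧ (A v ∉ F ∙ v → A' v ∉ F ∙ v) := by
  have h0 : LinearMap.det (A : End F W) ≠ 0 := (LinearEquiv.isUnit_det' A).ne_zero
  obtain ⟨r, -, hr, -, A', k1, k2, k3⟩ := h.adj1 hv (a := (LinearMap.det (A : End F W))⁻¹ - 1)
    (by simpa) (zero_mem _) rfl
  exact ⟨_, A', ⟨r, hr, rfl⟩, k1, by simp [k3, h0], fun e => by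
    rwa [k2, Submodule.smul_mem_iff _ (by simpa)]⟩

theorem sp_cell (hw : IsWittPair _ B (fun _ => (0 : F))) (hW : MT B (fun _ => (0 : F)) W)
    (hg : g ∈ SpG B) (hne : ∃ w ∈ W, g w ∉ W) :
    ∃ W' g' A, Cj B (fun _ => 0) W g g' ∧ Cell B (fun _ => 0) W W' g' A ∧
      LinearMap.det (A : End F W) = 1 ∧ ((∃ s : F, s ≠ 0 ∧ s * s ≠ 1) →
        ∀ c : F, (∀ v, A v = c • v) → A = 1) := by
  obtain ⟨W', h⟩ := exists_op hw hW.ts
  obtain ⟨g₁, A₁, c1, h1⟩ := exists_cj_cell h hW (tr_sp.h1 hW.ts) hg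
  obtain ⟨g₂, A₂, c2, h2, v, hv⟩ := h1.exists_beta hW (tr_sp.h1 hW.ts) (c1.ne hne)
  by_cases hs : (∃ s : F, s ≠ 0 ∧ s * s ≠ 1) ∧ 2 ≤ finrank F W
  · obtain ⟨⟨s, s0, s1⟩, hm⟩ := hs
    obtain ⟨g₃, A₃, c3, h3, v, hv, hv'⟩ := h2.modR2 hW tr_sp hm (by rw [sp_pi hW h, finrank_bot]; omega)
      s0 s1 hv
    obtain ⟨g₄, A₄, c4, h4, k1, k2⟩ := sp_adj h3 hv
    exact ⟨W', g₄, A₄, ((c1.trans c2).trans c3).trans c4, h4, k1, fun _ => nonscalar_of (k2 hv')⟩
  obtain ⟨g₄, A₄, c4, h4, k1, -⟩ := sp_adj h2 hv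
  refine ⟨W', g₄, A₄, (c1.trans c2).trans c4, h4, k1, fun hs' c hc => LinearEquiv.ext fun w => ?_⟩
  have : finrank F W = 0 ∨ finrank F W = 1 := by by_contra; exact hs ⟨hs', by omega⟩
  rw [det_of_scalar hc] at k1
  rcases this with e | e
  · exact (finrank_zero_iff.1 e).elim _ _
  · simp [hc, show c = 1 by simpa [e] using k1]

theorem ore_sp_big [Finite F] (hB : B.Nondegenerate) (hA : B.IsAlt) {s : F} (s0 : s ≠ 0)
    (s1 : s * s ≠ 1) (hg : g ∈ SpG B) : Com (SpG B) g := by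
  have hw := isWittPair_alt B hB hA
  have hG := polarG_sp hB hA
  by_cases hs : ∃ c : F, ∀ v, g v = c • v
  · exact com_scalar_sp hB hA hg hs.choose_spec
  obtain ⟨e, he⟩ : ∃ e : V, e ≠ 0 := by
    by_contra! hc; exact hs ⟨1, fun v => by simp [hc v]⟩
  obtain ⟨W, hW, hne⟩ := exists_MT_ne hw he rfl (.inr tr_sp) hg hs
  obtain ⟨W', g', A, c1, h1, h2, h3⟩ := sp_cell hw hW hg hne
  obtain ⟨u', hu', u, hu, e⟩ := h1.std hG h1.isom h2 fun t _ => Fx_eq_one (sp_pi hW h1.op)
  obtain ⟨Z, k, n, z1, z2⟩ : ∃ (Z k : W ≃ₗ[F] W) (n : ℕ),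
      ((Z : End F W) - algebraMap F _ s) ^ n = 0 ∧ A * Z = k * Z * k⁻¹ := by
    by_cases h4 : A = 1
    · exact ⟨LinearEquiv.smulOfNeZero F W s s0, 1, 1, by ext; simp, by simp [h4]⟩
    have h5 : ∀ c : F, (A : End F W) ≠ c • 1 := fun c hc =>
      h4 (h3 ⟨s, s0, s1⟩ c fun v => by simpa using LinearMap.congr_fun hc v)
    obtain ⟨Z, ⟨⟨n, z1⟩, z2⟩, z3⟩ := lev_unip ⟨s, s0, fun e => s1 (by simp [e])⟩ (by
      obtain ⟨φ, v, h6, h7⟩ := exists_hyperplane_not_inv h5
      simpa using (linearIndependent_pair_of_notMem (x := v) (y := A v) (fun e => by simp [e] at h7)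
        fun e => by
          obtain ⟨c, e⟩ := Submodule.mem_span_singleton.1 e
          simp [← e, h6] at h7).fintype_card_le_finrank) h5 h2
    obtain ⟨k, hk⟩ := RUn.sim ⟨⟨n, z1⟩, z2⟩ z3 rfl
    obtain ⟨Z', hZ⟩ := exists_equiv_of_det (Z := s • Z) (by
      rw [LinearMap.det_smul, det_of_nilpotent_sub one_ne_zero ⟨n, by simpa using z1⟩]; simp [s0])
    refine ⟨Z', k, n, ?_, eq_mul_inv_of_mul_eq (LinearEquiv.ext fun v => ?_)⟩
    · rw [hZ, show s • Z - algebraMap F _ s = s • (Z - 1) by ext; simp [smul_sub], _root_.smul_pow, z1,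
        smul_zero]
    · have e : ∀ v, Z' v = s • Z v := LinearMap.congr_fun hZ
      simp [e, hk]
  refine c1.com hG hW.ts (e ▸ com_i hG h1.op hu' hu (one_mem _) (c := (X - C s) ^ n) (c₀ := 1)
    (fun w => by simp [z1]) (fun π hπ => by simpa [sp_pi hW h1.op] using hπ)
    ⟨isCoprime_one_right, ?_, isCoprime_one_right⟩ (mul_mem (h1.op.lv_isom _) (one_mem _))
    (h1.op.lv_isom _) z2)
  rw [map_pow, cr_X_sub_C s0]
  exact (cop_X_sub (by simpa [sub_eq_zero] using fun e => s1 (by nth_rw 2 [e]; simp [s0]))).pow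

theorem eq_one_or_neg [Fintype F] (h : Fintype.card F ≤ 3) {c : F} (hc : c ≠ 0) :
    c = 1 ∨ c = -1 := by
  have h1 := FiniteField.pow_card_sub_one_eq_one c hc
  have h2 := Fintype.one_lt_card (α := F)
  interval_cases Fintype.card F
  · exact .inl (by simpa using h1)
  · exact sq_eq_one_iff_of_ne_zero' h1

theorem ore_sp_base [Fintype F] (hB : B.Nondegenerate) (hA : B.IsAlt) (h3 : Fintype.card F ≤ 3)
    (hm : finrank F V = 6 ∨ finrank F V = 4 ∧ Fintype.card F = 3) (hg : g ∈ SpG B) :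
    Com (SpG B) g := by
  have hw := isWittPair_alt B hB hA
  have hG := polarG_sp hB hA
  by_cases hs : ∃ c : F, ∀ v, g v = c • v
  · exact com_scalar_sp hB hA hg hs.choose_spec
  obtain ⟨e, he⟩ : ∃ e : V, e ≠ 0 := by
    by_contra! hc; exact hs ⟨1, fun v => by simp [hc v]⟩
  obtain ⟨W, hW, hne⟩ := exists_MT_ne hw he rfl (.inr tr_sp) hg hs
  obtain ⟨W', g', A, c1, h1, h2, -⟩ := sp_cell hw hW hg hne
  have h4 := h1.std hG h1.isom h2 fun t _ => Fx_eq_one (sp_pi hW h1.op)
  have h5 := sp_finrank hw hW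
  have k : ∀ {p p' d}, IR (RingHom.id F) p p' → Fac A p p' d → Com (SpG B) g := fun hp hA =>
    c1.com hG hW.ts (h4.com_fac hG (fun _ => rfl) hp hA (fun Z _ => h1.op.lv_isom Z)
      (fun Z _ k hk => ⟨1, by simp, by simpa⟩) (by omega))
  have k3 : Fintype.card F = 3 → ∀ x : F, x ^ 3 = x := fun e x => e ▸ FiniteField.pow_card x
  rcases hm with hm | ⟨hm, hq⟩
  · have h6 : finrank F W = 3 := by omega
    have h7 : ∀ c : F, (∀ v, A v = c • v) → A = 1 := fun c hc => LinearEquiv.ext fun v => by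
      rw [det_of_scalar hc, h6] at h2
      obtain e | e := eq_one_or_neg h3 (c := c) fun e => by simp [e] at h2
      · simp [hc, e]
      · simp [hc, show c = 1 by rw [← h2, e]; ring]
    have h8 := Fintype.one_lt_card (α := F)
    interval_cases hq : Fintype.card F
    · refine k (ir_two fun x => ?_) (fac23 hq h6 h2 h7)
      have := FiniteField.pow_card x
      rw [hq] at this
      linear_combination (x ^ 2 + x + 1) * this
    · exact k (ir_three (k3 rfl)) (fac33 hq h6 h2 h7)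
  · refine k (ir_three' (k3 hq) fun e => ?_) (fac32 hq (by omega) h2)
    have := FiniteField.cast_card_eq_zero F
    rw [hq] at this
    exact one_ne_zero (by linear_combination this - e : (1 : F) = 0)

theorem ore_sp_matched [Fintype F] (hB : B.Nondegenerate) (hA : B.IsAlt) (h3 : Fintype.card F ≤ 3)
    (hm : 8 ≤ finrank F V) (hg : g ∈ SpG B)
    (hE : ∀ (c : F) (x y : V), g x = c • x → g y = c • y → B x y = 0) : Com (SpG B) g := by
  have hw := isWittPair_alt B hB hA
  have hG := polarG_sp hB hA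
  have hT : TS B (fun _ => 0) (End.eigenspace (g : End F V) 1 ⊔ End.eigenspace (g : End F V) (-1)) := by
    refine ⟨fun _ _ => rfl, fun x hx y hy => ?_⟩
    obtain ⟨a, ha, b, hb, rfl⟩ := Submodule.mem_sup.1 hx
    obtain ⟨c, hc, d, hd, rfl⟩ := Submodule.mem_sup.1 hy
    rw [End.mem_eigenspace_iff] at ha hb hc hd
    have k : ∀ x y, g x = (1 : F) • x → g y = (-1 : F) • y → B x y = 0 := fun x y hx hy => by
      by_cases h2 : (1 : F) = -1
      · exact hE 1 x y hx (h2 ▸ hy)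
      have := isom_b hg x y
      simp only [hx, hy, map_smul, smul_eq_mul, one_smul] at this
      exact mul_left_cancel₀ (sub_ne_zero.2 h2) (by linear_combination -this)
    simp [hE _ a c ha hc, hE _ b d hb hd, k a d ha hd, hw.refl (k c b hc hb)]
  obtain ⟨U, hU⟩ := Submodule.exists_isCompl
    (End.eigenspace (g : End F V) 1 ⊔ End.eigenspace (g : End F V) (-1))
  have h1 := Submodule.finrank_add_eq_of_isCompl hU
  have h2 := hw.two_mul_finrank_le hT.le_perp
  obtain ⟨v, v1, v0, v2⟩ := exists_singular_mem (LinearMap.BilinMap.toQuadraticMap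
    (B.compRight (g : End F V))) (U := U) (by omega)
  have v3 : g v ∉ F ∙ v := fun e => by
    obtain ⟨c, c0, e⟩ := exists_ne_zero_smul_of_mem v0 e
    refine v0 (Submodule.disjoint_def.1 hU.disjoint v ?_ v1)
    rcases eq_one_or_neg h3 c0 with rfl | rfl
    exacts [Submodule.mem_sup_left (End.mem_eigenspace_iff.2 e),
      Submodule.mem_sup_right (End.mem_eigenspace_iff.2 e)]
  obtain ⟨W, hW, w1, w2, hne⟩ := exists_MT_matched hw tr_sp (k := 0) (fun c => ⟨_, le_rfl,
    fun x hx => mem_perp.2 fun y hy => hE c y x (End.mem_eigenspace_iff.1 hy)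
      (End.mem_eigenspace_iff.1 hx), le_rfl⟩) (by omega)
    (fun W hW => by have := sp_finrank hw hW; omega) hg rfl v2 v3
  obtain ⟨W', g', A, c1, h1, h2, -⟩ := sp_cell hw hW hg hne
  have h5 := sp_finrank hw hW
  obtain ⟨b, ν, hb⟩ := exists_gp (σ := RingHom.id F) (s := 1) (d := finrank F W - 1) (by simp)
    (one_dvd _) (by omega) (by
      obtain ⟨n, hn⟩ : ∃ n, finrank F W - 1 = n + 3 := ⟨finrank F W - 4, by omega⟩
      have h6 := Fintype.one_lt_card (α := F)
      have h7 : 2 ^ 2 ≤ Fintype.card F ^ (n + 2) :=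
        (Nat.pow_le_pow_left h6 2).trans (Nat.pow_le_pow_right (by omega) (by omega))
      rw [hn, show n + 3 - 1 = n + 2 from rfl, pow_succ _ (n + 2)]
      have := Nat.mul_le_mul_left (Fintype.card F ^ (n + 2)) h6
      omega)
  refine c1.com hG hW.ts ((h1.std hG h1.isom h2 fun t _ => Fx_eq_one (sp_pi hW h1.op)).com_iii hG h2
    w1 (c1.eq w1 w2 ▸ w2) (c1.eq w1 w2 ▸ v3) hb.monic (by rw [hb.deg]; omega) hb.coeff_ne
    (μ := 1) (by simp) (eval_ne_of_irr hb.irr (by rw [hb.deg]; omega) _)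
    (fun π hπ => by simpa [sp_pi hW h1.op] using hπ) (hb.gd1_one (fun _ => rfl) (by omega) one_ne_zero)
    fun Z _ => h1.op.lv_isom Z)

theorem ore_sp_small [Fintype F] (h3 : Fintype.card F ≤ 3) (m : ℕ) : ∀ (V : Type u) [AddCommGroup V]
    [Module F V] [FiniteDimensional F V] (B : LinearMap.BilinForm F V), B.Nondegenerate → B.IsAlt →
    finrank F V = 2 * m + 6 → ∀ g ∈ SpG B, Com (SpG B) g := by
  induction m with
  | zero => exact fun V _ _ _ B hB hA hm g hg => ore_sp_base hB hA h3 (.inl hm) hg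
  | succ m ih =>
    intro V _ _ _ B hB hA hm g hg
    by_cases hE : ∀ (c : F) (x y : V), g x = c • x → g y = c • y → B x y = 0
    · exact ore_sp_matched hB hA h3 (by omega) hg hE
    push Not at hE
    obtain ⟨c, x, y, hx, hy, hxy⟩ := hE
    have hw := isWittPair_alt B hB hA
    have hU := hw.disjoint_hyperbolic (hA x) (hA y) hxy
    have h1 : ∀ u ∈ Submodule.span F {x, y}, g u = c • u := fun u hu => by
      obtain ⟨a, b, rfl⟩ := Submodule.mem_span_pair.1 hu
      simp [hx, hy, smul_comm c]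
    obtain ⟨g₁, k1, g₂, k2, k3, -, k4⟩ := com_break hw hU hg
      (fun u hu => h1 u hu ▸ Submodule.smul_mem _ c hu) ⊤
    simp only [Subgroup.comap_top, inf_top_eq] at k4
    have h2 := hw.finrank_perp (Submodule.span F {x, y})
    rw [IsWittPair.finrank_span_hyperbolic (hA x) hxy] at h2
    exact k4 (com_scalar_sp (hw.restrict hU).nondegenerate (fun u => hA u) k1 (c := c)
      fun u => Subtype.ext ((k3 u).trans (h1 u u.2)))
      (ih _ _ (hw.restrict (hw.disjoint_perp_perp hU)).nondegenerate (fun u => hA u) (by omega) _ k2)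

theorem ore_sp [Fintype F] (hB : B.Nondegenerate) (hA : B.IsAlt) {m : ℕ} (hm : finrank F V = 2 * m)
    (h0 : 1 ≤ m) (h1 : m = 1 → 4 ≤ Fintype.card F) (h2 : m = 2 → 3 ≤ Fintype.card F)
    (hg : g ∈ SpG B) : Com (SpG B) g := by
  by_cases h3 : Fintype.card F ≤ 3
  · by_cases h4 : m = 2
    · exact ore_sp_base hB hA h3 (.inr ⟨by omega, by have := h2 h4; omega⟩) hg
    · exact ore_sp_small h3 (m - 3) V B hB hA (by by_contra; have := h1 (by omega); omega) g hg
  obtain ⟨b, ν, hb⟩ := exists_gp (F := F) (σ := RingHom.id F) (s := 1) (d := 1) (by simp) (one_dvd _)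
    one_ne_zero (by simp; omega)
  exact ore_sp_big hB hA hb.ne (sq ν ▸ hb.pow_ne two_pos (by omega)) hg

end CF.Ore
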