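/-
Special unitary groups: scalars are commutators, normal forms in the big cell.
-/
import Cfsg.Agent.Ore.Om3

set_option autoImplicit false

namespace CF.Ore

open Module Polynomial CF.Geom CF.Cls CF.Classical

variable {F V : Type*} [Field F] [AddCommGroup V] [Module F V] {σ : F →+* F}
  {B : V →ₛₗ[σ] V →ₗ[F] F} {W W' : Submodule F V} {g t : V ≃ₗ[F] V} {A : W ≃ₗ[F] W}
  [FiniteDimensional F V]

local notation "𝐐" => fun x => B x x

theorem com_scalar_model [Finite F] (hH : IsHerm B) (hB : B.Nondegenerate) {n : ℕ}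
    (hn : finrank F V = n + 1) {c l : F} (hc : ∀ v, g v = c • v) (h1 : σ c * c = 1)
    (h2 : c ^ (n + 1) = 1) (h : Fin (n + 1)) (h3 : h + h = 0) (h4 : σ l * l * c ^ h.1 = 1)
    (h5 : l ^ (n + 1) * c ^ (∑ i ∈ Finset.range (n + 1), i) = 1) : Com (SUG B) g := by
  let B₀ := (hermSesq (Fin (n + 1)) σ).compl₂ (LinearMap.funLeft F F (· + h))
  have b0 : ∀ x y, B₀ x y = ∑ i, σ (x i) * y (i + h) := fun x y => rfl
  have hh : ∀ i, i + h + h = i := fun i => by rw [add_assoc, h3, add_zero]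
  obtain ⟨e, he⟩ := exists_equiv_herm hH.ne_id hH.invol (B := B₀) (B' := B) ⟨fun x y => by
      rw [b0, b0, ← Equiv.sum_comp (Equiv.addRight h)]; simp [hH.invol, hh, mul_comm]⟩
    ⟨fun x hx => funext fun i => by simpa [b0, Pi.single_apply] using hx (Pi.single (i + h) 1),
      fun x hx => funext fun i => by
        have := hx (Pi.single (i + h) 1)
        rw [b0, Finset.sum_eq_single (i + h) (fun k _ hk => by simp [hk]) (by simp)] at this
        simpa [hh] using this⟩ hH.symm hB (by simp [hn])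
  have k : ∀ M : Matrix (Fin (n + 1)) (Fin (n + 1)) F, M.det = 1 →
      (∀ x y, B₀ (M.mulVec x) (M.mulVec y) = B₀ x y) →
      ∃ a ∈ SUG B, ∀ x, a (e x) = e (M.mulVec x) := fun M d hM => by
    obtain ⟨a, ha⟩ := exists_equiv_of_det (Z := Matrix.toLin' M) (by simp [d])
    have ha' : ∀ x, a x = M.mulVec x := LinearMap.congr_fun ha
    refine ⟨conjLE e a, mem_SUG.2 ⟨fun u v => ?_, ?_⟩, fun x => by simp [conjLE, ha']⟩
    · simp [conjLE, he, ha', hM, ← he]
    · rw [← LinearEquiv.coe_det, det_conjLE, LinearEquiv.coe_det, ha]; simpa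
  have hχ : ∀ i j : Fin (n + 1), c ^ (i + j).1 = c ^ i.1 * c ^ j.1 := fun i j => by
    rw [Fin.val_add, ← pow_eq_pow_mod _ h2, pow_add]
  obtain ⟨a, a1, a2⟩ := k (Matrix.diagonal fun i => l * c ^ i.1)
    (by simp [Finset.prod_mul_distrib, Finset.prod_pow_eq_pow_sum, Fin.sum_univ_eq_sum_range
      (fun i => i), h5]) fun x y => by
    simp only [b0, Matrix.mulVec_diagonal, map_mul, map_pow, hχ]
    refine Finset.sum_congr rfl fun i _ => ?_
    have : (σ c * c) ^ i.1 = 1 := by rw [h1, one_pow]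
    linear_combination (σ (x i) * y (i + h) * (σ c * c) ^ i.1) * h4 + σ (x i) * y (i + h) * this
  obtain ⟨s, s0, s1⟩ : ∃ s : F, s ≠ 0 ∧
      s * (σ s)⁻¹ * ((Equiv.addRight (1 : Fin (n + 1))).permMatrix F).det = 1 := by
    rw [Matrix.det_permutation]
    rcases Int.units_eq_one_or (Equiv.Perm.sign (Equiv.addRight (1 : Fin (n + 1)))) with e | e
    · exact ⟨1, one_ne_zero, by simp [e]⟩
    · obtain ⟨s, s0, s1⟩ := exists_skew_ne_zero hH.ne_id hH.invol
      exact ⟨s, s0, by simp [e, s1, s0]⟩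
  obtain ⟨b, b1, b2⟩ := k (Matrix.diagonal (fun i => (if i = 0 then s else 1) *
      if i = h then (σ s)⁻¹ else 1) * (Equiv.addRight (1 : Fin (n + 1))).permMatrix F)
    (by rw [Matrix.det_mul, Matrix.det_diagonal, Finset.prod_mul_distrib]; simpa using s1) fun x y => by
    rw [b0 x, ← Equiv.sum_comp (Equiv.addRight 1)]
    simp only [b0, ← Matrix.mulVec_mulVec, Matrix.mulVec_diagonal, Matrix.permMatrix_mulVec,
      map_mul, Function.comp, Equiv.coe_addRight, add_right_comm _ h, add_eq_right,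
      show ∀ i, i + h = 0 ↔ i = h from fun i => by rw [← h3, add_left_inj]]
    refine Finset.sum_congr rfl fun i _ => ?_
    have : σ s ≠ 0 := by simpa
    split_ifs <;> simp [hH.invol] <;> field_simp
  refine ⟨b, b1, a, a1, ?_⟩
  rw [eq_mul_inv_iff_mul_eq, eq_mul_inv_iff_mul_eq]
  ext v
  obtain ⟨x, rfl⟩ := e.surjective v
  simp only [LinearEquiv.mul_apply, a2, b2, hc, ← map_smul]
  congr 1
  ext i
  have : c ^ (1 : Fin (n + 1)).1 = c := by rw [Fin.val_one', ← pow_eq_pow_mod _ h2, pow_one]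
  simp only [← Matrix.mulVec_mulVec, Matrix.mulVec_diagonal, Matrix.permMatrix_mulVec,
    Function.comp, Equiv.coe_addRight, Pi.smul_apply, hχ, this, smul_eq_mul]
  ring

theorem com_scalar_su [Fintype F] {q : ℕ} (hF : Fintype.card F = q ^ 2) (hσ : ∀ x, σ x = x ^ q)
    (hH : IsHerm B) (hB : B.Nondegenerate) (hg : g ∈ SUG B) {c : F} (hc : ∀ v, g v = c • v) :
    Com (SUG B) g := by
  by_cases h0 : c = 1
  · rw [show g = 1 from LinearEquiv.ext fun v => by simp [hc, h0]]; exact com_one _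
  have h2 := (det_of_scalar hc).symm.trans (mem_SUG.1 hg).2
  rcases hn : finrank F V with _ | n
  · rw [show g = 1 from LinearEquiv.ext fun v => (finrank_zero_iff.1 hn).elim _ _]; exact com_one _
  have := finrank_pos_iff.1 (show 0 < finrank F V by omega)
  have h1 : σ c * c = 1 := norm_eq_one_of_scalar hB (g := ⟨g, hg.1⟩) hc
  rw [hn] at h2
  have h3 := Finset.sum_range_id_mul_two (n + 1)
  rw [Nat.add_sub_cancel] at h3
  rcases Nat.even_or_odd' n with ⟨k, rfl | rfl⟩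
  · exact com_scalar_model hH hB hn (l := 1) hc h1 h2 0 (by simp) (by simp) (by
      rw [show ∑ i ∈ Finset.range (2 * k + 1), i = (2 * k + 1) * k by linarith, pow_mul, h2]; simp)
  have h4 : ∑ i ∈ Finset.range (2 * k + 1 + 1), i = (k + 1) * (2 * k + 1) := by linarith
  by_cases h5 : c ^ (k + 1) = 1
  · exact com_scalar_model hH hB hn (l := 1) hc h1 h2 0 (by simp) (by simp) (by
      rw [h4, pow_mul, h5]; simp)
  have h6 := (sq_eq_one_iff_of_ne_zero' (a := c ^ (k + 1)) (by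
    rw [← pow_mul, ← h2]; congr 1; ring)).resolve_left h5
  obtain ⟨l, rfl⟩ : IsSquare c := by
    by_cases h7 : ringChar F = 2
    · exact FiniteField.isSquare_of_char_two h7 c
    obtain ⟨r, rfl⟩ : Odd q := (Nat.odd_pow_iff two_ne_zero).1 (hF ▸ FiniteField.odd_card_of_char_ne_two h7 |>
      Nat.odd_iff.2)
    rw [FiniteField.isSquare_iff h7 fun e => by simp [e] at h1, hF,
      show (2 * r + 1) ^ 2 / 2 = (2 * r + 1 + 1) * r by ring_nf; omega, pow_mul, pow_succ, ← hσ, h1,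
      one_pow]
  have h7 : l ^ (2 * k + 1 + 1) * (l * l) ^ ∑ i ∈ Finset.range (2 * k + 1 + 1), i = 1 := by
    rw [h4, ← one_pow (M := F) (k + 1)]; conv_rhs => rw [← h2]
    ring
  obtain e | e := sq_eq_one_iff_of_ne_zero' (a := σ l * l) (by rw [← h1, map_mul]; ring)
  · exact com_scalar_model hH hB hn hc h1 h2 0 (by simp) (by simpa using e) h7
  · exact com_scalar_model hH hB hn hc h1 h2 ⟨k + 1, by omega⟩
      (Fin.ext (by simp [Fin.val_add, show k + 1 + (k + 1) = 2 * k + 1 + 1 by ring]))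
      (by rw [e, h6]; ring) h7

omit [FiniteDimensional F V] in
theorem tr_su (hH : IsHerm B) : Tr B 𝐐 := fun w y hw hy => by
  obtain ⟨s, s0, s1⟩ := exists_skew_ne_zero hH.ne_id hH.invol
  simp only [map_zero] at hw hy ⊢
  by_cases h : B y w = 0
  · exact ⟨1, one_ne_zero, by simp [hw, hy, h, hH.refl h]⟩
  · exact ⟨s / B y w, by simp [s0, h], by simp [hw, hy, h, ← hH.eq y w, s1]⟩

theorem det_lv (hH : IsHerm B) (hB : B.Nondegenerate) (h : Op B 𝐐 W W') (hW : 0 < finrank F W)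
    (Z : W ≃ₗ[F] W) : LinearMap.det (h.lv Z : End F V) =
      LinearMap.det (Z : End F W) * (σ (LinearMap.det (Z : End F W)))⁻¹ := by
  obtain ⟨e, he⟩ := finrank_pos_iff_exists_ne_zero.1 hW
  obtain ⟨y, hy, x, hx, h1, h2⟩ := lv_fac (polarG_su hH hB (e := e) (by simpa)
    (h.ts.b _ e.2 _ e.2)) h hW Z
  have qy := h.ts.b y hy y hy
  have qx := h.ts'.b x hx x hx
  have h4 := (mem_SUG.1 (h2 _ (uDil hH qy qx h1 (LinearEquiv.det Z)).2
    (by rw [uDil_left, LinearEquiv.coe_det]) (by rw [uDil_right]; exact W'.smul_mem _ hx)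
    fun z => uDil_of_perp hH qy qx h1 _)).2
  rw [← inv_mul_cancel_right (h.lv Z) (uDil hH qy qx h1 (LinearEquiv.det Z)).1, det_mul_equiv, h4,
    det_uDil, one_mul, LinearEquiv.coe_det]

theorem lv_mem_su (hH : IsHerm B) (hB : B.Nondegenerate) (h : Op B 𝐐 W W') (hW : 0 < finrank F W)
    (Z : W ≃ₗ[F] W) :
    h.lv Z ∈ SUG B ↔ σ (LinearMap.det (Z : End F W)) = LinearMap.det (Z : End F W) := by
  rw [mem_SUG, det_lv hH hB h hW, mul_inv_eq_one₀ (by simpa using (LinearEquiv.isUnit_det' Z).ne_zero),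
    eq_comm, and_iff_right (isom_b (h.lv_isom Z))]

theorem su_mid [Finite F] (hH : IsHerm B) (hW : MT B 𝐐 W) (h : Op B 𝐐 W W') :
    perp B W ⊓ perp B W' = ⊥ ∨ ∃ π, B π π ≠ 0 ∧ perp B W ⊓ perp B W' = F ∙ π := by
  obtain ⟨π, hπ⟩ : ∃ π, perp B W ⊓ perp B W' = F ∙ π := by
    refine ((Submodule.finrank_le_one_iff_isPrincipal _).1 ?_).1
    by_contra! hc
    obtain ⟨v, v1, v2, v3⟩ := exists_isotropic_mem hH.ne_id hH.invol hH.symm hc
    exact v2 (hW.an h v1 (by simpa))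
  refine or_iff_not_imp_left.2 fun h0 => ⟨π, fun e => h0 ?_, hπ⟩
  rw [hπ, hW.an (π := π) h (hπ ▸ Submodule.mem_span_singleton_self π) (by simpa),
    Submodule.span_zero_singleton]

theorem su_fx [Finite F] (hH : IsHerm B) (hW : MT B 𝐐 W) (h : Op B 𝐐 W W') (ht : t ∈ SUG B)
    (ht' : t ∈ Fx B 𝐐 W W') : t = 1 := by
  obtain h0 | ⟨π, h1, h2⟩ := su_mid hH hW h
  · exact Fx_eq_one h0 ht'
  rw [Fx, h2] at ht'
  obtain ⟨a, e⟩ := Submodule.mem_span_singleton.1 (ht'.2 π)
  have := det_rank1 (f := (t : End F V)) (fun e => h1 (by simp [e])) ht'.2 (a := 1 + a)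
    (by rw [add_smul, one_smul, e]; simp)
  rw [(mem_SUG.1 ht).2, left_eq_add] at this
  exact Dp_ext h.witt ht' (one_mem _) h1 (by simpa [this, sub_eq_zero] using e.symm)

theorem su_det [Finite F] (hH : IsHerm B) (hB : B.Nondegenerate) (h : Cell B 𝐐 W W' g A)
    (hW : 0 < finrank F W) (h0 : perp B W ⊓ perp B W' = ⊥) (hg : g ∈ SUG B) :
    σ (LinearMap.det (A : End F W)) = LinearMap.det (A : End F W) := by
  obtain ⟨e, he⟩ := finrank_pos_iff_exists_ne_zero.1 hW
  obtain ⟨t, t1, t2, -⟩ := h.dec_mem (polarG_su hH hB (e := e) (by simpa)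
    (h.op.ts.b _ e.2 _ e.2)) hg
  rwa [Fx_eq_one h0 t1, mul_one, lv_mem_su hH hB _ hW] at t2

theorem su_adj [Finite F] (hH : IsHerm B) (hB : B.Nondegenerate) (h : Cell B 𝐐 W W' g A)
    (hW : MT B 𝐐 W) (hg : g ∈ SUG B) {v : W} (hv : B (A v) (g v) ≠ 0) :
    ∃ g' A', Cj B 𝐐 W g g' ∧ Cell B 𝐐 W W' g' A' ∧
      LinearMap.det (A' : End F W) = 1 ∧ (A v ∉ F ∙ v → A' v ∉ F ∙ v) := by
  have h0 : LinearMap.det (A : End F W) ≠ 0 := (LinearEquiv.isUnit_det' A).ne_zero
  obtain ⟨π₀, p0, x, hx, e⟩ := h.dec3 v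
  have k : ∀ (a : F), ∀ π ∈ perp B W ⊓ perp B W', B (a • (A v : V) + π + x) (a • (A v : V) + π + x) =
      σ a * B (A v) x + a * σ (B (A v) x) + B π π := fun a π hπ => by
    simp [h.op.ts.b _ (A v).2 _ (A v).2, h.op.ts'.b x hx x hx, mem_perp.1 hπ.1 _ (A v).2,
      mem_perp.1 hπ.2 x hx, hH.refl (mem_perp.1 hπ.1 _ (A v).2), hH.refl (mem_perp.1 hπ.2 x hx),
      hH.eq]
    ring
  obtain ⟨π, p1, p2⟩ : ∃ π ∈ perp B W ⊓ perp B W', σ (LinearMap.det (A : End F W))⁻¹ * B (A v) x +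
      (LinearMap.det (A : End F W))⁻¹ * σ (B (A v) x) + B π π = 0 := by
    obtain h1 | ⟨π, h1, h2⟩ := su_mid hH hW h.op
    · have h2 := k 1 π₀ p0
      rw [one_smul, ← e, h.b] at h2
      rw [h1] at p0
      refine ⟨0, zero_mem _, ?_⟩
      rw [map_inv₀, su_det hH hB h (finrank_pos_iff_exists_ne_zero.2 ⟨v, fun e => hv (by simp [e])⟩)
        h1 hg, ← mul_add, show B (A v) x + σ (B (A v) x) = 0 by simpa [show π₀ = 0 from p0] using h2.symm]
      simp
    · obtain ⟨s, hs⟩ := exists_smul_norm_eq hH.ne_id hH.invol hH.symm h1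
        (c := -(σ (LinearMap.det (A : End F W))⁻¹ * B (A v) x +
          (LinearMap.det (A : End F W))⁻¹ * σ (B (A v) x))) (by simp [hH.invol, add_comm])
      exact ⟨s • π, h2 ▸ Submodule.smul_mem _ s (Submodule.mem_span_singleton_self π), by
        rw [hs, add_neg_cancel]⟩
  obtain ⟨r, -, hr, -, A', k1, k2, k3⟩ := h.adj1 hv (a := (LinearMap.det (A : End F W))⁻¹ - 1)
    (by simpa) (sub_mem p1 p0) (by
      rw [show g v + ((LinearMap.det (A : End F W))⁻¹ - 1) • (A v : V) + (π - π₀) =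
        (LinearMap.det (A : End F W))⁻¹ • (A v : V) + π + x by rw [e]; module]
      simp only [k _ π p1, p2, map_zero])
  exact ⟨_, A', ⟨r, hr, rfl⟩, k1, by simp [k3, h0], fun e => by
    rwa [k2, Submodule.smul_mem_iff _ (by simpa)]⟩

end CF.Ore
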