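/-
Every element of a finite special unitary group `SU_n(q)`, `n ≥ 3`, `(n, q) ≠ (3, 2)`, is a
commutator.
-/
import Cfsg.Agent.Ore.Su

set_option autoImplicit false

namespace CF.Ore

open Module Polynomial CF.Geom CF.Cls CF.Classical

universe u

variable {F : Type*} {V : Type u} [Field F] [AddCommGroup V] [Module F V] {σ : F →+* F}
  {B : V →ₛₗ[σ] V →ₗ[F] F} {W W' : Submodule F V} {g t : V ≃ₗ[F] V} {A : W ≃ₗ[F] W}
  [FiniteDimensional F V]

local notation "𝐐" => fun x => B x x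

theorem su_finrank [Finite F] (hH : IsHerm B) (hW : MT B 𝐐 W) (h : Op B 𝐐 W W') :
    finrank F ↥(perp B W ⊓ perp B W') ≤ 1 := by
  obtain h0 | ⟨π, -, h0⟩ := su_mid hH hW h
  · rw [h0, finrank_bot]; omega
  · rw [h0]; exact (Submodule.finrank_le_one_iff_isPrincipal _).2 ⟨π, rfl⟩

theorem su_iso [Finite F] (hH : IsHerm B) (h : Cell B 𝐐 W W' g A) (hW : MT B 𝐐 W)
    (h3 : 3 ≤ finrank F W) : ∃ w : W, w ≠ 0 ∧ B (A w) (g w) = 0 := by
  obtain ⟨π, h1⟩ : ∃ π, ∀ x, B π x = 0 → ∀ ρ ∈ perp B W ⊓ perp B W', B ρ x = 0 := by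
    obtain h0 | ⟨π, -, h0⟩ := su_mid hH hW h.op
    · exact ⟨0, fun x _ ρ hρ => by rw [h0] at hρ; simp [show ρ = 0 from hρ]⟩
    · refine ⟨π, fun x hx ρ hρ => ?_⟩
      obtain ⟨c, rfl⟩ := Submodule.mem_span_singleton.1 (h0 ▸ hρ)
      simp [hx]
  obtain ⟨s, s0, s1⟩ := exists_skew_ne_zero hH.ne_id hH.invol
  let K := LinearMap.ker (B π ∘ₗ (g : End F V) ∘ₗ W.subtype)
  have h2 : 2 ≤ finrank F K := by
    have e1 := (B π ∘ₗ (g : End F V) ∘ₗ W.subtype).finrank_range_add_finrank_ker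
    have e2 := (LinearMap.range (B π ∘ₗ (g : End F V) ∘ₗ W.subtype)).finrank_le
    rw [finrank_self] at e2
    simp only [K]; omega
  suffices h : (s • ((B.comp (W.subtype ∘ₗ (A : End F W))).compl₂
      ((g : End F V) ∘ₗ W.subtype)).domRestrict₁₂ K K).IsSymm from
    let ⟨w, w0, w1⟩ := exists_isotropic_of_two_le hH.ne_id hH.invol h h2
    ⟨w, by simpa using w0, (mul_eq_zero.1 w1).resolve_left s0⟩
  refine ⟨fun v z => ?_⟩
  obtain ⟨p, hp, x, hx, e⟩ := h.dec3 v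
  have h4 := h.b v z
  have h5 := mem_perp.1 (h.eq z) x hx
  rw [e, map_add, map_add, LinearMap.add_apply, LinearMap.add_apply, h1 (g z) z.2 p hp, add_zero] at h4
  rw [map_sub, sub_eq_zero] at h5
  change σ (s * B (A v) (g z)) = s * B (A z) (g v)
  rw [e, map_add, map_add, h.op.ts.b _ (A z).2 _ (A v).2, mem_perp.1 hp.1 _ (A z).2, zero_add,
    zero_add, ← hH.eq x, ← h5, eq_neg_of_add_eq_zero_left h4, map_mul, s1, map_neg]
  ring

theorem su_std [Finite F] (hH : IsHerm B) (hB : B.Nondegenerate) (hW : MT B 𝐐 W) (h : Op B 𝐐 W W')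
    (hg : g ∈ SUG B) (hne : ∃ w ∈ W, g w ∉ W) :
    ∃ g' A, Cj B 𝐐 W g g' ∧ Std h g' A ∧ LinearMap.det (A : End F W) = 1 ∧
      (finrank F W ≠ 2 ∨ (∃ s : F, s ≠ 0 ∧ σ s * s ≠ 1) → ∀ c : F, (∀ v, A v = c • v) → A = 1) := by
  have hT := (tr_su hH).h1 (W' := W') hW.ts
  obtain ⟨g₁, A₁, c1, h1⟩ := exists_cj_cell h hW hT hg.1
  obtain ⟨g₂, A₂, c2, h2, v, hv⟩ := h1.exists_beta hW hT (c1.ne hne)
  have v0 : v ≠ 0 := fun e => hv (by simp [e])
  have hG := polarG_su hH hB (e := v) (by simpa) (h.ts.b _ v.2 _ v.2)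
  have k : ∀ {g' A'} {v : W}, Cj B 𝐐 W g g' → Cell B 𝐐 W W' g' A' → B (A' v) (g' v) ≠ 0 →
      ∃ g' A, Cj B 𝐐 W g g' ∧ Std h g' A ∧ LinearMap.det (A : End F W) = 1 ∧
        (A' v ∉ F ∙ v → A v ∉ F ∙ v) := fun c a hv =>
    let ⟨g₄, A₄, c4, h4, k1, k2⟩ := su_adj hH hB a hW (c.mem hG hW.ts hg) hv
    ⟨g₄, A₄, c.trans c4, h4.std hG ((c.trans c4).mem hG hW.ts hg) k1 fun _ => su_fx hH hW h, k1, k2⟩
  by_cases hs : 3 ≤ finrank F W ∨ finrank F W = 2 ∧ ∃ s : F, s ≠ 0 ∧ σ s * s ≠ 1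
  · obtain ⟨g₃, A₃, c3, h3, v, hv, hv'⟩ : ∃ g' A', Cj B 𝐐 W g₂ g' ∧ Cell B 𝐐 W W' g' A' ∧
        ∃ v : W, B (A' v) (g' v) ≠ 0 ∧ A' v ∉ F ∙ v := by
      obtain hm | ⟨hm, s, s0, s1⟩ := hs
      · obtain ⟨w, w0, w1⟩ := su_iso hH h2 hW hm
        exact h2.modR3 hW hm hv w0 w1
      · exact h2.modR2 hW (tr_su hH) hm.ge (by have := su_finrank hH hW h; omega) s0 s1 hv
    obtain ⟨g₄, A₄, c4, h4, k1, k2⟩ := k ((c1.trans c2).trans c3) h3 hv
    exact ⟨g₄, A₄, c4, h4, k1, fun _ => nonscalar_of (k2 hv')⟩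
  obtain ⟨g₄, A₄, c4, h4, k1, -⟩ := k (c1.trans c2) h2 hv
  refine ⟨g₄, A₄, c4, h4, k1, fun hs' c hc => LinearEquiv.ext fun w => ?_⟩
  have : finrank F W = 1 := by
    have : 0 < finrank F W := finrank_pos_iff_exists_ne_zero.2 ⟨v, v0⟩
    by_contra; exact hs (hs'.elim (fun _ => .inl (by omega)) fun e => by
      by_cases 3 ≤ finrank F W; exacts [.inl ‹_›, .inr ⟨by omega, e⟩])
  rw [det_of_scalar hc] at k1
  simp [hc, show c = 1 by simpa [this] using k1]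

theorem su_start [Finite F] (hH : IsHerm B) (hB : B.Nondegenerate) (h2 : 2 ≤ finrank F V)
    (hg : g ∈ SUG B) (hs : ¬ ∃ c : F, ∀ v, g v = c • v) :
    ∃ W W', ∃ h : Op B 𝐐 W W', MT B 𝐐 W ∧ finrank F V / 2 = finrank F W ∧
      ∃ g' A, (Com (SUG B) g' → Com (SUG B) g) ∧ Std h g' A ∧ LinearMap.det (A : End F W) = 1 ∧
      (finrank F W ≠ 2 ∨ (∃ s : F, s ≠ 0 ∧ σ s * s ≠ 1) → ∀ c : F, (∀ v, A v = c • v) → A = 1) := by
  obtain ⟨e, he, he'⟩ := exists_isotropic_of_two_le hH.ne_id hH.invol hH.symm h2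
  obtain ⟨W, hW, hne⟩ := exists_MT_ne (hH.wittPair hB) he (by simpa) (.inr (tr_su hH)) hg.1 hs
  obtain ⟨W', h⟩ := exists_op (hH.wittPair hB) hW.ts
  obtain ⟨g', A, c, k⟩ := su_std hH hB hW h hg hne
  have h1 := h.finrank_add
  have h3 := su_finrank hH hW h
  exact ⟨W, W', h, hW, by omega, g', A, c.com (polarG_su hH hB he he') hW.ts, k⟩

theorem ore_su_big [Fintype F] {q : ℕ} (hF : Fintype.card F = q ^ 2) (hσ : ∀ x, σ x = x ^ q)
    (hq : 3 ≤ q) (hH : IsHerm B) (hB : B.Nondegenerate) (h3 : 3 ≤ finrank F V) (hg : g ∈ SUG B) :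
    Com (SUG B) g := by
  by_cases hs : ∃ c : F, ∀ v, g v = c • v
  · exact com_scalar_su hF hσ hH hB hg hs.choose_spec
  obtain ⟨e, he, he'⟩ := exists_isotropic_of_two_le hH.ne_id hH.invol hH.symm (by omega)
  have hG := polarG_su hH hB he he'
  obtain ⟨W, W', h, hW, h1, g', A, c1, h2, h4, h5⟩ := su_start hH hB (by omega) hg hs
  have gp : ∀ d, d ≠ 0 → ∃ b ν, GP σ b d ν ∧ ν ≠ 1 ∧ ν * ν ≠ 1 ∧ σ ν ≠ ν ∧ σ ν * ν ≠ 1 ∧
      σ ν ≠ ν * ν := fun d hd => by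
    obtain ⟨n, rfl⟩ := Nat.exists_eq_succ_of_ne_zero hd
    have h6 : q + 2 < Fintype.card F := by rw [hF]; nlinarith
    obtain ⟨b, ν, hb⟩ := exists_gp hσ (hF ▸ dvd_pow_self q two_ne_zero) hd (by
      have h7 := Nat.one_le_pow n (Fintype.card F) (by omega)
      rw [Nat.succ_sub_one, pow_succ]
      have := Nat.mul_le_mul_left (Fintype.card F ^ n) h6
      have := Nat.mul_le_mul_right (q + 2) h7
      apply Nat.lt_sub_of_add_lt; nlinarith)
    obtain ⟨r, rfl⟩ : ∃ r, q = r + 3 := ⟨q - 3, by omega⟩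
    refine ⟨b, ν, hb, pow_one ν ▸ hb.pow_ne one_pos (by omega), sq ν ▸ hb.pow_ne two_pos (by omega),
      fun e => hb.pow_ne (k := r + 2) (by omega) (by omega) (mul_right_cancel₀ hb.ne ?_),
      by rw [hσ, ← pow_succ]; exact hb.pow_ne (by omega) (by omega), fun e =>
      hb.pow_ne (k := r + 1) (by omega) (by omega) (mul_right_cancel₀ (mul_ne_zero hb.ne hb.ne) ?_)⟩
    all_goals rw [hσ] at e; linear_combination e
  obtain ⟨b, ν, hb, n1, n2, n3, n4, n5⟩ := gp (if finrank F W = 1 then 1 else finrank F W - 1)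
    (by split_ifs <;> omega)
  have n0 : σ ν ≠ 0 := by simpa using hb.ne
  replace h5 := h5 (.inr ⟨ν, hb.ne, n4⟩)
  refine c1 ?_
  split_ifs at hb with hm
  · obtain h0 | ⟨π, p1, p2⟩ := su_mid hH hW h
    · have := h.finrank_add; rw [h0, finrank_bot] at this; omega
    have p3 : σ (B π π) = B π π := hH.eq π π
    have p4 : (σ ν / ν - 1) / B π π + σ ((σ ν / ν - 1) / B π π) +
        σ ((σ ν / ν - 1) / B π π) * ((σ ν / ν - 1) / B π π) * B π π = 0 := by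
      have := hb.ne
      simp only [map_div₀, map_sub, map_one, hH.invol, p3]; field_simp; ring
    refine h2.com_i hG h4 h5 (b := 1) monic_one (by simp [hm]) (by simp) hb.ne (by simp)
      (t := (uRank1 hH π _ p4).1) (c₀ := X - C (σ ν / ν)) ⟨Subtype.prop _, fun x => p2 ▸ by
        simpa [uRank1_apply] using Submodule.smul_mem _ _ (Submodule.mem_span_singleton_self π)⟩
      (fun ρ hρ => ?_) ?_ fun Z hZ => mem_SUG.2 ⟨isom_b (mul_mem (h.lv_isom Z) (Subtype.prop _)), ?_⟩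
    · obtain ⟨c, rfl⟩ := Submodule.mem_span_singleton.1 (p2 ▸ hρ)
      simp [uRank1_apply, p1, sub_smul]
    · have := hb.ne
      rw [mul_one]
      refine ⟨?_, ?_, ?_⟩ <;> (try rw [cr_X_sub_C hb.ne]) <;> refine cop_X_sub ?_ <;>
        simp only [eval_sub, eval_X, eval_C, sub_ne_zero] <;> intro e <;> field_simp at e
      · exact n5 (by linear_combination -e)
      · exact n4 (by linear_combination e)
      · exact n5 (by simpa [hH.invol, sq] using congrArg σ e)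
    · rw [det_mul_equiv, det_lv hH hB h (by omega), det_uRank1, hZ]
      have := hb.ne
      simp [p1]; field_simp
  have n6 : σ (σ ν) * σ ν ≠ 1 := by rwa [hH.invol, mul_comm]
  have n7 : σ ν ≠ 1 := fun e => n6 (by simp [e])
  suffices b.eval (σ ν) ≠ 0 ∧ Gd1 σ (σ ν) b (X - C 1) from
    h2.com_i hG h4 h5 hb.monic (by rw [hb.deg]; omega) hb.coeff_ne n0 this.1 (one_mem _)
      (fun π _ => by simp) (this.2.gd n0 n6) fun Z hZ => by
      rw [mul_one, lv_mem_su hH hB h (by omega), hZ, hb.det, map_mul, hH.invol, mul_comm]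
  by_cases h6 : finrank F W = 2
  · obtain rfl : b = X - C ν := by
      rw [hb.monic.eq_X_add_C (by rw [hb.deg, h6]), ← hb.det, hb.deg, h6]; simp
    have := hb.ne
    refine ⟨by simpa [sub_eq_zero], gd1_of n0 hb.cop ?_ ?_ ?_ ?_ (cop_X_sub ?_)
      ((cr_X_sub_C (σ := σ) hb.ne).symm ▸ cop_X_sub (b := X - C 1) (a := (σ ν)⁻¹) ?_)⟩ <;>
      simp only [cr_X_sub_C hb.ne, hH.invol, eval_sub, eval_X, eval_C, sub_ne_zero] <;> intro e
    · exact n2 (by field_simp at e; linear_combination -e)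
    · exact n2 (σ.injective (by field_simp at e; simpa [sq] using e))
    · exact n7 e
    · exact n1 (by simpa using e)
    · exact n1 e
    · exact n7 (by simpa using e)
  · exact ⟨eval_ne_of_irr hb.irr (by rw [hb.deg]; omega) _,
      hb.gd1_X_sub_one hH.invol (by omega) n0 n7⟩

end CF.Ore
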