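/-
Every element of a finite special unitary group `SU_n(q)`, `n ≥ 3`, `(n, q) ≠ (3, 2)`, is a
commutator: the field with four elements.
-/
import Cfsg.Agent.Ore.Su2

set_option autoImplicit false

namespace CF.Ore

open Module Polynomial CF.Geom CF.Cls CF.Classical

universe u

variable {F : Type*} {V : Type u} [Field F] [AddCommGroup V] [Module F V] {σ : F →+* F}
  {B : V →ₛₗ[σ] V →ₗ[F] F} {W W' : Submodule F V} {g t : V ≃ₗ[F] V} {A : W ≃ₗ[F] W}
  [FiniteDimensional F V]

local notation "𝐐" => fun x => B x x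

theorem rad_bound (hH : IsHerm B) (k : ℕ) (E : Submodule F V) :
    (∃ v : Fin (k + 1) → V, OrthFam B v ∧ ∀ i, v i ∈ E) ∨
      ∃ T ≤ E, T ≤ perp B E ∧ finrank F E ≤ finrank F T + k := by
  induction k generalizing E with
  | zero =>
    by_cases hc : ∃ e ∈ E, B e e ≠ 0
    · obtain ⟨e, h1, h2⟩ := hc
      exact .inl ⟨fun _ => e, ⟨fun _ => h2, fun i j h => (h (Fin.ext (by omega))).elim⟩, fun _ => h1⟩
    push Not at hc
    refine .inr ⟨E, le_rfl, fun x hx => mem_perp.2 fun y hy => by_contra fun h => ?_, le_rfl⟩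
    obtain ⟨a, b, h1⟩ := exists_nonisotropic (.inl hH.ne_id) hH.symm h
    exact h1 (hc _ (add_mem (E.smul_mem a hy) (E.smul_mem b hx)))
  | succ k ih =>
    obtain h | ⟨T, h1, h2, h3⟩ := ih E
    swap
    · exact .inr ⟨T, h1, h2, by omega⟩
    obtain ⟨e, h1, h2⟩ : ∃ e ∈ E, B e e ≠ 0 := let ⟨v, h1, h2⟩ := h; ⟨v 0, h2 0, h1.ne 0⟩
    obtain ⟨v, h3, h4⟩ | ⟨T, h3, h4, h5⟩ := ih (E ⊓ perp B (F ∙ e))
    · exact .inl ⟨_, h3.snoc hH.symm.isRefl h2 (mem_perp_range.2 fun i =>
        hH.refl (mem_perp_singleton.1 (h4 i).2)), Fin.lastCases (by simpa) fun i => by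
          simpa using (h4 i).1⟩
    have h6 : ∀ x ∈ E, x - (B e x / B e e) • e ∈ E ⊓ perp B (F ∙ e) := fun x hx =>
      ⟨sub_mem hx (E.smul_mem _ h1), mem_perp_singleton.2 (by simp [h2])⟩
    refine .inr ⟨T, h3.trans inf_le_left, fun x hx => mem_perp.2 fun y hy => ?_, ?_⟩
    · simpa [mem_perp_singleton.1 (h3 hx).2] using mem_perp.1 (h4 hx) _ (h6 y hy)
    · have h7 := Submodule.finrank_mono (show E ≤ (E ⊓ perp B (F ∙ e)) ⊔ F ∙ e from fun x hx =>
        Submodule.mem_sup.2 ⟨_, h6 x hx, _, Submodule.smul_mem _ _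
          (Submodule.mem_span_singleton_self e), sub_add_cancel _ _⟩)
      rw [Submodule.finrank_sup_span_singleton fun h => h2 (mem_perp_singleton.1 (Submodule.mem_inf.1 h).2)] at h7
      omega

theorem cw4 [Fintype F] (hF : Fintype.card F = 4) (hσ : ∀ x, σ x = x ^ 2) (hH : IsHerm B)
    (g : V ≃ₗ[F] V) {U : Submodule F V} (h4 : 4 ≤ finrank F U) :
    ∃ v ∈ U, v ≠ 0 ∧ B v v = 0 ∧ B v (g v) = 0 := by
  classical
  obtain ⟨u, hu⟩ := exists_linearIndependent_of_le_finrank h4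
  have k : ∀ a b : U →ₗ[F] V, ∃ p : MvPolynomial (Fin 4) F, p.totalDegree ≤ 3 ∧
      ∀ x, MvPolynomial.eval x p = B (a (∑ i, x i • u i)) (b (∑ i, x i • u i)) := fun a b => by
    refine ⟨∑ i, ∑ j, MvPolynomial.C (B (a (u i)) (b (u j))) * (MvPolynomial.X i ^ 2 * MvPolynomial.X j),
      MvPolynomial.totalDegree_finsetSum_le fun i _ => MvPolynomial.totalDegree_finsetSum_le fun j _ =>
        (MvPolynomial.totalDegree_mul _ _).trans ?_, fun x => ?_⟩
    · refine (Nat.add_le_add_left (MvPolynomial.totalDegree_mul _ _) _).trans ?_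
      simp [MvPolynomial.totalDegree_X_pow]
    · simp only [map_sum, map_mul, map_pow, MvPolynomial.eval_C, MvPolynomial.eval_X,
        LinearMap.map_smulₛₗ, LinearMap.sum_apply, LinearMap.smul_apply, hσ, smul_eq_mul,
        RingHom.id_apply, Finset.mul_sum]
      rw [Finset.sum_comm]
      exact Finset.sum_congr rfl fun i _ => Finset.sum_congr rfl fun j _ => by ring
  obtain ⟨p, p1, p2⟩ := k U.subtype U.subtype
  obtain ⟨q, q1, q2⟩ := k U.subtype ((g : End F V) ∘ₗ U.subtype)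
  obtain ⟨r, r1, r2⟩ := k ((g : End F V) ∘ₗ U.subtype) U.subtype
  have h1 := MvPolynomial.sum_eval_eq_zero ((1 - p) * (1 - q * r)) (by
    have e1 := MvPolynomial.totalDegree_mul (1 - p) (1 - q * r)
    have e2 := MvPolynomial.totalDegree_sub 1 p
    have e3 := MvPolynomial.totalDegree_sub 1 (q * r)
    have e4 := MvPolynomial.totalDegree_mul q r
    rw [MvPolynomial.totalDegree_one] at e2 e3
    simp only [hF, Fintype.card_fin]; omega)
  by_contra! hc
  rw [Finset.sum_eq_single 0 (fun x _ hx => ?_) (by simp)] at h1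
  · simp only [map_mul, map_sub, map_one, p2, q2] at h1
    simp at h1
  simp only [map_mul, map_sub, map_one, p2, q2, r2]
  have h0 : ∑ i, x i • u i ≠ 0 := fun e => hx (funext (Fintype.linearIndependent_iff.1 hu x e))
  generalize ∑ i, x i • u i = v at *
  change (1 - B v v) * (1 - B v (g v) * B (g v) v) = 0
  by_cases h2 : B v v = 0
  · have := FiniteField.pow_card_sub_one_eq_one _ (hc v v.2 (by simpa) h2)
    rw [← hH.eq v (g v), hσ]
    rw [hF] at this
    linear_combination (B v v - 1) * this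
  · have := (hσ _).symm.trans (hH.eq v v)
    rw [show B v v = 1 from mul_left_cancel₀ h2 (by linear_combination this), sub_self, zero_mul]

theorem ore_su_base [Fintype F] (hF : Fintype.card F = 2 ^ 2) (hσ : ∀ x, σ x = x ^ 2) (hH : IsHerm B)
    (hB : B.Nondegenerate) (h4 : 4 ≤ finrank F V) (h7 : finrank F V ≤ 7) (hg : g ∈ SUG B) :
    Com (SUG B) g := by
  by_cases hs : ∃ c : F, ∀ v, g v = c • v
  · exact com_scalar_su hF hσ hH hB hg hs.choose_spec
  obtain ⟨e, he, he'⟩ := exists_isotropic_of_two_le hH.ne_id hH.invol hH.symm (by omega)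
  have hG := polarG_su hH hB he he'
  obtain ⟨W, W', h, hW, h1, g', A, c1, h2, h3, h5⟩ := su_start hH hB (by omega) hg hs
  have h6 : ∀ x : F, x ^ 4 = x := fun x => by simpa [hF] using FiniteField.pow_card x
  have k : ∀ {p p'}, IR σ p p' → Fac A p p' 1 → Com (SUG B) g := fun hp hA =>
    c1 (h2.com_fac hG hH.invol hp hA (fun Z => h.lv_mem_of_det hG) (fun Z hZ k hk => by
      obtain ⟨z, z1, z2⟩ := hZ.ge (Subgroup.mem_top (LinearEquiv.det k))
      refine ⟨h.lv z, by rw [← map_mul, ← map_mul]; exact congrArg _ (LinearEquiv.ext z1),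
        mem_SUG.2 ⟨isom_b (mul_mem hk (h.lv_isom z)), ?_⟩⟩
      rw [det_mul_equiv, det_lv hH hB h (by omega), ← LinearEquiv.coe_det, ← LinearEquiv.coe_det, z2,
        hσ, ← mul_assoc, ← sq, mul_inv_cancel₀ (pow_ne_zero _ (Units.ne_zero _))]) (by omega))
  by_cases hm : finrank F W = 2
  · obtain ⟨ω, h8, h9⟩ := fac42 (W := W) hF
    exact k (ir_four h6 hσ h8) (h9 hm h3)
  · exact k (ir_two h6) (fac43 hF (by omega) h3 (h5 (.inl hm)))

theorem ore_su_matched [Fintype F] (hF : Fintype.card F = 2 ^ 2) (hσ : ∀ x, σ x = x ^ 2)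
    (hH : IsHerm B) (hB : B.Nondegenerate) (h8 : 8 ≤ finrank F V) (hg : g ∈ SUG B)
    (hk : ∀ c : F, ∃ T ≤ End.eigenspace (g : End F V) c, T ≤ perp B (End.eigenspace (g : End F V) c) ∧
      finrank F (End.eigenspace (g : End F V) c) ≤ finrank F T + 2) : Com (SUG B) g := by
  have hw := hH.wittPair hB
  obtain ⟨e, he, he'⟩ := exists_isotropic_of_two_le hH.ne_id hH.invol hH.symm (by omega)
  have hG := polarG_su hH hB he he'
  have h3 : ∀ c : F, c ≠ 0 → σ c * c = 1 := fun c hc => by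
    simpa [hF, hσ, ← pow_succ] using FiniteField.pow_card_sub_one_eq_one c hc
  obtain ⟨v, v1, v2, v3⟩ : ∃ v, B v v = 0 ∧ B v (g v) = 0 ∧ g v ∉ F ∙ v := by
    by_cases hc : ∃ (c c' : F) (x y : V), c ≠ c' ∧ x ≠ 0 ∧ y ≠ 0 ∧ B x x = 0 ∧ B y y = 0 ∧
        g x = c • x ∧ g y = c' • y
    · obtain ⟨c, c', x, y, h1, x0, y0, x1, y1, x2, y2⟩ := hc
      have h2 : B x y = 0 := by
        have := isom_b hg.1 x y
        rw [x2, y2, map_smul, LinearMap.map_smulₛₗ₂, smul_eq_mul, smul_eq_mul] at this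
        have c0 : c ≠ 0 := fun e => x0 (g.map_eq_zero_iff.1 (by simp [x2, e]))
        exact mul_left_cancel₀ (sub_ne_zero.2 h1) (by
          linear_combination -c * this + c' * B x y * h3 c c0)
      refine ⟨x + y, by simp [x1, y1, h2, hH.refl h2], by simp [x1, y1, x2, y2, h2, hH.refl h2],
        fun e => ?_⟩
      obtain ⟨a, e⟩ := Submodule.mem_span_singleton.1 e
      have e1 : (a - c) • x = (c' - a) • y := by
        rw [map_add, x2, y2] at e; linear_combination (norm := module) e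
      have e2 := congrArg g e1
      rw [map_smul, map_smul, x2, y2, smul_comm, e1, smul_comm _ c', ← sub_eq_zero, ← sub_smul,
        smul_eq_zero, sub_eq_zero, smul_eq_zero, sub_eq_zero] at e2
      obtain rfl : c' = a := by simpa [h1, y0] using e2
      simp [x0, sub_eq_zero, h1.symm] at e1
    obtain ⟨c, h1⟩ : ∃ c : F, ∀ (c' : F) (y : V), y ≠ 0 → B y y = 0 → g y = c' • y → c' = c := by
      by_contra! h1
      obtain ⟨c, x, x0, x1, x2, -⟩ := h1 0
      obtain ⟨c', y, y0, y1, y2, y3⟩ := h1 c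
      exact hc ⟨c', c, y, x, y3, y0, x0, y1, x1, y2, x2⟩
    obtain ⟨T, t1, t2, t3⟩ := hk c
    obtain ⟨C, hC⟩ := Submodule.exists_isCompl (End.eigenspace (g : End F V) c)
    have h4 := Submodule.finrank_add_eq_of_isCompl hC
    have h5 := hw.finrank_perp (End.eigenspace (g : End F V) c)
    obtain ⟨U, u1, u2⟩ : ∃ U : Submodule F V, 4 ≤ finrank F U ∧
        ∀ x ∈ U, x ∈ End.eigenspace (g : End F V) c → B x x = 0 → x = 0 := by
      obtain ⟨f, f1, f2⟩ | ⟨T, t1, t2, t3⟩ := rad_bound hH 0 (End.eigenspace (g : End F V) c)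
      · have h6 := Submodule.finrank_mono t2
        refine ⟨C ⊔ F ∙ f 0, ?_, fun x hx x1 x2 => ?_⟩
        · rw [Submodule.finrank_sup_span_singleton fun e => f1.ne 0 (by
            simp [Submodule.disjoint_def.1 hC.disjoint _ (f2 0) e])]
          omega
        · obtain ⟨y, hy, _, hz, rfl⟩ := Submodule.mem_sup.1 hx
          obtain ⟨a, rfl⟩ := Submodule.mem_span_singleton.1 hz
          obtain rfl := Submodule.disjoint_def.1 hC.disjoint y
            ((Submodule.add_mem_iff_left _ (Submodule.smul_mem _ a (f2 0))).1 x1) hy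
          simp [show a = 0 by simpa [f1.ne 0] using x2]
      · have h6 := Submodule.finrank_mono t2
        exact ⟨C, by omega, fun x hx x1 _ => Submodule.disjoint_def.1 hC.disjoint x x1 hx⟩
    obtain ⟨v, v0, v1, v2, v3⟩ := cw4 hF hσ hH g u1
    refine ⟨v, v2, v3, fun e => v1 (u2 v v0 ?_ v2)⟩
    obtain ⟨a, e⟩ := Submodule.mem_span_singleton.1 e
    exact End.mem_eigenspace_iff.2 (h1 a v v1 v2 e.symm ▸ e.symm)
  have hm : ∀ W, MT B 𝐐 W → ∃ W', ∃ _ : Op B 𝐐 W W', finrank F V / 2 = finrank F W ∧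
      (finrank F V = 8 → perp B W ⊓ perp B W' = ⊥) := fun W hW => by
    obtain ⟨W', h⟩ := exists_op hw hW.ts
    have h1 := h.finrank_add
    have h2 := su_finrank hH hW h
    exact ⟨W', h, by omega, fun e => Submodule.finrank_eq_zero.1 (by omega)⟩
  obtain ⟨W, W', h, hW, h1, w1, w2, g', A, c1, h2, h4⟩ : ∃ W W', ∃ h : Op B 𝐐 W W', MT B 𝐐 W ∧
      finrank F V / 2 = finrank F W ∧ v ∈ W ∧ g v ∈ W ∧ ∃ g' A, Cj B 𝐐 W g g' ∧ Std h g' A ∧
        LinearMap.det (A : End F W) = 1 := by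
    by_cases h9 : finrank F V = 8
    · obtain ⟨W, hW, h1⟩ := exists_MT hw ((TS.bot.sup hw (x := v) (by simp [perp_bot])
        (by simpa)).sup hw (x := g v) (by rwa [bot_sup_eq, mem_perp_singleton])
        (by simpa [isom_b hg.1]))
      obtain ⟨W', h, h2, h4⟩ := hm W hW
      obtain ⟨g', A, c1, h5⟩ := exists_cj_cell h hW ((tr_su hH).h1 hW.ts) hg.1
      have h6 := su_det hH hB h5 (by omega) (h4 h9) (c1.mem hG hW.ts hg)
      have h7 : LinearMap.det (A : End F W) = 1 :=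
        mul_left_cancel₀ (LinearEquiv.isUnit_det' A).ne_zero (by rw [← sq, ← hσ, h6, mul_one])
      exact ⟨W, W', h, hW, h2, h1 (Submodule.mem_sup_left (Submodule.mem_sup_right
        (Submodule.mem_span_singleton_self _))), h1 (Submodule.mem_sup_right
        (Submodule.mem_span_singleton_self _)), g', A, c1,
        h5.std hG (c1.mem hG hW.ts hg) h7 fun _ => su_fx hH hW h, h7⟩
    · obtain ⟨W, hW, w1, w2, hne⟩ := exists_MT_matched hw (tr_su hH) hk (by omega)
        (fun W hW => by obtain ⟨_, _, e, -⟩ := hm W hW; omega) hg.1 (by simpa) v2 v3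
      obtain ⟨W', h, h2, -⟩ := hm W hW
      obtain ⟨g', A, c1, h4, h5, -⟩ := su_std hH hB hW h hg hne
      exact ⟨W, W', h, hW, h2, w1, w2, g', A, c1, h4, h5⟩
  obtain ⟨b, ν, hb⟩ := exists_gp (d := finrank F W - 1) hσ (by simp [hF]) (by omega) (by
    obtain ⟨n, hn⟩ : ∃ n, finrank F W - 1 = n + 2 := ⟨finrank F W - 3, by omega⟩
    have := Nat.one_le_pow n 4 (by omega)
    rw [hn, hF, show n + 2 - 1 = n + 1 from rfl, show 2 ^ 2 = 4 from rfl, pow_succ _ (n + 1),
      pow_succ _ n]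
    omega)
  have n0 : σ ν ≠ 0 := by simpa using hb.ne
  exact c1.com hG hW.ts (h2.com_iii hG h4 w1 (c1.eq w1 w2 ▸ w2) (c1.eq w1 w2 ▸ v3) hb.monic
    (by rw [hb.deg]; omega) hb.coeff_ne (h3 _ n0) (eval_ne_of_irr hb.irr (by rw [hb.deg]; omega) _)
    (c₀ := X - C 1) (fun π _ => by simp) (hb.gd1_X_sub_one hH.invol (by omega) n0
      (hσ ν ▸ hb.pow_ne two_pos (by omega))) fun Z hZ => h.lv_mem_of_det hG (by
        rw [hZ, hb.det, h3 ν hb.ne]))

theorem ore_su_small [Fintype F] (hF : Fintype.card F = 2 ^ 2) (hσ : ∀ x, σ x = x ^ 2) (n : ℕ) :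
    ∀ (V : Type u) [AddCommGroup V] [Module F V] [FiniteDimensional F V] (B : V →ₛₗ[σ] V →ₗ[F] F),
      IsHerm B → B.Nondegenerate → 4 ≤ finrank F V → finrank F V ≤ n + 7 →
      ∀ g ∈ SUG B, Com (SUG B) g := by
  induction n with
  | zero => exact fun V _ _ _ B hH hB h4 h7 g hg => ore_su_base hF hσ hH hB h4 h7 hg
  | succ n ih =>
    intro V _ _ _ B hH hB h4 h7 g hg
    by_cases h8 : finrank F V ≤ 7
    · exact ore_su_base hF hσ hH hB h4 h8 hg
    by_cases hE : ∃ (c : F) (v : Fin 3 → V), OrthFam B v ∧ ∀ i, v i ∈ End.eigenspace (g : End F V) c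
    swap
    · exact ore_su_matched hF hσ hH hB (by omega) hg fun c =>
        (rad_bound hH 2 _).resolve_left fun e => hE ⟨c, e⟩
    obtain ⟨c, v, h1, h2⟩ := hE
    have hw := hH.wittPair hB
    have h3 : ∀ u ∈ Submodule.span F (Set.range v), g u = c • u := fun u hu =>
      End.mem_eigenspace_iff.1 (Submodule.span_le.2 (Set.range_subset_iff.2 h2) hu)
    obtain ⟨g₁, k1, g₂, k2, k3, k4, k5⟩ := com_break hw h1.disjoint hg.1
      (fun u hu => h3 u hu ▸ Submodule.smul_mem _ c hu) ⊥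
    have h5 := h1.finrank_perp hw.surj hB
    have h6 : ∀ u, g₁ u = c • u := fun u => Subtype.ext ((k3 u).trans (h3 u u.2))
    have h9 : LinearMap.det (g₁ : End F (Submodule.span F (Set.range v))) = 1 := by
      have := FiniteField.pow_card_sub_one_eq_one c fun e => h1.ne 0 (by
        simp [g.map_eq_zero_iff.1 ((End.mem_eigenspace_iff.1 (h2 0)).trans (by simp [e]))])
      rwa [det_of_scalar h6, finrank_span_eq_card h1.linearIndependent, Fintype.card_fin,
        show 3 = Fintype.card F - 1 by rw [hF]; rfl]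
    rw [(mem_SUG.1 hg).2, h9, one_mul] at k4
    rw [Fintype.card_fin] at h5
    exact k5 (com_scalar_su hF hσ (hH.restrict _) (hw.restrict h1.disjoint).nondegenerate
      (mem_SUG.2 ⟨isom_b k1, h9⟩) h6) (ih _ _ (hH.restrict _)
        (hw.restrict (hw.disjoint_perp_perp h1.disjoint)).nondegenerate (by omega) (by omega) _
        (mem_SUG.2 ⟨isom_b k2, k4.symm⟩))

theorem ore_su [Fintype F] {q : ℕ} (hF : Fintype.card F = q ^ 2) (hσ : ∀ x, σ x = x ^ q)
    (hH : IsHerm B) (hB : B.Nondegenerate) (h3 : 3 ≤ finrank F V) (h : ¬ (finrank F V = 3 ∧ q = 2))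
    (hg : g ∈ SUG B) : Com (SUG B) g := by
  by_cases hq : 3 ≤ q
  · exact ore_su_big hF hσ hq hH hB h3 hg
  have := Fintype.one_lt_card (α := F)
  obtain rfl : q = 2 := by interval_cases q <;> omega
  exact ore_su_small hF hσ (finrank F V) V B hH hB (by omega) (by omega) g hg

end CF.Ore
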